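import Cfsg.Prelude.Def_TwoFusion

/-!
Direct decompositions of groups and criteria for indecomposability.
-/

set_option autoImplicit false

open scoped commutatorElement

namespace Cfsg.Agent.H62.Indec

/-- `G` is the internal direct product of two nontrivial subgroups. -/
def Decomp (G : Type*) [Group G] : Prop :=
  ∃ A B : Subgroup G, A ≠ ⊥ ∧ B ≠ ⊥ ∧ Cfsg.IsInternalDirectProduct A B ⊤

theorem decomp_map {G H : Type*} [Group G] [Group H] (f : G →* H) (hinj : Function.Injective f)
    {A B C : Subgroup G} (h : Cfsg.IsInternalDirectProduct A B C) :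
    Cfsg.IsInternalDirectProduct (A.map f) (B.map f) (C.map f) := by
  obtain ⟨hA, hB, hc, hi, hs⟩ := h
  refine ⟨Subgroup.map_mono hA, Subgroup.map_mono hB, ?_, ?_, ?_⟩
  · rintro _ ⟨a, ha, rfl⟩ _ ⟨b, hb, rfl⟩
    rw [← map_mul, hc a ha b hb, map_mul]
  · rw [← Subgroup.map_inf A B f hinj, hi, Subgroup.map_bot]
  · rw [← Subgroup.map_sup, hs]

theorem decomp_congr {G H : Type*} [Group G] [Group H] (e : G ≃* H) : Decomp G ↔ Decomp H := by
  constructor
  · rintro ⟨A, B, hA, hB, h⟩
    refine ⟨A.map e.toMonoidHom, B.map e.toMonoidHom,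
      (Subgroup.map_eq_bot_iff_of_injective A e.injective).not.2 hA,
      (Subgroup.map_eq_bot_iff_of_injective B e.injective).not.2 hB, ?_⟩
    have := decomp_map e.toMonoidHom e.injective h
    rwa [Subgroup.map_top_of_surjective _ e.surjective] at this
  · rintro ⟨A, B, hA, hB, h⟩
    refine ⟨A.map e.symm.toMonoidHom, B.map e.symm.toMonoidHom,
      (Subgroup.map_eq_bot_iff_of_injective A e.symm.injective).not.2 hA,
      (Subgroup.map_eq_bot_iff_of_injective B e.symm.injective).not.2 hB, ?_⟩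
    have := decomp_map e.symm.toMonoidHom e.symm.injective h
    rwa [Subgroup.map_top_of_surjective _ e.symm.surjective] at this

theorem decomp_subgroup_iff {G : Type*} [Group G] (P : Subgroup G) :
    (∃ A B : Subgroup G, A ≠ ⊥ ∧ B ≠ ⊥ ∧ Cfsg.IsInternalDirectProduct A B P) ↔ Decomp P := by
  constructor
  · rintro ⟨A, B, hA, hB, h⟩
    obtain ⟨hAP, hBP, hc, hi, hs⟩ := h
    refine ⟨A.subgroupOf P, B.subgroupOf P, ?_, ?_, le_top, le_top, ?_, ?_, ?_⟩
    · exact fun h0 => hA (eq_bot_iff.2 ((inf_eq_left.2 hAP).ge.trans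
        (le_of_eq (disjoint_iff.1 (Subgroup.subgroupOf_eq_bot.1 h0)))))
    · exact fun h0 => hB (eq_bot_iff.2 ((inf_eq_left.2 hBP).ge.trans
        (le_of_eq (disjoint_iff.1 (Subgroup.subgroupOf_eq_bot.1 h0)))))
    · intro a ha b hb
      exact Subtype.ext (hc a ha b hb)
    · rw [eq_bot_iff]
      intro g hg
      exact Subtype.ext (hi.le ⟨hg.1, hg.2⟩)
    · apply Subgroup.map_injective P.subtype_injective
      rw [Subgroup.map_sup, Subgroup.map_subgroupOf_eq_of_le hAP,
        Subgroup.map_subgroupOf_eq_of_le hBP, hs, ← MonoidHom.range_eq_map, Subgroup.range_subtype]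
  · rintro ⟨A, B, hA, hB, h⟩
    refine ⟨A.map P.subtype, B.map P.subtype,
      (Subgroup.map_eq_bot_iff_of_injective A P.subtype_injective).not.2 hA,
      (Subgroup.map_eq_bot_iff_of_injective B P.subtype_injective).not.2 hB, ?_⟩
    have := decomp_map P.subtype P.subtype_injective h
    rwa [← MonoidHom.range_eq_map, Subgroup.range_subtype] at this

theorem exists_mul_of_decomp {G : Type*} [Group G] {A B : Subgroup G}
    (h : Cfsg.IsInternalDirectProduct A B ⊤) (g : G) : ∃ a ∈ A, ∃ b ∈ B, g = a * b := by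
  obtain ⟨-, -, hc, -, hs⟩ := h
  let S : Subgroup G :=
    { carrier := {g | ∃ a ∈ A, ∃ b ∈ B, g = a * b}
      one_mem' := ⟨1, one_mem A, 1, one_mem B, (one_mul 1).symm⟩
      mul_mem' := by
        rintro _ _ ⟨a, ha, b, hb, rfl⟩ ⟨a', ha', b', hb', rfl⟩
        exact ⟨a * a', mul_mem ha ha', b * b', mul_mem hb hb', by
          rw [mul_assoc, ← mul_assoc b, ← hc a' ha' b hb]; group⟩
      inv_mem' := by
        rintro _ ⟨a, ha, b, hb, rfl⟩
        exact ⟨a⁻¹, inv_mem ha, b⁻¹, inv_mem hb, by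
          rw [_root_.mul_inv_rev, hc a⁻¹ (inv_mem ha) b⁻¹ (inv_mem hb)]⟩ }
  have : A ⊔ B ≤ S := sup_le (fun a ha => ⟨a, ha, 1, one_mem B, (mul_one a).symm⟩)
    (fun b hb => ⟨1, one_mem A, b, hb, (one_mul b).symm⟩)
  exact this (hs ▸ Subgroup.mem_top g)

theorem center_of_factor {G : Type*} [Group G] {p : ℕ} [Fact p.Prime] [Finite G]
    (hG : IsPGroup p G) {A B : Subgroup G} (h : Cfsg.IsInternalDirectProduct A B ⊤) (hA : A ≠ ⊥) :
    ∃ a ∈ A, a ≠ 1 ∧ ∀ g, a * g = g * a := by
  have : Nontrivial A := A.nontrivial_iff_ne_bot.2 hA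
  have := (hG.to_subgroup A).center_nontrivial
  obtain ⟨⟨a, ha⟩, hne⟩ := exists_ne (1 : Subgroup.center A)
  refine ⟨a.1, a.2, fun h' => hne (Subtype.ext (Subtype.ext h')), fun g => ?_⟩
  obtain ⟨a', ha', b, hb, rfl⟩ := exists_mul_of_decomp h g
  have h1 : a' * a.1 = a.1 * a' := congrArg Subtype.val (Subgroup.mem_center_iff.1 ha ⟨a', ha'⟩)
  rw [← mul_assoc, ← h1, mul_assoc, h.2.2.1 a.1 a.2 b hb, mul_assoc]

/-- A finite `p`-group with at most one nontrivial central element is indecomposable. -/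
theorem not_decomp_of_center {G : Type*} [Group G] {p : ℕ} [Fact p.Prime] [Finite G]
    (hG : IsPGroup p G) (z : G) (hz : ∀ g, (∀ h, g * h = h * g) → g = 1 ∨ g = z) : ¬ Decomp G := by
  rintro ⟨A, B, hA, hB, h⟩
  obtain ⟨hle, hle', hc, hi, hs⟩ := h
  obtain ⟨a, ha, ha1, hac⟩ := center_of_factor hG ⟨hle, hle', hc, hi, hs⟩ hA
  obtain ⟨b, hb, hb1, hbc⟩ := center_of_factor hG
    ⟨hle', hle, fun x hx y hy => (hc y hy x hx).symm, inf_comm A B ▸ hi, sup_comm A B ▸ hs⟩ hB
  have e1 := (hz a hac).resolve_left ha1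
  have e2 := (hz b hbc).resolve_left hb1
  exact ha1 (hi.le ⟨ha, e1.trans e2.symm ▸ hb⟩)

section core

variable {ι : Type*} [Fintype ι] [DecidableEq ι] {G : ι → Type*} [∀ i, Group (G i)]

/-- The product of the signs. -/
def totalSign (χ : ∀ i, G i →* ℤˣ) : (∀ i, G i) →* ℤˣ where
  toFun x := ∏ i, χ i (x i)
  map_one' := by simp
  map_mul' x y := by simp [Finset.prod_mul_distrib]

theorem totalSign_mulSingle (χ : ∀ i, G i →* ℤˣ) (i : ι) (a : G i) :
    totalSign χ (Pi.mulSingle i a) = χ i a := by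
  show ∏ l, χ l (Pi.mulSingle i a l) = _
  rw [Finset.prod_eq_single i (fun l _ hl => by rw [Pi.mulSingle_eq_of_ne hl, map_one])
    (fun h => absurd (Finset.mem_univ i) h), Pi.mulSingle_eq_same]

/-- The even part of a product of groups that admit no commuting decompositions, whose centres
have order two and lie in the even commutators, is indecomposable. -/
theorem not_decomp_ker (χ : ∀ i, G i →* ℤˣ) (hι : ∀ i : ι, ∃ j, j ≠ i)
    (split : ∀ i (U V : Subgroup (G i)), U ⊔ V = ⊤ → (∀ u ∈ U, ∀ v ∈ V, u * v = v * u) →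
      (∀ u ∈ U, ∀ w, u * w = w * u) ∨ (∀ v ∈ V, ∀ w, v * w = w * v))
    (z : ∀ i, G i) (hzχ : ∀ i, χ i (z i) = 1)
    (hcen : ∀ i x, (∀ w, x * w = w * x) → x = 1 ∨ x = z i)
    (s t : ∀ i, G i) (hs : ∀ i, χ i (s i) = 1) (hst : ∀ i, ⁅s i, t i⁆ = z i)
    (u : ∀ i, G i) (hu : ∀ i, χ i (u i) = -1) : ¬ Decomp (totalSign χ).ker := by
  rintro ⟨A, B, hA, hB, h⟩
  obtain ⟨hA', hB', hcom, hinf, hsup⟩ := h
  have hdec := exists_mul_of_decomp (G := (totalSign χ).ker) ⟨hA', hB', hcom, hinf, hsup⟩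
  let π : ∀ i, (totalSign χ).ker →* G i := fun i =>
    (Pi.evalMonoidHom G i).comp (totalSign χ).ker.subtype
  have hπ : ∀ i, Function.Surjective (π i) := fun i g => by
    obtain ⟨j, hj⟩ := hι i
    rcases Int.units_eq_one_or (χ i g) with h1 | h1
    · exact ⟨⟨Pi.mulSingle i g, by rw [MonoidHom.mem_ker, totalSign_mulSingle, h1]⟩,
        Pi.mulSingle_eq_same (M := G) i g⟩
    · refine ⟨⟨Pi.mulSingle i g * Pi.mulSingle j (u j), by
        rw [MonoidHom.mem_ker, map_mul, totalSign_mulSingle, totalSign_mulSingle, h1, hu]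
        decide⟩, ?_⟩
      show (Pi.mulSingle i g * Pi.mulSingle j (u j) : ∀ l, G l) i = g
      rw [Pi.mul_apply, Pi.mulSingle_eq_same, Pi.mulSingle_eq_of_ne hj.symm, mul_one]
  have central : ∀ i, (∀ a ∈ A, ∀ w, π i a * w = w * π i a) ∨
      (∀ b ∈ B, ∀ w, π i b * w = w * π i b) := fun i => by
    have hsup' : A.map (π i) ⊔ B.map (π i) = ⊤ := by
      rw [← Subgroup.map_sup, hsup, Subgroup.map_top_of_surjective _ (hπ i)]
    rcases split i _ _ hsup' (by
      rintro _ ⟨a, ha, rfl⟩ _ ⟨b, hb, rfl⟩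
      rw [← map_mul, hcom a ha b hb, map_mul]) with h | h
    · exact Or.inl fun a ha => h _ ⟨a, ha, rfl⟩
    · exact Or.inr fun b hb => h _ ⟨b, hb, rfl⟩
  have heven : ∀ i x, (∀ w, x * w = w * x) → χ i x = 1 := fun i x hx => by
    rcases hcen i x hx with h | h <;> rw [h]
    · exact map_one _
    · exact hzχ i
  -- one of the factors is central in every coordinate
  have hall : (∀ i, ∀ a ∈ A, ∀ w, π i a * w = w * π i a) ∨
      (∀ i, ∀ b ∈ B, ∀ w, π i b * w = w * π i b) := by
    by_contra hno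
    push Not at hno
    obtain ⟨⟨i, a₀, ha₀, w₀, hw₀⟩, j, b₀, hb₀, w₁, hw₁⟩ := hno
    have hiB := (central i).resolve_left (fun h => hw₀ (h a₀ ha₀ w₀))
    have hjA := (central j).resolve_right (fun h => hw₁ (h b₀ hb₀ w₁))
    have hij : i ≠ j := fun h => by subst h; exact hw₀ (hjA a₀ ha₀ w₀)
    let g : (totalSign χ).ker := ⟨Pi.mulSingle i (u i) * Pi.mulSingle j (u j), by
      rw [MonoidHom.mem_ker, map_mul, totalSign_mulSingle, totalSign_mulSingle, hu, hu]; decide⟩
    obtain ⟨a, ha, b, hb, hg⟩ := hdec g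
    have hcoord : ∀ l, χ l (π l a) = if l = i then -1 else 1 := fun l => by
      rcases central l with h | h
      · have hli : l ≠ i := fun e => by subst e; exact hw₀ (h a₀ ha₀ w₀)
        rw [if_neg hli]
        exact heven l _ (h a ha)
      · have hlj : l ≠ j := fun e => by subst e; exact hw₁ (h b₀ hb₀ w₁)
        have h1 : χ l (π l g) = χ l (π l a) := by
          rw [hg, map_mul, map_mul, heven l _ (h b hb), mul_one]
        rw [← h1]
        show χ l ((Pi.mulSingle i (u i) * Pi.mulSingle j (u j) : ∀ l, G l) l) = _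
        rw [Pi.mul_apply, Pi.mulSingle_eq_of_ne hlj, mul_one]
        split_ifs with hli
        · subst hli; rw [Pi.mulSingle_eq_same, hu]
        · rw [Pi.mulSingle_eq_of_ne hli, map_one]
    have h1 : totalSign χ a.1 = 1 := a.2
    have h2 : totalSign χ a.1 = -1 := by
      show ∏ l, χ l (π l a) = -1
      rw [Finset.prod_congr rfl (fun l _ => hcoord l), Finset.prod_ite_eq' Finset.univ i,
        if_pos (Finset.mem_univ i)]
    rw [h1] at h2
    exact absurd h2 (by decide)
  -- the commutator subgroup lies in both factors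
  have finish : ∀ A B : Subgroup (totalSign χ).ker, B ≠ ⊥ →
      Cfsg.IsInternalDirectProduct A B ⊤ →
      (∀ i, ∀ b ∈ B, ∀ w, π i b * w = w * π i b) → False := by
    intro A B hB h hBc
    obtain ⟨b, hb, hb1⟩ := (Subgroup.ne_bot_iff_exists_ne_one.1 hB).elim
      (fun b hne => (⟨b.1, b.2, fun h' => hne (Subtype.ext h')⟩ : ∃ b ∈ B, b ≠ 1))
    have hBcen : ∀ b ∈ B, ∀ g, b * g = g * b := fun b hb g =>
      Subtype.ext (funext fun i => hBc i b hb (π i g))
    have hcomm : ∀ g g' : (totalSign χ).ker, ⁅g, g'⁆ ∈ A := fun g g' => by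
      obtain ⟨a, ha, b, hb, rfl⟩ := exists_mul_of_decomp h g
      obtain ⟨a', ha', b', hb', rfl⟩ := exists_mul_of_decomp h g'
      have e : ⁅a * b, a' * b'⁆ = ⁅a, a'⁆ := by
        rw [commutatorElement_def, commutatorElement_def]
        calc a * b * (a' * b') * (a * b)⁻¹ * (a' * b')⁻¹
            = a * (b * (a' * b' * b⁻¹)) * a⁻¹ * b'⁻¹ * a'⁻¹ := by group
          _ = a * (a' * b' * b⁻¹ * b) * a⁻¹ * b'⁻¹ * a'⁻¹ := by rw [hBcen b hb]
          _ = a * a' * (b' * (a⁻¹ * b'⁻¹)) * a'⁻¹ := by group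
          _ = a * a' * (a⁻¹ * b'⁻¹ * b') * a'⁻¹ := by rw [hBcen b' hb']
          _ = _ := by group
      rw [e, commutatorElement_def]
      exact mul_mem (mul_mem (mul_mem ha ha') (inv_mem ha)) (inv_mem ha')
    have hzA : ∀ i, ∃ c ∈ A, (c.1 : ∀ l, G l) = Pi.mulSingle i (z i) := fun i => by
      obtain ⟨j, hj⟩ := hι i
      let S : (totalSign χ).ker :=
        ⟨Pi.mulSingle i (s i), by rw [MonoidHom.mem_ker, totalSign_mulSingle, hs]⟩
      obtain ⟨T, hTi⟩ := hπ i (t i)
      refine ⟨⁅S, T⁆, hcomm S T, funext fun l => ?_⟩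
      show π l ⁅S, T⁆ = _
      rw [map_commutatorElement]
      by_cases hl : l = i
      · subst hl
        rw [Pi.mulSingle_eq_same, show π l S = s l from Pi.mulSingle_eq_same (M := G) l (s l),
          hTi, hst]
      · rw [Pi.mulSingle_eq_of_ne hl, show π l S = 1 from Pi.mulSingle_eq_of_ne hl (s i),
          commutatorElement_one_left]
    have hb01 : ∀ l, π l b = 1 ∨ π l b = z l := fun l => hcen l _ (hBc l b hb)
    have hT : ∀ T : Finset ι, ∃ c ∈ A, ∀ l, π l c = if l ∈ T then π l b else 1 := fun T => by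
      induction T using Finset.induction_on with
      | empty => exact ⟨1, one_mem A, fun l => by simp⟩
      | insert i T hi ih =>
        obtain ⟨c, hc, hcl⟩ := ih
        rcases hb01 i with hbi | hbi
        · refine ⟨c, hc, fun l => ?_⟩
          rw [hcl]
          by_cases hl : l = i
          · subst hl; simp [hi, hbi]
          · simp [hl]
        · obtain ⟨d, hd, hdi⟩ := hzA i
          refine ⟨d * c, mul_mem hd hc, fun l => ?_⟩
          rw [map_mul, hcl, show π l d = (Pi.mulSingle i (z i) : ∀ l, G l) l from congrFun hdi l]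
          by_cases hl : l = i
          · subst hl; simp [hi, hbi]
          · simp [hl, Pi.mulSingle_eq_of_ne hl]
    obtain ⟨c, hc, hcl⟩ := hT Finset.univ
    have hcb : c = b := Subtype.ext (funext fun l => (hcl l).trans (if_pos (Finset.mem_univ l)))
    exact hb1 (h.2.2.2.1.le ⟨hcb ▸ hc, hb⟩)
  rcases hall with h | h
  · exact finish B A hA ⟨le_top, le_top, fun x hx y hy => (hcom y hy x hx).symm,
      inf_comm A B ▸ hinf, sup_comm A B ▸ hsup⟩ h
  · exact finish A B hB ⟨hA', hB', hcom, hinf, hsup⟩ h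

/-- A product of at least two nontrivial groups decomposes. -/
theorem decomp_pi {i j : ι} (hij : j ≠ i) (a : G i) (ha : a ≠ 1) (b : G j) (hb : b ≠ 1) :
    Decomp (∀ l, G l) := by
  let A : Subgroup (∀ l, G l) :=
    { carrier := {x | ∀ l, l ≠ i → x l = 1}
      one_mem' := fun l _ => rfl
      mul_mem' := fun {x y} hx hy l hl => by rw [Pi.mul_apply, hx l hl, hy l hl, one_mul]
      inv_mem' := fun {x} hx l hl => by rw [Pi.inv_apply, hx l hl, inv_one] }
  let B : Subgroup (∀ l, G l) :=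
    { carrier := {x | x i = 1}
      one_mem' := rfl
      mul_mem' := fun {x y} hx hy => by
        show (x * y) i = 1
        rw [Pi.mul_apply, hx, hy, one_mul]
      inv_mem' := fun {x} hx => by
        show x⁻¹ i = 1
        rw [Pi.inv_apply, hx, inv_one] }
  refine ⟨A, B, fun h => ha ?_, fun h => hb ?_, le_top, le_top, ?_, ?_, ?_⟩
  · have : Pi.mulSingle i a ∈ A := fun l hl => Pi.mulSingle_eq_of_ne hl a
    rw [h, Subgroup.mem_bot] at this
    simpa using congrFun this i
  · have : Pi.mulSingle j b ∈ B := Pi.mulSingle_eq_of_ne hij.symm b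
    rw [h, Subgroup.mem_bot] at this
    simpa using congrFun this j
  · intro x hx y hy
    funext l
    by_cases hl : l = i
    · subst hl; simp [show y l = 1 from hy]
    · simp [hx l hl]
  · rw [eq_bot_iff]
    rintro x ⟨hx, hx'⟩
    refine funext fun l => ?_
    by_cases hl : l = i
    · subst hl; exact hx'
    · exact hx l hl
  · rw [eq_top_iff]
    intro x _
    have h1 : Pi.mulSingle i (x i) ∈ A := fun l hl => Pi.mulSingle_eq_of_ne hl _
    have h2 : (Pi.mulSingle i (x i))⁻¹ * x ∈ B := by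
      show ((Pi.mulSingle i (x i) : ∀ l, G l)⁻¹ * x) i = 1
      simp
    have := mul_mem (Subgroup.mem_sup_left (T := B) h1) (Subgroup.mem_sup_right (S := A) h2)
    simpa using this

end core

end Cfsg.Agent.H62.Indec
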