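import Cfsg.Agent.H62.WreathTwo
import Cfsg.Agent.H62.DirectIndecomposable

/-!
Direct decompositions of the Sylow 2-subgroups of the alternating groups.
-/

set_option autoImplicit false

namespace Cfsg.Agent.H62.SylowDecomp

open Equiv WreathTwo Indec

/-- Legendre's formula for the prime two. -/
theorem padic_two_factorial (m : ℕ) : padicValNat 2 m.factorial + m.bitIndices.length = m := by
    induction m using Nat.strong_induction_on with
    | _ m ih =>
      have : Fact (Nat.Prime 2) := ⟨Nat.prime_two⟩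
      rcases Nat.eq_zero_or_pos m with rfl | hm
      · simp [Nat.factorial]
      obtain ⟨q, r, hr, rfl⟩ : ∃ q r, r < 2 ∧ m = 2 * q + r := ⟨m / 2, m % 2, by omega, by omega⟩
      have h := ih q (by omega)
      rw [padicValNat_factorial_mul_add q hr, padicValNat_factorial_mul]
      rcases (show r = 0 ∨ r = 1 by omega) with rfl | rfl
      · rw [add_zero, Nat.bitIndices_two_mul, List.length_map]; omega
      · rw [Nat.bitIndices_two_mul_add_one, List.length_cons, List.length_map]; omega

theorem padic_two_four_mul (m r : ℕ) (hr : r < 4) :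
    padicValNat 2 (4 * m + r).factorial = 3 * m + padicValNat 2 m.factorial + r / 2 := by
  have : Fact (Nat.Prime 2) := ⟨Nat.prime_two⟩
  rw [show 4 * m + r = 2 * (2 * m + r / 2) + r % 2 by omega,
    padicValNat_factorial_mul_add _ (Nat.mod_lt _ (by norm_num)), padicValNat_factorial_mul,
    padicValNat_factorial_mul_add _ (show r / 2 < 2 by omega), padicValNat_factorial_mul]
  omega

theorem sign_sigmaCongr {ι : Type} [Fintype ι] [DecidableEq ι] {X : ι → Type}
    [∀ i, Fintype (X i)] [∀ i, DecidableEq (X i)] (f : ∀ i, Perm (X i)) :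
    Perm.sign (Perm.sigmaCongrRightHom X f) = ∏ i, Perm.sign (f i) := by
  have h : (Perm.sign.comp (Perm.sigmaCongrRightHom X) : (∀ i, Perm (X i)) →* ℤˣ) =
      totalSign (fun i => Perm.sign) := by
    refine MonoidHom.pi_ext fun i g => ?_
    rw [totalSign_mulSingle, MonoidHom.comp_apply]
    induction g using Perm.swap_induction_on with
    | one => simp
    | swap_mul g a b hab ih =>
      have hs : Perm.sigmaCongrRightHom X (Pi.mulSingle i (swap a b)) =
          swap (⟨i, a⟩ : Σ i, X i) ⟨i, b⟩ := by
        refine Equiv.ext fun ⟨l, x⟩ => ?_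
        show (⟨l, (Pi.mulSingle i (swap a b) : ∀ l, Perm (X l)) l x⟩ : Σ i, X i) = _
        by_cases hl : l = i
        · subst hl
          rw [Pi.mulSingle_eq_same]
          exact (Function.Injective.swap_apply (f := Sigma.mk l) sigma_mk_injective a b x).symm
        · rw [Pi.mulSingle_eq_of_ne hl,
            swap_apply_of_ne_of_ne (fun e => hl (congrArg Sigma.fst e))
              (fun e => hl (congrArg Sigma.fst e))]
          rfl
      rw [Pi.mulSingle_mul, map_mul, map_mul, map_mul, hs, ih, Perm.sign_swap hab,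
        Perm.sign_swap (show (⟨i, a⟩ : Σ i, X i) ≠ ⟨i, b⟩ from sigma_mk_injective.ne hab)]
  exact DFunLike.congr_fun h f

theorem fact_four {P : Type*} [Group P] (hcard : Nat.card P = 4) (hexp : ∀ g : P, g ^ 2 = 1) :
    Decomp P := by
  have : Finite P := Nat.finite_of_card_ne_zero (by omega)
  have : Nontrivial P := Finite.one_lt_card_iff_nontrivial.1 (by omega)
  obtain ⟨a, ha⟩ := exists_ne (1 : P)
  have hA : Nat.card (Subgroup.zpowers a) = 2 := by
    rw [Nat.card_zpowers]
    exact orderOf_eq_prime (hexp a) ha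
  obtain ⟨b, hb⟩ : ∃ b, b ∉ Subgroup.zpowers a := by
    by_contra h
    push Not at h
    have : Nat.card (Subgroup.zpowers a) = Nat.card P := by
      rw [(Subgroup.eq_top_iff' _).2 h, Subgroup.card_top]
    omega
  have hb1 : b ≠ 1 := fun h => hb (h ▸ one_mem _)
  have hcomm : ∀ x y : P, x * y = y * x := fun x y => by
    have h := hexp (x * y)
    have hi : ∀ g : P, g⁻¹ = g := fun g => inv_eq_of_mul_eq_one_right (by rw [← sq, hexp])
    calc x * y = (x * y)⁻¹ := (hi _).symm
      _ = y⁻¹ * x⁻¹ := _root_.mul_inv_rev x y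
      _ = y * x := by rw [hi, hi]
  refine ⟨Subgroup.zpowers a, Subgroup.zpowers b, Subgroup.zpowers_ne_bot.2 ha,
    Subgroup.zpowers_ne_bot.2 hb1, le_top, le_top, fun x _ y _ => hcomm x y, ?_, ?_⟩
  · rw [eq_bot_iff]
    intro x ⟨hxa, hxb⟩
    by_contra hx
    have hB : Nat.card (Subgroup.zpowers b) = 2 := by
      rw [Nat.card_zpowers]; exact orderOf_eq_prime (hexp b) hb1
    have h1 : Subgroup.zpowers x = Subgroup.zpowers a :=
      Subgroup.eq_of_le_of_card_ge (Subgroup.zpowers_le.2 hxa) (by
        rw [hA, Nat.card_zpowers, orderOf_eq_prime (hexp x) (fun h => hx (Subgroup.mem_bot.2 h))])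
    have h2 : Subgroup.zpowers x = Subgroup.zpowers b :=
      Subgroup.eq_of_le_of_card_ge (Subgroup.zpowers_le.2 hxb) (by
        rw [hB, Nat.card_zpowers, orderOf_eq_prime (hexp x) (fun h => hx (Subgroup.mem_bot.2 h))])
    exact hb (h1 ▸ h2.symm ▸ Subgroup.mem_zpowers b)
  · set S := Subgroup.zpowers a ⊔ Subgroup.zpowers b
    have hd : Nat.card S ∣ 4 := hcard ▸ Subgroup.card_subgroup_dvd_card S
    have hlt : 2 < Nat.card S := by
      rw [← hA]
      refine lt_of_not_ge fun hle => hb ?_
      rw [Subgroup.eq_of_le_of_card_ge (le_sup_left : Subgroup.zpowers a ≤ S) hle]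
      exact Subgroup.mem_sup_right (Subgroup.mem_zpowers b)
    have h4 : Nat.card S ≤ 4 := Nat.le_of_dvd (by norm_num) hd
    refine Subgroup.eq_top_of_card_eq S ?_
    rw [hcard]
    rcases (show Nat.card S = 3 ∨ Nat.card S = 4 by omega) with h | h
    · rw [h] at hd; norm_num at hd
    · exact h

theorem small_case {n : ℕ} (hn : n = 4 ∨ n = 5) (P : Sylow 2 (alternatingGroup (Fin n))) :
    Decomp P := by
  have hA : Nat.card (alternatingGroup (Fin n)) = 12 ∨ Nat.card (alternatingGroup (Fin n)) = 60 := by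
    have : Nontrivial (Fin n) := Fin.nontrivial_iff_two_le.2 (by omega)
    have h := two_mul_nat_card_alternatingGroup (α := Fin n)
    rw [Nat.card_perm, Nat.card_fin] at h
    rcases hn with rfl | rfl <;> simp [Nat.factorial] at h ⊢ <;> omega
  obtain ⟨e, he⟩ := IsPGroup.iff_card.1 P.isPGroup'
  have hd : Nat.card (P : Subgroup (alternatingGroup (Fin n))) ∣ Nat.card (alternatingGroup (Fin n)) :=
    Subgroup.card_subgroup_dvd_card _
  have hp : 2 ^ 2 ∣ Nat.card (P : Subgroup (alternatingGroup (Fin n))) :=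
    P.pow_dvd_card_of_pow_dvd_card (by rcases hA with h | h <;> rw [h] <;> norm_num)
  have hcard : Nat.card (P : Subgroup (alternatingGroup (Fin n))) = 4 := by
    rw [he] at hd hp ⊢
    have h2 : 2 ≤ e := (Nat.pow_dvd_pow_iff_le_right (by norm_num)).1 hp
    have h3 : e < 3 := by
      by_contra h
      have h8 : 2 ^ 3 ∣ Nat.card (alternatingGroup (Fin n)) := (pow_dvd_pow 2 (by omega)).trans hd
      rcases hA with h' | h' <;> rw [h'] at h8 <;> norm_num at h8
    obtain rfl : e = 2 := by omega
    norm_num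
  refine fact_four hcard fun g => ?_
  have h4 : g ^ 4 = 1 := hcard ▸ pow_card_eq_one'
  have key4 : ∀ σ : Perm (Fin 4), σ ^ 4 = 1 → Perm.sign σ = 1 → σ ^ 2 = 1 := by decide +kernel
  have key5 : ∀ σ : Perm (Fin 5), σ ^ 4 = 1 → Perm.sign σ = 1 → σ ^ 2 = 1 := by decide +kernel
  have hs : Perm.sign (g.1.1) = 1 := Perm.mem_alternatingGroup.1 g.1.2
  have h4' : (g.1.1) ^ 4 = 1 := congrArg (fun x : P => x.1.1) h4
  apply Subtype.ext
  apply Subtype.ext
  show (g.1.1) ^ 2 = 1
  rcases hn with rfl | rfl
  · exact key4 _ h4' hs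
  · exact key5 _ h4' hs

/-- The decomposition criterion. -/
theorem sylow_decomp_iff (n : ℕ) (hn : 4 ≤ n) (P : Sylow 2 (alternatingGroup (Fin n))) :
    Decomp P ↔
      (n = 4 ∨ n = 5 ∨ ((n % 4 = 2 ∨ n % 4 = 3) ∧ ∀ r : ℕ, 4 * (n / 4) ≠ 2 ^ r)) := by
  classical
  have : Fact (Nat.Prime 2) := ⟨Nat.prime_two⟩
  by_cases h45 : n = 4 ∨ n = 5
  · refine iff_of_true (small_case h45 P) ?_
    rcases h45 with h | h <;> simp [h]
  obtain ⟨m, r, hr, hm, rfl⟩ : ∃ m r, r < 4 ∧ 1 ≤ m ∧ n = 4 * m + r :=
    ⟨n / 4, n % 4, by omega, by omega, by omega⟩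
  have hdiv : (4 * m + r) / 4 = m := by omega
  have hmod : (4 * m + r) % 4 = r := by omega
  rw [hdiv, hmod]
  set L := m.bitIndices.length with hL
  let idx : Fin L → ℕ := fun l => m.bitIndices.get l
  choose X instX decX W hXcard hWcard hgood heven using fun l : Fin L => exists_level (idx l)
  have hne : ∀ l, Nonempty (X l) := fun l => (hgood l).nonempty
  choose z hz hz1 hzs hzc hzcen s hs t ht hss hst using fun l => (hgood l).center
  choose u hu hus using fun l => (hgood l).odd
  let G : Fin L → Type := fun l => W l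
  let χ : ∀ l, (W l) →* ℤˣ := fun l => Perm.sign.comp (W l).subtype
  -- the sum of the block sizes
  have hsum : ∑ l, 2 ^ idx l = m := by
    conv_rhs => rw [← Nat.sum_map_two_pow_bitIndices m]
    rw [← List.ofFn_getElem (xs := m.bitIndices), List.map_ofFn, List.sum_ofFn]
    simp only [Function.comp_apply]
    exact Fintype.sum_equiv (finCongr (by simp [hL])) _ _ (fun l => by simp [idx])
  have hXsum : Fintype.card (Σ l, X l) = 4 * m := by
    rw [Fintype.card_sigma, ← hsum, Finset.mul_sum]
    refine Finset.sum_congr rfl fun l _ => ?_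
    rw [hXcard, pow_add]; ring
  let Ω : Type := ((Σ l, X l) ⊕ Fin (2 * (r / 2))) ⊕ Fin (r % 2)
  have hΩ : Fintype.card Ω = Fintype.card (Fin (4 * m + r)) := by
    simp only [Ω, Fintype.card_sum, hXsum, Fintype.card_fin]; omega
  let eΩ : Ω ≃ Fin (4 * m + r) := Fintype.equivOfCardEq hΩ
  let R : Type := Perm (Fin (2 * (r / 2)))
  let H : Type := (∀ l, W l) × Perm (Fin (2 * (r / 2)))
  let Ψ : ((∀ l, W l) × Perm (Fin (2 * (r / 2)))) →* Perm (Fin (4 * m + r)) :=
    eΩ.permCongrHom.toMonoidHom.comp
      ((Perm.sumCongrHom ((Σ l, X l) ⊕ Fin (2 * (r / 2))) (Fin (r % 2))).comp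
        ((MonoidHom.inl _ _).comp
          ((Perm.sumCongrHom (Σ l, X l) (Fin (2 * (r / 2)))).comp
            (MonoidHom.prodMap
              ((Perm.sigmaCongrRightHom X).comp (MonoidHom.piMap fun l => (W l).subtype))
              (MonoidHom.id _)))))
  have hΨinj : Function.Injective Ψ := by
    intro q q' h
    have h1 := eΩ.permCongrHom.injective h
    have h2 := congrArg Prod.fst (Perm.sumCongrHom_injective h1)
    have h3 := Perm.sumCongrHom_injective h2
    refine Prod.ext (funext fun l => Subtype.ext ?_) (congrArg Prod.snd h3 :)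
    exact congrFun (Perm.sigmaCongrRightHom_injective (congrArg Prod.fst h3)) l
  have hΨsign : ∀ q, Perm.sign (Ψ q) = totalSign χ q.1 * Perm.sign q.2 := fun q => by
    show Perm.sign (eΩ.permCongr (Perm.sumCongr (Perm.sumCongr
      (Perm.sigmaCongrRightHom X fun l => (q.1 l).1) q.2) 1)) = _
    rw [Perm.sign_permCongr, Perm.sign_sumCongr, Perm.sign_sumCongr, map_one, mul_one,
      sign_sigmaCongr]
    rfl
  set sg : ((∀ l, W l) × Perm (Fin (2 * (r / 2)))) →* ℤˣ := Perm.sign.comp Ψ with hsg
  have hL1 : 1 ≤ L := by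
    by_contra hL0
    have : IsEmpty (Fin L) := ⟨fun l => by have := l.isLt; omega⟩
    simp at hsum
    omega
  let l₀ : Fin L := ⟨0, by omega⟩
  let uu : ∀ l, W l := fun l => ⟨u l, hu l⟩
  have hsgsurj : Function.Surjective sg := by
    intro x
    rcases Int.units_eq_one_or x with rfl | rfl
    · exact ⟨1, map_one _⟩
    · refine ⟨(Pi.mulSingle l₀ (uu l₀), 1), ?_⟩
      rw [hsg, MonoidHom.comp_apply, hΨsign, totalSign_mulSingle, map_one, mul_one]
      exact hus l₀
  let Φ : sg.ker →* alternatingGroup (Fin (4 * m + r)) :=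
    (Ψ.comp sg.ker.subtype).codRestrict _ (fun q => Perm.mem_alternatingGroup.2 q.2)
  have hΦinj : Function.Injective Φ := fun q q' h =>
    Subtype.ext (hΨinj (congrArg Subtype.val h))
  -- orders
  have hr2 : r / 2 ≤ 1 := by omega
  have hRcard : Nat.card (Perm (Fin (2 * (r / 2)))) = 2 ^ (r / 2) := by
    rw [Nat.card_perm, Nat.card_fin]
    rcases (show r / 2 = 0 ∨ r / 2 = 1 by omega) with h | h <;> rw [h] <;> rfl
  set v := padicValNat 2 (4 * m + r).factorial with hv
  have hv1 : ∑ l, (2 ^ (idx l + 2) - 1) + r / 2 = v := by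
    have h1 : ∑ l, (2 ^ (idx l + 2) - 1) + L = 4 * m := by
      conv_lhs => arg 2; rw [← Fintype.card_fin L, Fintype.card, Finset.card_eq_sum_ones]
      rw [← Finset.sum_add_distrib, ← hsum, Finset.mul_sum]
      refine Finset.sum_congr rfl fun l _ => ?_
      rw [Nat.sub_add_cancel Nat.one_le_two_pow, pow_add]; ring
    have h2 := padic_two_factorial m
    rw [← hL] at h2
    rw [hv, padic_two_four_mul m r hr]
    omega
  have hHcard : Nat.card ((∀ l, W l) × Perm (Fin (2 * (r / 2)))) = 2 ^ v := by
    rw [Nat.card_prod, Nat.card_pi, hRcard, ← hv1, pow_add, ← Finset.prod_pow_eq_pow_sum]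
    congr 1
    exact Finset.prod_congr rfl fun l _ => hWcard l
  have hker : 2 * Nat.card sg.ker = 2 ^ v := by
    have h := Subgroup.card_eq_card_quotient_mul_card_subgroup sg.ker
    rw [hHcard, Nat.card_congr (QuotientGroup.quotientKerEquivOfSurjective sg hsgsurj).toEquiv,
      Nat.card_eq_fintype_card (α := ℤˣ), Fintype.card_units_int] at h
    omega
  have hfac : (Nat.card (alternatingGroup (Fin (4 * m + r)))).factorization 2 + 1 = v := by
    have : Nontrivial (Fin (4 * m + r)) := Fin.nontrivial_iff_two_le.2 (by omega)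
    have h := two_mul_nat_card_alternatingGroup (α := Fin (4 * m + r))
    rw [Nat.card_perm, Nat.card_fin] at h
    rw [hv, ← Nat.factorization_def _ Nat.prime_two, ← h,
      Nat.factorization_mul (by norm_num) Nat.card_pos.ne', Finsupp.add_apply,
      Nat.prime_two.factorization_self, add_comm]
  have hQ : Nat.card Φ.range =
      2 ^ (Nat.card (alternatingGroup (Fin (4 * m + r)))).factorization 2 := by
    rw [← Nat.card_congr (MonoidHom.ofInjective hΦinj).toEquiv]
    have h := hker
    rw [← hfac, pow_succ] at h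
    omega
  have eP : P ≃* sg.ker :=
    (Sylow.equiv P (Sylow.ofCard Φ.range hQ)).trans (MonoidHom.ofInjective hΦinj).symm
  rw [decomp_congr eP]
  -- facts about the factors
  have split : ∀ l (U V : Subgroup (W l)), U ⊔ V = ⊤ → (∀ a ∈ U, ∀ b ∈ V, a * b = b * a) →
      (∀ a ∈ U, ∀ w, a * w = w * a) ∨ (∀ b ∈ V, ∀ w, b * w = w * b) := by
    intro l U V hUV hc
    have := (hgood l).split (U.map (W l).subtype) (V.map (W l).subtype) (Subgroup.map_subtype_le U)
      (Subgroup.map_subtype_le V)
      (by rw [← Subgroup.map_sup, hUV, ← MonoidHom.range_eq_map, Subgroup.range_subtype])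
      (by rintro _ ⟨a, ha, rfl⟩ _ ⟨b, hb, rfl⟩; rw [← map_mul, hc a ha b hb, map_mul])
    rcases this with h | h
    · exact Or.inl fun a ha w => Subtype.ext (h _ ⟨a, ha, rfl⟩ _ w.2)
    · exact Or.inr fun b hb w => Subtype.ext (h _ ⟨b, hb, rfl⟩ _ w.2)
  let zz : ∀ l, W l := fun l => ⟨z l, hz l⟩
  have hcen : ∀ l (x : W l), (∀ w, x * w = w * x) → x = 1 ∨ x = zz l := fun l x hx =>
    (hzcen l x.1 x.2 fun w hw => congrArg Subtype.val (hx ⟨w, hw⟩)).imp
      (fun h => Subtype.ext h) (fun h => Subtype.ext h)
  by_cases hr1 : r < 2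
  · -- the even part of the product
    have hR : Subsingleton (Perm (Fin (2 * (r / 2)))) := by
      have : Subsingleton (Fin (2 * (r / 2))) := by
        rw [show r / 2 = 0 by omega]; simp only [mul_zero]; infer_instance
      infer_instance
    have hmem : ∀ q, sg q = 1 ↔ totalSign χ q.1 = 1 := fun q => by
      rw [hsg, MonoidHom.comp_apply, hΨsign, Subsingleton.elim q.2 1, map_one, mul_one]
    let e : sg.ker ≃* (totalSign χ).ker :=
      { toFun := fun q => ⟨q.1.1, (hmem q.1).1 q.2⟩
        invFun := fun x => ⟨(x.1, 1), (hmem _).2 x.2⟩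
        left_inv := fun q => Subtype.ext (Prod.ext rfl (Subsingleton.elim _ _))
        right_inv := fun x => rfl
        map_mul' := fun _ _ => rfl }
    rw [decomp_congr e]
    refine iff_of_false ?_ ?_
    · by_cases hL2 : 2 ≤ L
      · refine not_decomp_ker χ (fun l => ?_) split zz hzs hcen (fun l => ⟨s l, hs l⟩)
          (fun l => ⟨t l, ht l⟩) hss (fun l => Subtype.ext (hst l)) uu hus
        by_cases hl : l.val = 0
        · exact ⟨⟨1, by omega⟩, fun h => by have := congrArg Fin.val h; simp at this; omega⟩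
        · exact ⟨⟨0, by omega⟩, fun h => by have := congrArg Fin.val h; simp at this; omega⟩
      · have hL' : L = 1 := by omega
        have : Subsingleton (Fin L) := by rw [hL']; infer_instance
        have hidx : 1 ≤ idx l₀ := by
          by_contra h0
          rw [Fintype.sum_subsingleton _ l₀, show idx l₀ = 0 by omega] at hsum
          exact h45 (by omega)
        have hp : IsPGroup 2 (totalSign χ).ker := IsPGroup.to_subgroup
          (IsPGroup.of_card (n := ∑ l, (2 ^ (idx l + 2) - 1)) (by
            rw [Nat.card_pi, ← Finset.prod_pow_eq_pow_sum]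
            exact Finset.prod_congr rfl fun l _ => hWcard l)) _
        let zk : (totalSign χ).ker := ⟨Pi.mulSingle l₀ (zz l₀), by
          rw [MonoidHom.mem_ker, totalSign_mulSingle]; exact hzs l₀⟩
        refine not_decomp_of_center hp zk fun x hx => ?_
        have hc : ∀ w : W l₀, x.1 l₀ * w = w * x.1 l₀ := by
          have hev := heven l₀ hidx (x.1 l₀).1 (x.1 l₀).2 (fun w hw hsw => by
            have h := congrArg (fun q : (totalSign χ).ker => (q.1 l₀).1)
              (hx ⟨Pi.mulSingle l₀ (⟨w, hw⟩ : W l₀), by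
                rw [MonoidHom.mem_ker, totalSign_mulSingle]; exact hsw⟩)
            simpa using h)
          exact fun w => Subtype.ext (hev w.1 w.2)
        refine (hcen l₀ _ hc).imp (fun h => Subtype.ext (funext fun l => ?_))
          (fun h => Subtype.ext (funext fun l => ?_))
        · obtain rfl := Subsingleton.elim l l₀; exact h
        · obtain rfl := Subsingleton.elim l l₀
          exact h.trans (Pi.mulSingle_eq_same (M := fun l => W l) l₀ (zz l₀)).symm
    · rintro (h | h | ⟨h, -⟩)
      · exact h45 (Or.inl h)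
      · exact h45 (Or.inr h)
      · omega
  · -- the full product
    have hq : ∀ x : ℤˣ, ∃! y : Perm (Fin (2 * (r / 2))), Perm.sign y = x := by
      rw [show r / 2 = 1 by omega]
      have key : ∀ x : ℤˣ, ∃ y : Perm (Fin (2 * 1)), Perm.sign y = x ∧
          ∀ y' : Perm (Fin (2 * 1)), Perm.sign y' = x → y' = y := by decide +kernel
      exact fun x => key x
    have hbij : Function.Bijective
        ((MonoidHom.fst (∀ l, W l) (Perm (Fin (2 * (r / 2))))).comp sg.ker.subtype) := by
      constructor
      · intro q q' h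
        have h1 : q.1.1 = q'.1.1 := h
        refine Subtype.ext (Prod.ext h1 ?_)
        have e1 : totalSign χ q.1.1 * Perm.sign q.1.2 = 1 := (hΨsign q.1).symm.trans q.2
        have e2 : totalSign χ q'.1.1 * Perm.sign q'.1.2 = 1 := (hΨsign q'.1).symm.trans q'.2
        rw [← h1, ← e1] at e2
        exact ((hq _).unique (mul_left_cancel e2) rfl).symm
      · intro x
        obtain ⟨y, hy, -⟩ := hq (totalSign χ x)
        refine ⟨⟨(x, y), ?_⟩, rfl⟩
        rw [MonoidHom.mem_ker, hsg, MonoidHom.comp_apply, hΨsign, hy, Int.units_mul_self]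
    rw [decomp_congr (MulEquiv.ofBijective _ hbij)]
    by_cases hL2 : 2 ≤ L
    · refine iff_of_true (decomp_pi (i := (⟨0, by omega⟩ : Fin L)) (j := ⟨1, by omega⟩)
        (fun h => by have := congrArg Fin.val h; simp at this)
        (uu _) ?_ (uu _) ?_) (Or.inr (Or.inr ⟨by omega, fun r' h => ?_⟩))
      · intro h
        have := hus ⟨0, by omega⟩
        rw [show u ⟨0, by omega⟩ = 1 from congrArg Subtype.val h, map_one] at this
        exact absurd this (by decide)
      · intro h
        have := hus ⟨1, by omega⟩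
        rw [show u ⟨1, by omega⟩ = 1 from congrArg Subtype.val h, map_one] at this
        exact absurd this (by decide)
      · have hr' : 2 ≤ r' := by
          by_contra hlt
          have : 2 ^ r' ≤ 2 ^ 1 := Nat.pow_le_pow_right (by norm_num) (by omega)
          omega
        obtain ⟨q, rfl⟩ : ∃ q, r' = q + 2 := ⟨r' - 2, by omega⟩
        have hmq : m = 2 ^ q := by rw [pow_add] at h; omega
        rw [hL, hmq, Nat.bitIndices_two_pow] at hL2
        simp at hL2
    · have hL' : L = 1 := by omega
      have : Subsingleton (Fin L) := by rw [hL']; infer_instance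
      refine iff_of_false ?_ ?_
      · have hp : IsPGroup 2 (∀ l, W l) := IsPGroup.of_card (n := ∑ l, (2 ^ (idx l + 2) - 1)) (by
          rw [Nat.card_pi, ← Finset.prod_pow_eq_pow_sum]
          exact Finset.prod_congr rfl fun l _ => hWcard l)
        refine not_decomp_of_center hp (Pi.mulSingle l₀ (zz l₀)) fun x hx => ?_
        have hc : ∀ w : W l₀, x l₀ * w = w * x l₀ := fun w => by
          simpa using congrFun (hx (Pi.mulSingle l₀ w)) l₀
        refine (hcen l₀ _ hc).imp (fun h => funext fun l => ?_) (fun h => funext fun l => ?_)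
        · obtain rfl := Subsingleton.elim l l₀; exact h
        · obtain rfl := Subsingleton.elim l l₀
          exact h.trans (Pi.mulSingle_eq_same (M := fun l => W l) l₀ (zz l₀)).symm
      · rintro (h | h | ⟨-, h⟩)
        · exact h45 (Or.inl h)
        · exact h45 (Or.inr h)
        · refine h (idx l₀ + 2) ?_
          rw [Fintype.sum_subsingleton _ l₀] at hsum
          rw [← hsum, pow_add]; ring

end Cfsg.Agent.H62.SylowDecomp
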