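import Mathlib

/-!
Sylow 2-subgroups of an extension of `A_6` by a group of order 4.
-/

set_option autoImplicit false

namespace Cfsg.Agent.H62.ASix

open Equiv
open scoped Pointwise

/-- A double transposition. -/
def z0 : Perm (Fin 6) := swap 0 1 * swap 2 3

/-- Which of the exponents 3, 4, 5 annihilate `z * u`. -/
def key (z u : Perm (Fin 6)) : Bool × Bool × Bool :=
  (decide ((z * u) ^ 3 = 1), decide ((z * u) ^ 4 = 1), decide ((z * u) ^ 5 = 1))

theorem centralizer_count :
    (Finset.univ.filter (fun u : Perm (Fin 6) => z0 * u = u * z0)).card = 16 := by decide +kernel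

theorem key_count : ∀ t : Bool × Bool × Bool,
    (Finset.univ.filter
      (fun u : Perm (Fin 6) => u * u = 1 ∧ u ≠ 1 ∧ key z0 u = t)).card ≤ 31 := by decide +kernel

theorem exists_conj_z0 (z : alternatingGroup (Fin 6)) (hz : orderOf z = 2) :
    ∃ g : Perm (Fin 6), g * z.1 * g⁻¹ = z0 := by
  have hz' : orderOf z.1 = 2 := (Subgroup.orderOf_coe z).trans hz
  obtain ⟨m, hm⟩ := Perm.cycleType_prime_order (show (orderOf z.1).Prime by rw [hz']; norm_num)
  rw [hz'] at hm
  have hsum : z.1.cycleType.sum ≤ 6 := by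
    rw [Perm.sum_cycleType]; exact (Finset.card_le_univ _).trans_eq (Fintype.card_fin 6)
  have hsign : Perm.sign z.1 = 1 := Perm.mem_alternatingGroup.1 z.2
  rw [Perm.sign_of_cycleType, hm] at hsign
  rw [hm] at hsum
  simp only [Multiset.sum_replicate, Multiset.card_replicate, smul_eq_mul] at hsum hsign
  have hm1 : m = 1 := by
    have : m = 0 ∨ m = 1 ∨ m = 2 := by omega
    rcases this with rfl | rfl | rfl
    · exact absurd hsign (by decide)
    · rfl
    · exact absurd hsign (by decide)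
  subst hm1
  have h0 : z0.cycleType = Multiset.replicate 2 2 := by decide +kernel
  exact isConj_iff.1 (Perm.isConj_iff_cycleType_eq.2 (hm.trans h0.symm))

theorem card_centralizer_le (z : alternatingGroup (Fin 6)) (hz : orderOf z = 2) :
    Nat.card (Subgroup.centralizer {z}) ≤ 8 := by
  obtain ⟨g, hg⟩ := exists_conj_z0 z hz
  let T : Subgroup (Perm (Fin 6)) := Subgroup.centralizer {z0}
  have hT : Nat.card T = 16 := by
    rw [← centralizer_count, ← Nat.card_eq_finsetCard]
    refine Nat.card_congr (Equiv.subtypeEquivRight fun u => ?_)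
    simp [T, Subgroup.mem_centralizer_singleton_iff, eq_comm]
  let f : alternatingGroup (Fin 6) →* Perm (Fin 6) :=
    (MulAut.conj g).toMonoidHom.comp (alternatingGroup (Fin 6)).subtype
  have hf : Function.Injective f := (MulAut.conj g).injective.comp Subtype.val_injective
  have hle : (Subgroup.centralizer {z}).map f ≤ T := by
    rintro _ ⟨u, hu, rfl⟩
    have hu' : z * u = u * z := by simpa [Subgroup.mem_centralizer_iff] using hu
    rw [Subgroup.mem_centralizer_iff]
    rintro _ rfl
    rw [← hg]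
    have := congrArg (fun w : alternatingGroup (Fin 6) => g * w.1 * g⁻¹) hu'
    simpa [f, mul_assoc] using this
  have h1 : Nat.card (Subgroup.centralizer {z}) ∣ 16 := by
    rw [Nat.card_congr ((Subgroup.centralizer {z}).equivMapOfInjective f hf).toEquiv, ← hT]
    exact Subgroup.card_dvd_of_le hle
  have h2 : Nat.card (Subgroup.centralizer {z}) ∣ 360 := by
    have hA : Nat.card (alternatingGroup (Fin 6)) = 360 := by
      have := two_mul_nat_card_alternatingGroup (α := Fin 6)
      rw [Nat.card_perm, Nat.card_fin] at this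
      norm_num [Nat.factorial] at this ⊢
      omega
    rw [← hA]; exact Subgroup.card_subgroup_dvd_card _
  exact Nat.le_of_dvd (by norm_num) (Nat.dvd_gcd h1 h2)

theorem card_same_key_le (z w : alternatingGroup (Fin 6)) (hz : orderOf z = 2) :
    Nat.card {u : alternatingGroup (Fin 6) // u * u = 1 ∧ u ≠ 1 ∧
      ∀ k ∈ [3, 4, 5], ((z * u) ^ k = 1 ↔ (z * w) ^ k = 1)} ≤ 31 := by
  obtain ⟨g, hg⟩ := exists_conj_z0 z hz
  let f : alternatingGroup (Fin 6) →* Perm (Fin 6) :=
    (MulAut.conj g).toMonoidHom.comp (alternatingGroup (Fin 6)).subtype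
  have hf : Function.Injective f := (MulAut.conj g).injective.comp Subtype.val_injective
  have hfz : f z = z0 := hg
  have hone : ∀ v, f v = 1 ↔ v = 1 := fun v => map_eq_one_iff f hf
  have hk : ∀ v (k : ℕ), ((z0 * f v) ^ k = 1 ↔ (z * v) ^ k = 1) := fun v k => by
    rw [← hfz, ← map_mul, ← map_pow]; exact hone _
  refine le_trans ?_ (key_count (key z0 (f w)))
  rw [← Nat.card_eq_finsetCard]
  refine Nat.card_le_card_of_injective (fun u => ⟨f u.1, ?_⟩) ?_
  · obtain ⟨u, hu, hu1, huk⟩ := u
    simp only [List.mem_cons, List.not_mem_nil, or_false, forall_eq_or_imp, forall_eq] at huk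
    refine Finset.mem_filter.2 ⟨Finset.mem_univ _, ?_, fun h => hu1 ((hone u).1 h), ?_⟩
    · rw [← map_mul, hu, map_one]
    · simp only [key, Prod.mk.injEq, decide_eq_decide, hk]
      exact huk
  · intro u v huv
    exact Subtype.ext (hf (congrArg Subtype.val huv))

/-- Two Sylow 2-subgroups of an extension of `A_6` of index 4 meet nontrivially. -/
theorem sylow_two_inf_ne_bot {G : Type*} [Group G] [Finite G] (N : Subgroup G) [N.Normal]
    (e : N ≃* alternatingGroup (Fin 6)) (hidx : N.index = 4) (H : Sylow 2 G) (x : G) :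
    (H : Subgroup G) ⊓ MulAut.conj x • (H : Subgroup G) ≠ ⊥ := by
  classical
  have hN : Nat.card N = 360 := by
    rw [Nat.card_congr e.toEquiv]
    have := two_mul_nat_card_alternatingGroup (α := Fin 6)
    rw [Nat.card_perm, Nat.card_fin] at this
    norm_num [Nat.factorial] at this ⊢
    omega
  have hG : Nat.card G = 1440 := by
    rw [← N.card_mul_index, hN, hidx]
  set K := N.subgroupOf (H : Subgroup G) with hK
  have hH32 : 32 ∣ Nat.card (H : Subgroup G) :=
    H.pow_dvd_card_of_pow_dvd_card (n := 5) (by rw [hG]; norm_num)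
  have hKidx : K.index ∣ 4 := hidx ▸ Subgroup.relIndex_dvd_index_of_normal N _
  have h2K : 2 ∣ Nat.card K := by
    have hc := K.card_mul_index
    have h4 := Nat.le_of_dvd (by norm_num) hKidx
    rw [← Nat.even_iff.trans (Nat.dvd_iff_mod_eq_zero ..).symm]
    by_contra hodd
    rw [Nat.not_even_iff_odd] at hodd
    have h32 : 32 ∣ K.index :=
      (Nat.Coprime.pow_left 5 (Nat.coprime_two_left.2 hodd)).dvd_of_dvd_mul_left (hc.symm ▸ hH32)
    have := Nat.le_of_dvd (Nat.pos_of_ne_zero Subgroup.index_ne_zero_of_finite) h32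
    omega
  let _ : MulAction (H : Subgroup G) K := MulAction.compHom K (MulAut.conjNormal (H := K))
  obtain ⟨y, hy, hy1⟩ := H.isPGroup'.exists_fixed_point_of_prime_dvd_card_of_fixed_point K h2K
    (a := (1 : K)) (fun h => map_one (MulAut.conjNormal h))
  have ha1 : (y.1 : G) ≠ 1 := fun h => hy1 (Subtype.ext (Subtype.ext h.symm))
  set a : G := (y.1 : G) with ha
  have haN : a ∈ N := y.2
  have hacomm : ∀ h ∈ (H : Subgroup G), h * a = a * h := fun h hh => by
    have := congrArg (fun v : K => (v.1 : G)) (hy ⟨h, hh⟩)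
    exact mul_inv_eq_iff_eq_mul.1 this
  have h2a : 2 ∣ orderOf a := by
    obtain ⟨j, hj⟩ := IsPGroup.iff_orderOf.1 H.isPGroup' ⟨a, y.1.2⟩
    rw [Subgroup.orderOf_mk] at hj
    rcases Nat.eq_zero_or_pos j with rfl | hj0
    · exact absurd (orderOf_eq_one_iff.1 (by simpa using hj)) ha1
    · rw [hj]; exact dvd_pow_self _ hj0.ne'
  set z := a ^ (orderOf a / 2) with hz
  have hzN : z ∈ N := pow_mem haN _
  have hz2 : orderOf z = 2 := orderOf_pow_orderOf_div (orderOf_pos a).ne' h2a
  have hzC : (H : Subgroup G) ≤ Subgroup.centralizer {z} := fun h hh => by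
    rw [Subgroup.mem_centralizer_singleton_iff]
    exact ((Commute.pow_right (hacomm h hh) _ : Commute h z)).eq
  set C := Subgroup.centralizer ({z} : Set G) with hC
  set zA := e ⟨z, hzN⟩ with hzA
  have hzA2 : orderOf zA = 2 := by rw [hzA, MulEquiv.orderOf_eq, Subgroup.orderOf_mk, hz2]
  have hCN : Nat.card (N.subgroupOf C) ≤ 8 := by
    refine le_trans (Nat.card_le_card_of_injective
      (fun u => (⟨e ⟨u.1.1, u.2⟩, ?_⟩ : Subgroup.centralizer {zA})) ?_) (card_centralizer_le zA hzA2)
    · rw [Subgroup.mem_centralizer_singleton_iff, hzA, ← map_mul, ← map_mul]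
      exact congrArg e (Subtype.ext (Subgroup.mem_centralizer_singleton_iff.1 u.1.2))
    · intro u v huv
      exact Subtype.ext (Subtype.ext
        (congrArg Subtype.val (e.injective (congrArg Subtype.val huv)) :))
  have hCcard : Nat.card C ≤ 32 := by
    rw [← (N.subgroupOf C).card_mul_index]
    exact Nat.mul_le_mul hCN
      (Nat.le_of_dvd (by norm_num) (hidx ▸ Subgroup.relIndex_dvd_index_of_normal N C))
  have hHge : 32 ≤ Nat.card (H : Subgroup G) := Nat.le_of_dvd Nat.card_pos hH32
  have hHC : (H : Subgroup G) = C := Subgroup.eq_of_le_of_card_ge hzC (hCcard.trans hHge)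
  intro hbot
  set w := x * z * x⁻¹ with hw
  have hwN : w ∈ N := ‹N.Normal›.conj_mem z hzN x
  set wA := e ⟨w, hwN⟩ with hwA
  have hconjN : ∀ h : G, h * w * h⁻¹ ∈ N := fun h => ‹N.Normal›.conj_mem w hwN h
  have hfix : ∀ g ∈ (H : Subgroup G), g * w = w * g → g = 1 := fun g hg hgw => by
    refine Subgroup.mem_bot.1 (hbot ▸ Subgroup.mem_inf.2 ⟨hg, ?_⟩)
    rw [Subgroup.mem_pointwise_smul_iff_inv_smul_mem, hHC, Subgroup.mem_centralizer_singleton_iff]
    simp only [MulAut.smul_def, MulAut.inv_apply, MulAut.conj_symm_apply]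
    calc x⁻¹ * g * x * z = x⁻¹ * (g * w) * x := by rw [hw]; group
      _ = z * (x⁻¹ * g * x) := by rw [hgw, hw]; group
  have hle := card_same_key_le zA wA hzA2
  refine absurd (le_trans hHge (le_trans (Nat.card_le_card_of_injective
    (fun h : (H : Subgroup G) => (⟨e ⟨h.1 * w * (h.1)⁻¹, hconjN h.1⟩, ?_, ?_, ?_⟩ :
      {u : alternatingGroup (Fin 6) // u * u = 1 ∧ u ≠ 1 ∧
        ∀ k ∈ [3, 4, 5], ((zA * u) ^ k = 1 ↔ (zA * wA) ^ k = 1)})) ?_) hle)) (by norm_num)
  · rw [← map_mul, ← map_one e]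
    refine congrArg e (Subtype.ext ?_)
    have hzz : z * z = 1 := by rw [← sq, ← hz2]; exact pow_orderOf_eq_one z
    show h.1 * w * (h.1)⁻¹ * (h.1 * w * (h.1)⁻¹) = 1
    calc _ = h.1 * x * (z * z) * x⁻¹ * (h.1)⁻¹ := by rw [hw]; group
      _ = 1 := by rw [hzz]; group
  · intro h1
    rw [← map_one e] at h1
    have h2 : h.1 * w * (h.1)⁻¹ = 1 := congrArg Subtype.val (e.injective h1)
    have h3 : z = 1 := conj_eq_one_iff.1 (conj_eq_one_iff.1 h2)
    rw [h3, orderOf_one] at hz2
    omega
  · intro k _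
    have hcz : h.1 * z * (h.1)⁻¹ = z := by
      rw [Subgroup.mem_centralizer_singleton_iff.1 (hzC h.2), mul_inv_cancel_right]
    rw [hzA, hwA, ← map_mul, ← map_mul, ← map_pow, ← map_pow, map_eq_one_iff e e.injective,
      map_eq_one_iff e e.injective, Subtype.ext_iff, Subtype.ext_iff, Subgroup.coe_pow,
      Subgroup.coe_pow, Subgroup.coe_mul, Subgroup.coe_mul, Subgroup.coe_one]
    show (z * (h.1 * w * (h.1)⁻¹)) ^ k = 1 ↔ (z * w) ^ k = 1
    conv_lhs => rw [← hcz, conj_mul, conj_pow]
    exact conj_eq_one_iff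
  · intro h h' hh
    have h1 : h.1 * w * (h.1)⁻¹ = h'.1 * w * (h'.1)⁻¹ :=
      congrArg Subtype.val (e.injective (congrArg Subtype.val hh))
    have h2 := hfix ((h'.1)⁻¹ * h.1) (mul_mem (inv_mem h'.2) h.2) (by
      calc (h'.1)⁻¹ * h.1 * w = (h'.1)⁻¹ * (h.1 * w * (h.1)⁻¹) * h.1 := by group
        _ = w * ((h'.1)⁻¹ * h.1) := by rw [h1]; group)
    exact Subtype.ext (inv_mul_eq_one.1 h2).symm

end Cfsg.Agent.H62.ASix
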