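import Cfsg.Agent.H62.WindowModel

/-!
Presentations of `A_n` and `S_n` with a bounded number of generators and relations.
-/

set_option autoImplicit false

namespace Cfsg.Agent.H62

open Equiv

/-- A presented group not larger than its image is the image. -/
theorem pres_of_bound {ι T : Type*} [Group T] [Finite T] (f : ι → T)
    (hf : Subgroup.closure (Set.range f) = ⊤) (rels : Set (FreeGroup ι))
    (hrels : ∀ r ∈ rels, FreeGroup.lift f r = 1)
    (hb : Finite (PresentedGroup rels) ∧ Nat.card (PresentedGroup rels) ≤ Nat.card T) :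
    ∃ e : PresentedGroup rels ≃* T, ∀ j, e (PresentedGroup.of j) = f j := by
  have := hb.1
  let φ : PresentedGroup rels →* T := PresentedGroup.toGroup (f := f) hrels
  have hs : Function.Surjective φ := by
    rw [← MonoidHom.range_eq_top, eq_top_iff, ← hf, Subgroup.closure_le]
    rintro _ ⟨i, rfl⟩
    exact ⟨PresentedGroup.of i, PresentedGroup.toGroup.of hrels⟩
  have hbij : Function.Bijective φ :=
    (Nat.bijective_iff_surjective_and_card φ).2
      ⟨hs, le_antisymm hb.2 (Nat.card_le_card_of_surjective _ hs)⟩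
  exact ⟨MulEquiv.ofBijective φ hbij, fun j => PresentedGroup.toGroup.of hrels⟩

theorem pres_rel_eq_one {ι : Type*} {rels : Set (FreeGroup ι)} {r : FreeGroup ι} (h : r ∈ rels) :
    PresentedGroup.mk rels r = 1 :=
  PresentedGroup.mk_eq_one_iff.2 (Subgroup.subset_normalClosure h)

/-- A model of the window presentation in a group of the maximal possible order. -/
structure WindowModel (T : Type*) [Group T] where
  p : ℕ
  M : ℕ
  k : ℕ
  D : WinData p M k
  valid : D.Valid
  a : T
  z : T
  c : T
  rel : ∀ i, winRel D a z c i = 1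
  gen : Subgroup.closure {z, c} = (⊤ : Subgroup T)
  card : k * (p + M + 2).factorial ≤ 2 * Nat.card T

/-- Any presentation containing the window relators in suitable words is faithful. -/
theorem WindowModel.presentation {T : Type*} [Group T] [Finite T] (W : WindowModel T) {ι : Type*}
    (f : ι → T) (hf : Subgroup.closure (Set.range f) = ⊤) (rels : Set (FreeGroup ι))
    (hrels : ∀ r ∈ rels, FreeGroup.lift f r = 1) (u : Fin 3 → FreeGroup ι)
    (hu : ∀ i, winRel W.D (u 0) (u 1) (u 2) i ∈ rels)
    (hgen : ∀ j, PresentedGroup.of (rels := rels) j ∈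
      Subgroup.closure {PresentedGroup.mk rels (u 0), PresentedGroup.mk rels (u 1),
        PresentedGroup.mk rels (u 2)}) :
    ∃ e : PresentedGroup rels ≃* T, ∀ j, e (PresentedGroup.of j) = f j := by
  refine pres_of_bound f hf rels hrels ?_
  obtain ⟨h1, h2⟩ := window_bound W.D W.valid (PresentedGroup.mk rels (u 0))
    (PresentedGroup.mk rels (u 1)) (PresentedGroup.mk rels (u 2))
    (fun i => by rw [← map_winRel]; exact pres_rel_eq_one (hu i))
    (by
      rw [eq_top_iff, ← PresentedGroup.closure_range_of rels, Subgroup.closure_le]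
      rintro _ ⟨j, rfl⟩
      exact hgen j)
  exact ⟨h1, by have := W.card; omega⟩

theorem winRel_hom_one {T : Type*} [Group T] (W : WindowModel T) {ι : Type*} (f : ι → T)
    (u : Fin 3 → FreeGroup ι) (h0 : FreeGroup.lift f (u 0) = W.a)
    (h1 : FreeGroup.lift f (u 1) = W.z) (h2 : FreeGroup.lift f (u 2) = W.c) (i : Fin 7) :
    FreeGroup.lift f (winRel W.D (u 0) (u 1) (u 2) i) = 1 := by
  rw [map_winRel, h0, h1, h2, W.rel]

/-- Three generators and seven relations. -/
theorem WindowModel.three_gen {T : Type*} [Group T] [Finite T] (W : WindowModel T) :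
    ∃ rels : Finset (FreeGroup (Fin 3)), rels.card ≤ 7 ∧
      Nonempty (PresentedGroup (↑rels : Set (FreeGroup (Fin 3))) ≃* T) := by
  classical
  refine ⟨Finset.univ.image (winRel W.D (FreeGroup.of 0) (FreeGroup.of 1) (FreeGroup.of 2)),
    Finset.card_image_le.trans (by simp), ?_⟩
  obtain ⟨e, -⟩ := W.presentation ![W.a, W.z, W.c] (by
      rw [eq_top_iff, ← W.gen]
      refine Subgroup.closure_mono ?_
      rintro x (rfl | rfl)
      · exact ⟨1, rfl⟩
      · exact ⟨2, rfl⟩)
    ↑(Finset.univ.image (winRel W.D (FreeGroup.of (0 : Fin 3)) (FreeGroup.of 1) (FreeGroup.of 2)))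
    (fun r hr => by
      obtain ⟨i, -, rfl⟩ := Finset.mem_image.1 (Finset.mem_coe.1 hr)
      exact winRel_hom_one W _ FreeGroup.of (by simp) (by simp) (by simp) i)
    FreeGroup.of (fun i => Finset.mem_coe.2 (Finset.mem_image_of_mem _ (Finset.mem_univ i)))
    (fun j => by
      refine Subgroup.subset_closure ?_
      fin_cases j
      · exact Or.inl rfl
      · exact Or.inr (Or.inl rfl)
      · exact Or.inr (Or.inr rfl))
  exact ⟨e⟩

theorem exists_word {ι T : Type*} [Group T] (f : ι → T)
    (hf : Subgroup.closure (Set.range f) = ⊤) (x : T) : ∃ w, FreeGroup.lift f w = x := by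
  have h : (FreeGroup.lift f).range = ⊤ := by
    rw [eq_top_iff, ← hf, Subgroup.closure_le]
    rintro _ ⟨i, rfl⟩
    exact ⟨FreeGroup.of i, FreeGroup.lift_apply_of⟩
  exact MonoidHom.range_eq_top.1 h x

/-- Two generators and seven relations. -/
theorem WindowModel.two_gen {T : Type*} [Group T] [Finite T] (W : WindowModel T) :
    ∃ rels : Finset (FreeGroup (Fin 2)), rels.card ≤ 7 ∧
      Nonempty (PresentedGroup (↑rels : Set (FreeGroup (Fin 2))) ≃* T) := by
  classical
  have hf : Subgroup.closure (Set.range ![W.z, W.c]) = ⊤ := by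
    rw [← W.gen]; congr 1; simp [Set.pair_comm]
  obtain ⟨w, hw⟩ := exists_word _ hf W.a
  let u : Fin 3 → FreeGroup (Fin 2) := ![w, FreeGroup.of 0, FreeGroup.of 1]
  refine ⟨Finset.univ.image (winRel W.D (u 0) (u 1) (u 2)),
    Finset.card_image_le.trans (by simp), ?_⟩
  obtain ⟨e, -⟩ := W.presentation ![W.z, W.c] hf
    ↑(Finset.univ.image (winRel W.D (u 0) (u 1) (u 2)))
    (fun r hr => by
      obtain ⟨i, -, rfl⟩ := Finset.mem_image.1 (Finset.mem_coe.1 hr)
      exact winRel_hom_one W _ u hw (by simp [u]) (by simp [u]) i)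
    u (fun i => Finset.mem_coe.2 (Finset.mem_image_of_mem _ (Finset.mem_univ i)))
    (fun j => by
      refine Subgroup.subset_closure ?_
      fin_cases j
      · exact Or.inr (Or.inl rfl)
      · exact Or.inr (Or.inr rfl))
  exact ⟨e⟩

/-- Nine relations on any generating pair. -/
theorem WindowModel.pair {T : Type*} [Group T] [Finite T] (W : WindowModel T) (a b : T)
    (hab : Subgroup.closure ({a, b} : Set T) = ⊤) :
    ∃ rels : Finset (FreeGroup (Fin 2)), rels.card ≤ 9 ∧
      ∃ e : PresentedGroup (↑rels : Set (FreeGroup (Fin 2))) ≃* T,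
        e (PresentedGroup.of 0) = a ∧ e (PresentedGroup.of 1) = b := by
  classical
  have hf : Subgroup.closure (Set.range ![a, b]) = ⊤ := by
    rw [← hab]; congr 1; simp [Set.pair_comm]
  obtain ⟨wa, hwa⟩ := exists_word _ hf W.a
  obtain ⟨wz, hwz⟩ := exists_word _ hf W.z
  obtain ⟨wc, hwc⟩ := exists_word _ hf W.c
  have hg : Subgroup.closure (Set.range ![W.z, W.c]) = ⊤ := by
    rw [← W.gen]; congr 1; simp [Set.pair_comm]
  choose v hv using fun j => exists_word _ hg (![a, b] j)
  let u : Fin 3 → FreeGroup (Fin 2) := ![wa, wz, wc]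
  let R := Finset.univ.image (winRel W.D (u 0) (u 1) (u 2)) ∪
    Finset.univ.image (fun j => FreeGroup.of j * (FreeGroup.lift ![wz, wc] (v j))⁻¹)
  refine ⟨R, (Finset.card_union_le _ _).trans
    ((Nat.add_le_add Finset.card_image_le Finset.card_image_le).trans (by simp)), ?_⟩
  obtain ⟨e, he⟩ := W.presentation ![a, b] hf ↑R
    (fun r hr => by
      rcases Finset.mem_union.1 (Finset.mem_coe.1 hr) with hr | hr <;>
        obtain ⟨i, -, rfl⟩ := Finset.mem_image.1 hr
      · exact winRel_hom_one W _ u hwa hwz hwc i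
      · rw [map_mul, map_inv, map_freeLift, FreeGroup.lift_apply_of, mul_inv_eq_one, ← hv i]
        refine congrArg (fun g => FreeGroup.lift g (v i)) (funext fun l => ?_)
        fin_cases l
        · exact hwz.symm
        · exact hwc.symm)
    u
    (fun i => Finset.mem_coe.2 (Finset.mem_union_left _
      (Finset.mem_image_of_mem _ (Finset.mem_univ i))))
    (fun j => by
      have h : PresentedGroup.mk (↑R : Set (FreeGroup (Fin 2)))
          (FreeGroup.of j * (FreeGroup.lift ![wz, wc] (v j))⁻¹) = 1 :=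
        pres_rel_eq_one (Finset.mem_coe.2 (Finset.mem_union_right _
          (Finset.mem_image.2 ⟨j, Finset.mem_univ _, rfl⟩)))
      rw [map_mul, map_inv, mul_inv_eq_one, map_freeLift] at h
      rw [show PresentedGroup.of (rels := (↑R : Set (FreeGroup (Fin 2)))) j = _ from h]
      exact freeLift_mem _ _ (fun l => Subgroup.subset_closure (by
        fin_cases l
        · exact Or.inr (Or.inl rfl)
        · exact Or.inr (Or.inr rfl))) _)
  exact ⟨e, he 0, he 1⟩

/-- The window model of `S_n`. -/
theorem perm_window_model {n : ℕ} (hn : 5 ≤ n) : Nonempty (WindowModel (Perm (Fin n))) := by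
  obtain ⟨p, M, D, hD, rfl, a, z, c, hrel, -, -, hc, hgen⟩ :=
    exists_window_model hn (k := 2) (Or.inr rfl)
  refine ⟨⟨p, M, 2, D, hD, a, z, c, hrel, ?_, ?_⟩⟩
  · have : Nontrivial (Fin (p + M + 2)) := inferInstance
    rw [eq_top_iff]
    intro g _
    rcases Int.units_eq_one_or (Perm.sign g) with h | h
    · exact hgen (Perm.mem_alternatingGroup.2 h)
    · have hcm : c ∈ Subgroup.closure ({z, c} : Set (Perm (Fin (p + M + 2)))) :=
        Subgroup.subset_closure (by simp)
      have : g * c ∈ Subgroup.closure ({z, c} : Set (Perm (Fin (p + M + 2)))) :=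
        hgen (Perm.mem_alternatingGroup.2 (by rw [map_mul, h, hc]; decide))
      simpa using mul_mem this (inv_mem hcm)
  · rw [Nat.card_perm, Nat.card_fin]

/-- The window model of `A_n`. -/
theorem alt_window_model {n : ℕ} (hn : 5 ≤ n) :
    Nonempty (WindowModel (alternatingGroup (Fin n))) := by
  obtain ⟨p, M, D, hD, rfl, a, z, c, hrel, ha, hz, hc, hgen⟩ :=
    exists_window_model hn (k := 1) (Or.inl rfl)
  let A := alternatingGroup (Fin (p + M + 2))
  let a' : A := ⟨a, Perm.mem_alternatingGroup.2 ha⟩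
  let z' : A := ⟨z, Perm.mem_alternatingGroup.2 hz⟩
  let c' : A := ⟨c, Perm.mem_alternatingGroup.2 (by simpa using hc)⟩
  refine ⟨⟨p, M, 1, D, hD, a', z', c', fun i => ?_, ?_, ?_⟩⟩
  · exact Subtype.ext ((map_winRel A.subtype D a' z' c' i).trans (hrel i))
  · rw [eq_top_iff]
    intro g _
    have hg : g.1 ∈ (Subgroup.closure ({z', c'} : Set A)).map A.subtype := by
      rw [MonoidHom.map_closure, Set.image_pair]
      exact hgen g.2
    obtain ⟨g', hg', he⟩ := hg
    exact (Subtype.ext he : g' = g) ▸ hg'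
  · have : Nontrivial (Fin (p + M + 2)) := inferInstance
    rw [one_mul, two_mul_nat_card_alternatingGroup, Nat.card_perm, Nat.card_fin]

/-- A group generated by a finite subgroup and an element squaring into it and normalising it. -/
theorem two_step_bound {J : Type*} [Group J] (H : Subgroup J) [Finite H] (y : J)
    (hy2 : y ^ 2 ∈ H) (hn : ∀ h ∈ H, y * h * y⁻¹ ∈ H)
    (hgen : H ⊔ Subgroup.zpowers y = ⊤) : Finite J ∧ Nat.card J ≤ 2 * Nat.card H := by
  have hn' : ∀ h ∈ H, y⁻¹ * h * y ∈ H := fun h hh => by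
    have := mul_mem (mul_mem (inv_mem hy2) (hn _ hh)) hy2
    rwa [show (y ^ 2)⁻¹ * (y * h * y⁻¹) * y ^ 2 = y⁻¹ * h * y by rw [sq]; group] at this
  have hnorm : H.Normal := by
    rw [← Subgroup.normalizer_eq_top_iff, eq_top_iff, ← hgen, sup_le_iff, Subgroup.zpowers_le]
    refine ⟨Subgroup.le_normalizer, ?_⟩
    rw [Subgroup.mem_normalizer_iff]
    exact fun h => ⟨hn h, fun hh => by simpa [mul_assoc] using hn' _ hh⟩
  have hcyc : Subgroup.zpowers (QuotientGroup.mk' H y) = ⊤ := by
    rw [eq_top_iff, ← Subgroup.map_top_of_surjective _ (QuotientGroup.mk'_surjective H), ← hgen,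
      Subgroup.map_sup, MonoidHom.map_zpowers, QuotientGroup.map_mk'_self, bot_sup_eq]
  have hy : QuotientGroup.mk' H y ^ 2 = 1 := by
    rw [← map_pow]; exact (QuotientGroup.eq_one_iff _).2 hy2
  have hq : Nat.card (J ⧸ H) = orderOf (QuotientGroup.mk' H y) := by
    rw [← Subgroup.card_top (G := J ⧸ H), ← hcyc, Nat.card_zpowers]
  have hq2 : Nat.card (J ⧸ H) ≤ 2 := hq ▸ orderOf_le_of_pow_eq_one (by omega) hy
  have hq0 : 0 < Nat.card (J ⧸ H) :=
    hq ▸ orderOf_pos_iff.2 (isOfFinOrder_iff_pow_eq_one.2 ⟨2, by omega, hy⟩)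
  have hJ := Subgroup.card_eq_card_quotient_mul_card_subgroup H
  refine ⟨(Nat.card_pos_iff.1 ?_).2, ?_⟩
  · rw [hJ]; exact Nat.mul_pos hq0 Nat.card_pos
  · rw [hJ]; exact Nat.mul_le_mul_right _ hq2

end Cfsg.Agent.H62
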