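import Mathlib

/-!
Non-trivial words do not vanish on `SL(2, F)` for large finite fields `F`.
-/

set_option autoImplicit false

namespace Cfsg.Agent.H62

open Polynomial
open scoped MatrixGroups

/-- `w` fails strongly in `A`: some substitution from the derived subgroup gives a value that does not
commute with an element of the derived subgroup. -/
def LawFailsStrongly {ι : Type*} (w : FreeGroup ι) (A : Type*) [Group A] : Prop :=
  ∃ f : ι → A, (∀ i, f i ∈ commutator A) ∧ ∃ u ∈ commutator A, u * FreeGroup.lift f w ≠ FreeGroup.lift f w * u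

theorem lift_comp_hom {ι A B : Type*} [Group A] [Group B] (φ : A →* B) (f : ι → A) (w : FreeGroup ι) :
    FreeGroup.lift (φ ∘ f) w = φ (FreeGroup.lift f w) :=
  ((FreeGroup.lift_unique (φ.comp (FreeGroup.lift f)) (fun x => by simp))).symm

/-- Strong failure of a law passes along injective homomorphisms. -/
theorem LawFailsStrongly.of_injective {ι A B : Type*} [Group A] [Group B] {w : FreeGroup ι}
    (h : LawFailsStrongly w A) (φ : A →* B) (hφ : Function.Injective φ) : LawFailsStrongly w B := by
  obtain ⟨f, hf, u, hu, hne⟩ := h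
  have hc : (commutator A).map φ ≤ commutator B := by
    rw [commutator_def, commutator_def, Subgroup.map_commutator]
    exact Subgroup.commutator_mono le_top le_top
  refine ⟨φ ∘ f, fun i => hc (Subgroup.mem_map_of_mem φ (hf i)), φ u,
    hc (Subgroup.mem_map_of_mem φ hu), ?_⟩
  rw [lift_comp_hom, ← map_mul, ← map_mul]
  exact fun h => hne (hφ h)

/-- Strong failure in `A` gives failure in the derived subgroup modulo its centre. -/
theorem LawFailsStrongly.commutator_mod_center {ι A : Type*} [Group A] {w : FreeGroup ι}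
    (h : LawFailsStrongly w A) :
    ∃ f : ι → commutator A ⧸ Subgroup.center (commutator A), FreeGroup.lift f w ≠ 1 := by
  obtain ⟨f, hf, u, hu, hne⟩ := h
  let f' : ι → commutator A := fun i => ⟨f i, hf i⟩
  refine ⟨QuotientGroup.mk' _ ∘ f', ?_⟩
  rw [lift_comp_hom]
  intro h1
  rw [QuotientGroup.mk'_apply, QuotientGroup.eq_one_iff, Subgroup.mem_center_iff] at h1
  have h2 := congrArg (commutator A).subtype (h1 ⟨u, hu⟩)
  rw [map_mul, map_mul, ← lift_comp_hom] at h2
  exact hne h2

/-- Strong failure in `A` gives failure in `A` modulo its centre. -/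
theorem LawFailsStrongly.mod_center {ι A : Type*} [Group A] {w : FreeGroup ι}
    (h : LawFailsStrongly w A) :
    ∃ f : ι → A ⧸ Subgroup.center A, FreeGroup.lift f w ≠ 1 := by
  obtain ⟨f, _, u, _, hne⟩ := h
  refine ⟨QuotientGroup.mk' _ ∘ f, ?_⟩
  rw [lift_comp_hom]
  intro h1
  rw [QuotientGroup.mk'_apply, QuotientGroup.eq_one_iff, Subgroup.mem_center_iff] at h1
  exact hne (h1 u)

section Transvections

variable {R : Type*} [CommRing R]

/-- Upper unitriangular element of `SL(2, R)`. -/
def xU (a : R) : SL(2, R) := ⟨!![1, a; 0, 1], by simp [Matrix.det_fin_two]⟩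

/-- Lower unitriangular element of `SL(2, R)`. -/
def yL (a : R) : SL(2, R) := ⟨!![1, 0; a, 1], by simp [Matrix.det_fin_two]⟩

@[simp] theorem xU_coe (a : R) : (xU a : Matrix (Fin 2) (Fin 2) R) = !![1, a; 0, 1] := rfl

@[simp] theorem yL_coe (a : R) : (yL a : Matrix (Fin 2) (Fin 2) R) = !![1, 0; a, 1] := rfl

theorem xU_mul (a b : R) : xU a * xU b = xU (a + b) := by
  ext i j
  fin_cases i <;> fin_cases j <;> simp [Matrix.mul_apply, Fin.sum_univ_two, add_comm]

theorem yL_mul (a b : R) : yL a * yL b = yL (a + b) := by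
  ext i j
  fin_cases i <;> fin_cases j <;> simp [Matrix.mul_apply, Fin.sum_univ_two]

theorem xU_inv (a : R) : (xU a)⁻¹ = xU (-a) := by
  refine inv_eq_of_mul_eq_one_right ?_
  rw [xU_mul, add_neg_cancel]
  ext i j
  fin_cases i <;> fin_cases j <;> simp

theorem yL_inv (a : R) : (yL a)⁻¹ = yL (-a) := by
  refine inv_eq_of_mul_eq_one_right ?_
  rw [yL_mul, add_neg_cancel]
  ext i j
  fin_cases i <;> fin_cases j <;> simp

/-- First column of a matrix. -/
def col0 (g : SL(2, R)) : R × R := (g.1 0 0, g.1 1 0)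

/-- Action of `xU a` on a column. -/
def xAct (a : R) (v : R × R) : R × R := (v.1 + a * v.2, v.2)

/-- Action of `yL a` on a column. -/
def yAct (a : R) (v : R × R) : R × R := (v.1, v.2 + a * v.1)

theorem col0_xU_mul (a : R) (g : SL(2, R)) : col0 (xU a * g) = xAct a (col0 g) := by
  simp [col0, xAct, Matrix.mul_apply, Fin.sum_univ_two]

theorem col0_yL_mul (a : R) (g : SL(2, R)) : col0 (yL a * g) = yAct a (col0 g) := by
  simp [col0, yAct, Matrix.mul_apply, Fin.sum_univ_two, add_comm]

end Transvections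

section Poly

variable (F : Type*) [Field F]

/-- Left outer exponent of the letter. -/
def lExp (a : ℕ × Bool) : ℕ := cond a.2 (2 * a.1 + 1) (2 * a.1 + 2)

/-- Right outer exponent of the letter. -/
def rExp (a : ℕ × Bool) : ℕ := cond a.2 (2 * a.1 + 2) (2 * a.1 + 1)

/-- Sign of a letter. -/
def lSign (a : ℕ × Bool) : F := cond a.2 1 (-1)

theorem lSign_ne_zero (a : ℕ × Bool) : lSign F a ≠ 0 := by
  rcases a with ⟨i, b⟩
  cases b <;> simp [lSign]

/-- One letter acting on a column of polynomials. -/
noncomputable def letterAct (a : ℕ × Bool) (v : F[X] × F[X]) : F[X] × F[X] :=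
  xAct (C (lSign F a) * X ^ lExp a)
    (yAct (C (lSign F a) * X) (xAct (C (lSign F a) * X ^ rExp a) v))

/-- First column of the value of a word. -/
noncomputable def wordCol : List (ℕ × Bool) → F[X] × F[X]
  | [] => (1, 0)
  | a :: L => letterAct F a (wordCol L)

/-- A degree bound for `wordCol`. -/
def colBound : List (ℕ × Bool) → ℕ
  | [] => 0
  | a :: L => 4 * a.1 + 6 + colBound L

theorem wordCol_spec : ∀ (L : List (ℕ × Bool)) (a : ℕ × Bool), FreeGroup.IsReduced (a :: L) →
    ∃ u₀ u₁ : F[X], wordCol F (a :: L) = xAct (C (lSign F a) * X ^ lExp a) (u₀, u₁) ∧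
      u₀.natDegree < u₁.natDegree ∧ u₁.natDegree + (2 * a.1 + 2) ≤ colBound (a :: L) := by
  intro L
  induction L with
  | nil =>
    intro a _
    refine ⟨1, C (lSign F a) * X, ?_, ?_, ?_⟩
    · simp [wordCol, letterAct, xAct, yAct]
    · rw [natDegree_one, natDegree_C_mul_X _ (lSign_ne_zero F a)]
      norm_num
    · rw [natDegree_C_mul_X _ (lSign_ne_zero F a)]
      simp only [colBound]
      omega
  | cons b L ih =>
    intro a hred
    rw [FreeGroup.isReduced_cons_cons] at hred
    obtain ⟨u₀, u₁, hcol, hlt, hbd⟩ := ih b hred.2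
    set c : F[X] := C (lSign F a) * X ^ rExp a + C (lSign F b) * X ^ lExp b with hc
    have hexp : rExp a ≠ lExp b := by
      rcases a with ⟨i, s⟩
      rcases b with ⟨j, t⟩
      have := hred.1
      cases s <;> cases t <;> simp [rExp, lExp] at this ⊢ <;> omega
    have hcdeg : c.natDegree = max (rExp a) (lExp b) := by
      have ha := natDegree_C_mul_X_pow (rExp a) _ (lSign_ne_zero F a)
      have hb := natDegree_C_mul_X_pow (lExp b) _ (lSign_ne_zero F b)
      rcases lt_or_gt_of_ne hexp with h | h
      · rw [hc, natDegree_add_eq_right_of_natDegree_lt (by rw [ha, hb]; exact h), hb,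
          max_eq_right h.le]
      · rw [hc, natDegree_add_eq_left_of_natDegree_lt (by rw [ha, hb]; exact h), ha,
          max_eq_left h.le]
    have hcpos : 1 ≤ c.natDegree := by
      rw [hcdeg]
      have : 1 ≤ rExp a := by
        rcases a with ⟨i, s⟩
        cases s <;> simp [rExp]
      omega
    have hc0 : c ≠ 0 := fun h => by rw [h, natDegree_zero] at hcpos; omega
    have hu0 : u₁ ≠ 0 := fun h => by rw [h, natDegree_zero] at hlt; omega
    set w₀ : F[X] := u₀ + c * u₁ with hw
    have hwdeg : w₀.natDegree = c.natDegree + u₁.natDegree := by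
      rw [hw, natDegree_add_eq_right_of_natDegree_lt, natDegree_mul hc0 hu0]
      rw [natDegree_mul hc0 hu0]
      omega
    have hw0 : w₀ ≠ 0 := fun h => by rw [h, natDegree_zero] at hwdeg; omega
    have hm : (C (lSign F a) * X * w₀).natDegree = 1 + w₀.natDegree := by
      rw [natDegree_mul (mul_ne_zero (C_ne_zero.2 (lSign_ne_zero F a)) X_ne_zero) hw0,
        natDegree_C_mul_X _ (lSign_ne_zero F a)]
    refine ⟨w₀, u₁ + C (lSign F a) * X * w₀, ?_, ?_, ?_⟩
    · show letterAct F a (wordCol F (b :: L)) = _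
      rw [hcol]
      simp only [letterAct, xAct, yAct, hw, hc, Prod.mk.injEq]
      constructor <;> ring
    · rw [natDegree_add_eq_right_of_natDegree_lt (p := u₁) (q := C (lSign F a) * X * w₀)
        (by rw [hm]; omega), hm]
      omega
    · rw [natDegree_add_eq_right_of_natDegree_lt (by rw [hm]; omega), hm, hwdeg, hcdeg]
      have h1 : rExp a ≤ 2 * a.1 + 2 := by
        rcases a with ⟨i, s⟩
        cases s <;> simp [rExp]
      have h2 : lExp b ≤ 2 * b.1 + 2 := by
        rcases b with ⟨j, t⟩
        cases t <;> simp [lExp]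
      simp only [colBound] at hbd ⊢
      omega

end Poly

section Eval

variable {F : Type*} [Field F]

/-- The substitution of a word at the parameter `α`. -/
def sl2Gen (α : F) (i : ℕ) : SL(2, F) := xU (α ^ (2 * i + 1)) * yL α * xU (α ^ (2 * i + 2))

theorem col0_prod (α : F) : ∀ L : List (ℕ × Bool),
    col0 ((L.map fun x => cond x.2 (sl2Gen α x.1) (sl2Gen α x.1)⁻¹).prod) =
      ((wordCol F L).1.eval α, (wordCol F L).2.eval α) := by
  intro L
  induction L with
  | nil => simp [col0, wordCol]
  | cons a L ih =>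
    rcases a with ⟨i, s⟩
    rw [List.map_cons, List.prod_cons]
    generalize (List.map (fun x : ℕ × Bool => cond x.2 (sl2Gen α x.1) (sl2Gen α x.1)⁻¹) L).prod = P
      at ih ⊢
    cases s <;>
      simp [sl2Gen, mul_inv_rev, xU_inv, yL_inv, mul_assoc, col0_xU_mul, col0_yL_mul, ih, wordCol,
        letterAct, xAct, yAct, lSign, lExp, rExp]

theorem exists_eval_ne_zero [Finite F] {P : F[X]} (hP : P ≠ 0) (h : P.natDegree < Nat.card F) :
    ∃ x : F, P.eval x ≠ 0 := by
  classical
  by_contra hne
  push Not at hne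
  have := Fintype.ofFinite F
  have := Polynomial.card_le_degree_of_subset_roots (p := P) (Z := Finset.univ)
    (fun x _ => by simp [Polynomial.mem_roots hP, hne x])
  rw [Finset.card_univ] at this
  rw [Nat.card_eq_fintype_card] at h
  omega

theorem exists_unit_sq_ne_one [Finite F] (h : 3 < Nat.card F) : ∃ u : F, u ≠ 0 ∧ u ^ 2 ≠ 1 := by
  have hd : (X ^ 3 - X : F[X]).natDegree = 3 := by
    compute_degree!
  obtain ⟨u, hu⟩ := exists_eval_ne_zero (P := (X ^ 3 - X : F[X]))
    (fun h0 => by rw [h0, natDegree_zero] at hd; omega) (by rw [hd]; exact h)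
  refine ⟨u, ?_, ?_⟩
  · rintro rfl
    simp at hu
  · intro h2
    refine hu ?_
    simp only [eval_sub, eval_pow, eval_X]
    linear_combination u * h2

open commutatorElement in
theorem xU_yL_mem_commutator [Finite F] (h : 3 < Nat.card F) (a : F) :
    xU a ∈ commutator SL(2, F) ∧ yL a ∈ commutator SL(2, F) := by
  obtain ⟨u, hu0, hu1⟩ := exists_unit_sq_ne_one h
  let d : SL(2, F) := ⟨!![u, 0; 0, u⁻¹], by simp [Matrix.det_fin_two, hu0]⟩
  have hdc : (d : Matrix (Fin 2) (Fin 2) F) = !![u, 0; 0, u⁻¹] := rfl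
  have hd : u ^ 2 - 1 ≠ 0 := sub_ne_zero.2 hu1
  have e1 : ⁅d, xU (a / (u ^ 2 - 1))⁆ = xU a := by
    rw [commutatorElement_def, xU_inv]
    ext i j
    fin_cases i <;> fin_cases j <;>
      simp [hdc, Matrix.mul_apply, Fin.sum_univ_two, Matrix.adjugate_fin_two] <;> field_simp <;> ring
  have e2 : ⁅d⁻¹, yL (a / (u ^ 2 - 1))⁆ = yL a := by
    rw [commutatorElement_def, yL_inv]
    ext i j
    fin_cases i <;> fin_cases j <;>
      simp [hdc, Matrix.mul_apply, Fin.sum_univ_two, Matrix.adjugate_fin_two] <;> field_simp <;> ring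
  constructor
  · rw [← e1, commutator_def]
    exact Subgroup.commutator_mem_commutator trivial trivial
  · rw [← e2, commutator_def]
    exact Subgroup.commutator_mem_commutator trivial trivial

end Eval

/-- A non-trivial word fails strongly on `SL(2, F)` for all sufficiently large finite fields. -/
theorem exists_sl2_law_fails {w : FreeGroup ℕ} (hw : w ≠ 1) :
    ∃ D : ℕ, ∀ (F : Type*) [Field F] [Finite F], D < Nat.card F → LawFailsStrongly w SL(2, F) := by
  classical
  obtain ⟨a, L, hL⟩ : ∃ a L, w.toWord = a :: L := by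
    cases h : w.toWord with
    | nil => exact absurd (FreeGroup.toWord_eq_nil_iff.1 h) hw
    | cons a L => exact ⟨a, L, rfl⟩
  refine ⟨max 3 (colBound (a :: L)), fun F _ _ hF => ?_⟩
  have hred : FreeGroup.IsReduced (a :: L) := hL ▸ FreeGroup.isReduced_toWord
  obtain ⟨u₀, u₁, hcol, hlt, hbd⟩ := wordCol_spec F L a hred
  have hu : u₁ ≠ 0 := fun h => by rw [h, natDegree_zero] at hlt; omega
  obtain ⟨α, hα⟩ := exists_eval_ne_zero hu (by omega)
  have h3 : 3 < Nat.card F := by omega
  refine ⟨sl2Gen α, fun i => mul_mem (mul_mem (xU_yL_mem_commutator h3 _).1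
    (xU_yL_mem_commutator h3 _).2) (xU_yL_mem_commutator h3 _).1, xU 1,
    (xU_yL_mem_commutator h3 _).1, ?_⟩
  set v := FreeGroup.lift (sl2Gen α) w with hv
  have hv10 : v.1 1 0 ≠ 0 := by
    have h1 : v = ((a :: L).map fun x => cond x.2 (sl2Gen α x.1) (sl2Gen α x.1)⁻¹).prod := by
      rw [hv, ← FreeGroup.lift_mk, ← hL, FreeGroup.mk_toWord]
    have h2 := congrArg Prod.snd (col0_prod α (a :: L))
    rw [← h1, hcol] at h2
    simp only [col0, xAct] at h2
    rw [h2]
    exact hα
  intro he
  have := congrArg (fun g : SL(2, F) => g.1 1 1) he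
  simp [Matrix.mul_apply, Fin.sum_univ_two] at this
  exact hv10 this

end Cfsg.Agent.H62
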