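import Cfsg.Agent.H62.FreeLaw

/-!
Non-trivial words do not vanish on large symmetric and alternating groups.
-/

set_option autoImplicit false

namespace Cfsg.Agent.H62

open scoped MatrixGroups

/-- A non-trivial word fails strongly in all large symmetric groups. -/
theorem exists_perm_law_fails {w : FreeGroup ℕ} (hw : w ≠ 1) :
    ∃ N : ℕ, ∀ n : ℕ, N ≤ n → LawFailsStrongly w (Equiv.Perm (Fin n)) := by
  obtain ⟨D, hD⟩ := exists_sl2_law_fails.{0} hw
  obtain ⟨p, hpD, hp⟩ := Nat.exists_infinite_primes (D + 1)
  have : Fact p.Prime := ⟨hp⟩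
  have h := hD (ZMod p) (by rw [Nat.card_zmod]; omega)
  let φ : SL(2, ZMod p) →* Equiv.Perm SL(2, ZMod p) := MulAction.toPermHom _ _
  have hφ : Function.Injective φ := MulAction.toPerm_injective
  refine ⟨Nat.card SL(2, ZMod p), fun n hn => ?_⟩
  let e : SL(2, ZMod p) ↪ Fin n :=
    (Finite.equivFin SL(2, ZMod p)).toEmbedding.trans (Fin.castLEEmb hn)
  exact (h.of_injective φ hφ).of_injective (Equiv.Perm.viaEmbeddingHom e)
    (Equiv.Perm.viaEmbeddingHom_injective e)

/-- The alternating groups of degree at least five are perfect. -/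
theorem alt_commutator_eq_top {n : ℕ} (hn : 5 ≤ n) :
    commutator (alternatingGroup (Fin n)) = ⊤ := by
  have hs : IsSimpleGroup (alternatingGroup (Fin n)) :=
    alternatingGroup.isSimpleGroup (by rwa [Nat.card_eq_fintype_card, Fintype.card_fin])
  rcases hs.eq_bot_or_eq_top_of_normal (commutator (alternatingGroup (Fin n))) inferInstance with
    h | h
  · exfalso
    have hc := alternatingGroup.center_eq_bot (α := Fin n)
      (by rw [Nat.card_eq_fintype_card, Fintype.card_fin]; omega)
    have htop : Subgroup.center (alternatingGroup (Fin n)) = ⊤ := by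
      rwa [commutator_def, Subgroup.commutator_eq_bot_iff_le_centralizer, Subgroup.coe_top,
        Subgroup.centralizer_univ, top_le_iff] at h
    exact bot_ne_top (hc.symm.trans htop)
  · exact h

/-- A non-trivial word fails strongly in all large alternating groups. -/
theorem exists_alt_law_fails {w : FreeGroup ℕ} (hw : w ≠ 1) :
    ∃ N : ℕ, ∀ n : ℕ, N ≤ n → LawFailsStrongly w (alternatingGroup (Fin n)) := by
  obtain ⟨N, hN⟩ := exists_perm_law_fails hw
  refine ⟨max N 5, fun n hn => ?_⟩
  obtain ⟨f, hf, u, hu, hne⟩ := hN n (by omega)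
  have hle : commutator (Equiv.Perm (Fin n)) ≤ alternatingGroup (Fin n) :=
    Abelianization.commutator_subset_ker Equiv.Perm.sign
  refine ⟨fun i => ⟨f i, hle (hf i)⟩, fun i => ?_, ⟨u, hle hu⟩, ?_, ?_⟩
  · rw [alt_commutator_eq_top (by omega)]; trivial
  · rw [alt_commutator_eq_top (by omega)]; trivial
  · intro h
    have h2 := congrArg (alternatingGroup (Fin n)).subtype h
    rw [map_mul, map_mul, ← lift_comp_hom] at h2
    exact hne h2

end Cfsg.Agent.H62
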