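import Cfsg.Agent.H62.LawAlternating
import Cfsg.Agent.H62.ClassicalEmbeddings

/-!
A non-trivial word is a law in only boundedly many alternating and classical simple groups.
-/

set_option autoImplicit false

namespace Cfsg.Agent.H62

open Matrix
open scoped MatrixGroups

universe u

theorem not_law_of_mulEquiv {G : Type u} [Group G] {B : Type*} [Group B] {w : FreeGroup ℕ}
    (e : G ≃* B) (hlaw : ∀ f : ℕ → G, FreeGroup.lift f w = 1)
    (h : ∃ f : ℕ → B, FreeGroup.lift f w ≠ 1) : False := by
  obtain ⟨f, hf⟩ := h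
  refine hf ?_
  have h2 := congrArg e.toMonoidHom (hlaw (e.symm ∘ f))
  rw [map_one, ← lift_comp_hom] at h2
  rw [← h2]
  congr
  ext i
  simp

theorem card_quotient_subgroup_le {A : Type*} [Group A] [Finite A] (K : Subgroup A) (N : Subgroup K) :
    Nat.card (K ⧸ N) ≤ Nat.card A :=
  le_trans (Nat.card_le_card_of_surjective _ QuotientGroup.mk_surjective) (Subgroup.card_le_card_group K)

theorem card_units_matrix_le {ι : Type} [Fintype ι] [DecidableEq ι] {F : Type} [Field F] [Fintype F]
    {Q B : ℕ} (hQ : Fintype.card F ≤ Q) (hB : Fintype.card ι ≤ B) :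
    Nat.card (GL ι F) ≤ (Q ^ B) ^ B := by
  have h1 : 1 ≤ Q := le_trans Fintype.card_pos hQ
  calc Nat.card (GL ι F) ≤ Nat.card (Matrix ι ι F) :=
        Nat.card_le_card_of_injective _ Units.val_injective
    _ = (Fintype.card F ^ Fintype.card ι) ^ Fintype.card ι := by
        simp [Matrix, Nat.card_eq_fintype_card]
    _ ≤ (Q ^ B) ^ B :=
        le_trans (Nat.pow_le_pow_left (Nat.pow_le_pow_left hQ _) _)
          (le_trans (Nat.pow_le_pow_left (Nat.pow_le_pow_right h1 hB) _)
            (Nat.pow_le_pow_right (Nat.one_le_pow _ _ h1) hB))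

variable {w : FreeGroup ℕ} {M D : ℕ}
  (hM : ∀ n, M ≤ n → LawFailsStrongly w (alternatingGroup (Fin n)))
  (hD : ∀ (F : Type) [Field F] [Finite F], D < Nat.card F → LawFailsStrongly w SL(2, F))

include hM hD

theorem sl_law_fails {F : Type} [Field F] [Fintype F] {m : ℕ} (hm : 2 ≤ m)
    (h : M ≤ m ∨ D < Fintype.card F) : LawFailsStrongly w (SpecialLinearGroup (Fin m) F) := by
  rcases h with h | h
  · exact (hM m h).of_injective altSLHom altSLHom_injective
  · obtain ⟨k, rfl⟩ := Nat.exists_eq_add_of_le hm
    exact (hD F (by rwa [Nat.card_eq_fintype_card])).of_injective (slBlockHom 2 k)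
      (slBlockHom_injective 2 k)

theorem gl_law_fails {F : Type} [Field F] [Fintype F] {m : ℕ} (hm : 2 ≤ m)
    (h : M ≤ m ∨ D < Fintype.card F) : LawFailsStrongly w (GL (Fin m) F) :=
  (sl_law_fails hM hD hm h).of_injective SpecialLinearGroup.toGL toGL_injective'

theorem su_law_fails {F : Type} [Field F] [Fintype F] {n q : ℕ} (hq : Fintype.card F = q ^ 2)
    (hn : 3 ≤ n) (h : M ≤ n ∨ D + 1 < q) : LawFailsStrongly w (SU n F q) := by
  obtain ⟨φ, hφ, hφφ⟩ := exists_frobenius_of_card hq
  rcases h with h | h
  · exact (hM n h).of_injective (altSLHom.codRestrict _ (altSLHom_mem_SU φ hφ))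
      (fun a b hab => altSLHom_injective (congrArg Subtype.val hab))
  · obtain ⟨k, rfl⟩ := Nat.exists_eq_add_of_le (show 2 ≤ n by omega)
    obtain ⟨ψ, hψ⟩ := exists_sl2_to_SU k hq φ hφ hφφ
    exact (hD (fixedSub φ) (by have := card_fixedSub hq φ hφ; omega)).of_injective ψ hψ

/-- The bound on the order of a classical or alternating simple group in which `w` is a law. -/
theorem law_group_card_le {G : Type u} [Group G] [Finite G]
    (hG : Cfsg.IsAlternating G ∨ Cfsg.IsPSL G ∨ Cfsg.IsPSp G ∨ Cfsg.IsPSU G ∨ Cfsg.IsPOmegaOdd G ∨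
          Cfsg.IsPOmegaPlus G ∨ Cfsg.IsPOmegaMinus G)
    (hlaw : ∀ f : ℕ → G, FreeGroup.lift f w = 1) :
    Nat.card G ≤ M.factorial + (((D + 2) ^ 2) ^ (2 * M + 2)) ^ (2 * M + 2) := by
  set B := 2 * M + 2 with hB
  set Q := (D + 2) ^ 2 with hQ
  have hQD : D < Q := by
    have := Nat.le_self_pow (n := 2) (by omega) (D + 2)
    omega
  suffices h : Nat.card G ≤ M.factorial ∨ Nat.card G ≤ (Q ^ B) ^ B by
    rcases h with h | h
    · exact le_add_right h
    · exact le_add_left h
  rcases hG with h | h | h | h | h | h | h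
  · obtain ⟨n, _, ⟨e⟩⟩ := h
    by_cases hn : M ≤ n
    · obtain ⟨f, _, u, _, hne⟩ := hM n hn
      exact (not_law_of_mulEquiv e hlaw ⟨f, fun h => hne (by rw [h, mul_one, one_mul])⟩).elim
    · left
      rw [Nat.card_congr e.toEquiv]
      refine le_trans (Subgroup.card_le_card_group _) ?_
      rw [Nat.card_perm, Nat.card_eq_fintype_card, Fintype.card_fin]
      exact Nat.factorial_le (by omega)
  · obtain ⟨F, _, _, n, hn, _, ⟨e⟩⟩ := h
    by_cases hc : M ≤ n ∨ D < Fintype.card F
    · exact (not_law_of_mulEquiv e hlaw (sl_law_fails hM hD hn hc).mod_center).elim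
    · right
      rw [Nat.card_congr e.toEquiv]
      refine le_trans (Nat.card_le_card_of_surjective _ QuotientGroup.mk_surjective) ?_
      exact le_trans (Nat.card_le_card_of_injective _ toGL_injective')
        (card_units_matrix_le (by omega) (by rw [Fintype.card_fin]; omega))
  · obtain ⟨F, _, _, m, hm, _, ⟨e⟩⟩ := h
    by_cases hc : M ≤ m ∨ D < Fintype.card F
    · exact (not_law_of_mulEquiv e hlaw
        ((gl_law_fails hM hD hm hc).of_injective (glToSp m) (glToSp_injective m)).mod_center).elim
    · right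
      rw [Nat.card_congr e.toEquiv]
      refine le_trans (Nat.card_le_card_of_surjective _ QuotientGroup.mk_surjective) ?_
      exact le_trans (Nat.card_le_card_of_injective (symplecticGroup (Fin m) F).subtype.toHomUnits
        (fun a b hab => Subtype.ext (congrArg Units.val hab)))
        (card_units_matrix_le (by omega) (by rw [Fintype.card_sum, Fintype.card_fin]; omega))
  · obtain ⟨F, _, _, n, q, hq, hn, _, ⟨e⟩⟩ := h
    by_cases hc : M ≤ n ∨ D + 1 < q
    · exact (not_law_of_mulEquiv e hlaw (su_law_fails hM hD hq hn hc).mod_center).elim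
    · right
      rw [Nat.card_congr e.toEquiv]
      refine le_trans (card_quotient_subgroup_le _ _) ?_
      refine le_trans (Nat.card_le_card_of_injective _ toGL_injective')
        (card_units_matrix_le ?_ (by rw [Fintype.card_fin]; omega))
      rw [hq]
      exact Nat.pow_le_pow_left (by omega) 2
  · obtain ⟨F, _, _, m, hm, _, ⟨e⟩⟩ := h
    by_cases hc : M ≤ m ∨ D < Fintype.card F
    · exact (not_law_of_mulEquiv e hlaw
        ((gl_law_fails hM hD (show 2 ≤ m by omega) hc).of_injective (glToOdd m)
          (glToOdd_injective m)).commutator_mod_center).elim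
    · right
      rw [Nat.card_congr e.toEquiv]
      refine le_trans (card_quotient_subgroup_le _ _) (le_trans (Subgroup.card_le_card_group _) ?_)
      exact card_units_matrix_le (by omega)
        (by rw [Fintype.card_sum, Fintype.card_sum, Fintype.card_fin, Fintype.card_unit]; omega)
  · obtain ⟨F, _, _, m, hm, ⟨e⟩⟩ := h
    by_cases hc : M ≤ m ∨ D < Fintype.card F
    · exact (not_law_of_mulEquiv e hlaw
        ((gl_law_fails hM hD (show 2 ≤ m by omega) hc).of_injective (glToPlus m)
          (glToPlus_injective m)).commutator_mod_center).elim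
    · right
      rw [Nat.card_congr e.toEquiv]
      refine le_trans (card_quotient_subgroup_le _ _) (le_trans (Subgroup.card_le_card_group _) ?_)
      exact card_units_matrix_le (by omega) (by rw [Fintype.card_sum, Fintype.card_fin]; omega)
  · obtain ⟨F, _, _, m, a, b, hm, _, ⟨e⟩⟩ := h
    by_cases hc : M ≤ m - 1 ∨ D < Fintype.card F
    · exact (not_law_of_mulEquiv e hlaw
        ((gl_law_fails hM hD (show 2 ≤ m - 1 by omega) hc).of_injective (glToMinus (m - 1) a b)
          (glToMinus_injective (m - 1) a b)).commutator_mod_center).elim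
    · right
      rw [Nat.card_congr e.toEquiv]
      refine le_trans (card_quotient_subgroup_le _ _) (le_trans (Subgroup.card_le_card_group _) ?_)
      exact card_units_matrix_le (by omega)
        (by rw [Fintype.card_sum, Fintype.card_sum, Fintype.card_fin, Fintype.card_fin]; omega)

end Cfsg.Agent.H62
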