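import Mathlib

/-!
Arithmetic for the largest nilpotent subgroups of symmetric groups.
-/

set_option autoImplicit false

namespace Cfsg.Agent.H62

/-- Fuelled exponent of 2 in `n!`. -/
def expTwoAux : ℕ → ℕ → ℕ
  | 0, _ => 0
  | f + 1, n => n / 2 + expTwoAux f (n / 2)

/-- Exponent of 2 in `n!`. -/
def expTwo (n : ℕ) : ℕ := expTwoAux n n

theorem expTwoAux_eq : ∀ f n : ℕ, n ≤ f → expTwoAux f n = padicValNat 2 n.factorial := by
  intro f
  induction f with
  | zero =>
    intro n h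
    obtain rfl : n = 0 := by omega
    simp [expTwoAux]
  | succ f ih =>
    intro n h
    rw [expTwoAux, ih (n / 2) (by omega), ← padicValNat_mul_div_factorial n, padicValNat_factorial_mul]
    ring

theorem expTwo_eq (n : ℕ) : expTwo n = padicValNat 2 n.factorial := expTwoAux_eq n n le_rfl

theorem expTwo_half (n : ℕ) : expTwo n = n / 2 + expTwo (n / 2) := by
  rw [expTwo_eq, expTwo_eq, ← padicValNat_mul_div_factorial n, padicValNat_factorial_mul]
  ring

theorem expTwo_add_le (a b : ℕ) : expTwo a + expTwo b ≤ expTwo (a + b) := by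
  rw [expTwo_eq, expTwo_eq, expTwo_eq, ← padicValNat.mul a.factorial_ne_zero b.factorial_ne_zero]
  exact (padicValNat_dvd_iff_le (Nat.factorial_ne_zero _)).1
    (dvd_trans pow_padicValNat_dvd (Nat.factorial_mul_factorial_dvd_factorial_add a b))

theorem expTwo_mono {a b : ℕ} (h : a ≤ b) : expTwo a ≤ expTwo b := by
  obtain ⟨c, rfl⟩ := Nat.exists_eq_add_of_le h
  exact le_trans (Nat.le_add_right _ _) (expTwo_add_le a c)

theorem expTwo_quad (j t : ℕ) (ht : t < 4) : expTwo (4 * j + t) = expTwo (4 * j) + t / 2 := by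
  rw [expTwo_half (4 * j + t), expTwo_half (4 * j), expTwo_half ((4 * j + t) / 2),
    expTwo_half (4 * j / 2), show (4 * j + t) / 2 / 2 = j by omega, show 4 * j / 2 / 2 = j by omega]
  omega

theorem two_pow_le_expTwo : ∀ m : ℕ, 1 ≤ m → 2 ^ m ≤ 2 * m * 2 ^ expTwo m := by
  intro m
  induction m using Nat.strong_induction_on with
  | _ m ih =>
    intro hm
    rcases Nat.lt_or_ge m 2 with h | h
    · obtain rfl : m = 1 := by omega
      decide
    · have h1 := ih (m / 2) (by omega) (by omega)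
      rw [expTwo_half m]
      calc 2 ^ m = 2 ^ (m / 2) * 2 ^ (m / 2) * 2 ^ (m % 2) := by
            rw [← pow_add, ← pow_add]; congr 1; omega
        _ ≤ 2 ^ (m / 2) * (2 * (m / 2) * 2 ^ expTwo (m / 2)) * 2 ^ (m % 2) := by gcongr
        _ = 2 * (m / 2) * 2 ^ (m % 2) * (2 ^ (m / 2) * 2 ^ expTwo (m / 2)) := by ring
        _ ≤ 2 * m * 2 ^ (m / 2 + expTwo (m / 2)) := by
            rw [pow_add]
            refine Nat.mul_le_mul_right _ ?_
            rcases Nat.mod_two_eq_zero_or_one m with e | e <;> rw [e] <;> norm_num <;> omega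

/-- The largest order of a nilpotent subgroup of `S_n`. -/
def nilMax (n : ℕ) : ℕ :=
  2 ^ expTwo (4 * (n / 4)) * [1, 1, 2, 3].getD (n % 4) 0

theorem nilMax_of_mod_ne {n : ℕ} (h : n % 4 ≠ 3) : nilMax n = 2 ^ padicValNat 2 n.factorial := by
  rw [← expTwo_eq]
  conv_rhs => rw [← Nat.div_add_mod n 4, expTwo_quad _ _ (Nat.mod_lt _ (by norm_num)), pow_add]
  rw [nilMax]
  have : n % 4 < 4 := Nat.mod_lt _ (by norm_num)
  interval_cases h' : n % 4 <;> simp_all

theorem nilMax_of_mod_eq {n : ℕ} (h : n % 4 = 3) :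
    nilMax n = 3 * 2 ^ padicValNat 2 (n - 3).factorial := by
  rw [← expTwo_eq, nilMax, h, show n - 3 = 4 * (n / 4) by omega]
  show 2 ^ _ * 3 = _
  ring

theorem nilMax_shift (j t : ℕ) (ht : t < 4) :
    nilMax (4 * j + t) = 2 ^ expTwo (4 * j) * nilMax t := by
  rw [nilMax, nilMax, show (4 * j + t) / 4 = j by omega, show (4 * j + t) % 4 = t by omega,
    show t / 4 = 0 by omega, show t % 4 = t by omega]
  simp [expTwo, expTwoAux]

theorem nilMax_add_ge (j m : ℕ) : 2 ^ expTwo (4 * j) * nilMax m ≤ nilMax (4 * j + m) := by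
  rw [nilMax, nilMax, show (4 * j + m) / 4 = j + m / 4 by omega,
    show (4 * j + m) % 4 = m % 4 by omega, ← mul_assoc, ← pow_add, Nat.mul_add]
  exact Nat.mul_le_mul_right _ (Nat.pow_le_pow_right (by norm_num) (expTwo_add_le _ _))

theorem two_pow_le_nilMax (m : ℕ) : 2 ^ expTwo m ≤ nilMax m := by
  conv_lhs => rw [← Nat.div_add_mod m 4, expTwo_quad _ _ (Nat.mod_lt _ (by norm_num)), pow_add]
  rw [nilMax]
  gcongr
  have : m % 4 < 4 := Nat.mod_lt _ (by norm_num)
  interval_cases m % 4 <;> simp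

theorem nilMax_le_two_pow {k : ℕ} (hk : 1 ≤ k) : nilMax k ≤ 2 ^ k := by
  have hb : ∀ n, expTwo n ≤ n - 1 := fun n => by
    rw [expTwo_eq]
    rcases Nat.eq_zero_or_pos n with rfl | h
    · simp
    · have := padicValNat_factorial_lt_of_ne_zero (p := 2) (n := n) h.ne'
      omega
  rw [nilMax]
  have : k % 4 < 4 := Nat.mod_lt _ (by norm_num)
  rcases Nat.eq_zero_or_pos (k / 4) with h0 | h0
  · rw [h0]
    have : k < 4 := by omega
    interval_cases k <;> simp_all [expTwo, expTwoAux]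
  · calc 2 ^ expTwo (4 * (k / 4)) * [1, 1, 2, 3].getD (k % 4) 0
        ≤ 2 ^ (4 * (k / 4) - 1) * 2 ^ (k % 4 + 1) := by
          gcongr
          · norm_num
          · exact hb _
          · interval_cases k % 4 <;> simp
      _ = 2 ^ k := by rw [← pow_add]; congr 1; omega

theorem nilMax_pos (n : ℕ) : 0 < nilMax n := by
  have := two_pow_le_nilMax n
  have : 1 ≤ 2 ^ expTwo n := Nat.one_le_two_pow
  omega

/-- The count of possibilities on `k` cycles: `nilMax k`, except that two cycles allow no swap. -/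
def cycleMax (k : ℕ) : ℕ := if k = 2 then 1 else nilMax k

theorem crude_three : ∀ k : ℕ, 24 ≤ k → 36 * k * 6 ^ k < 2 ^ (3 * k) := by
  intro k hk
  induction k, hk using Nat.le_induction with
  | base => decide +kernel
  | succ k hk ih =>
    rw [show 3 * (k + 1) = 3 * k + 3 by ring, pow_add 2 (3 * k) 3, pow_succ 6 k]
    calc 36 * (k + 1) * (6 ^ k * 6) = 216 * (k + 1) * 6 ^ k := by ring
      _ ≤ 288 * k * 6 ^ k := Nat.mul_le_mul_right _ (by omega)
      _ = 36 * k * 6 ^ k * 8 := by ring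
      _ < 2 ^ (3 * k) * 2 ^ 3 := by omega

theorem crude_large (p k₀ : ℕ) (hp : 5 ≤ p) (hk0 : 1 ≤ k₀)
    (h0 : 12 * p * k₀ * (2 * p) ^ k₀ < 2 ^ (p * k₀)) :
    ∀ k : ℕ, k₀ ≤ k → 12 * p * k * (2 * p) ^ k < 2 ^ (p * k) := by
  have hstep : 4 * p ≤ 2 ^ p := by
    clear h0
    induction p, hp using Nat.le_induction with
    | base => norm_num
    | succ q hq ih =>
      rw [pow_succ]
      omega
  intro k hk
  induction k, hk using Nat.le_induction with
  | base => exact h0
  | succ k hk ih =>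
    rw [show p * (k + 1) = p * k + p by ring, pow_add 2 (p * k) p, pow_succ (2 * p) k]
    calc 12 * p * (k + 1) * ((2 * p) ^ k * (2 * p)) ≤ 12 * p * (2 * k) * ((2 * p) ^ k * (2 * p)) := by
          gcongr; omega
      _ = 12 * p * k * (2 * p) ^ k * (4 * p) := by ring
      _ < 2 ^ (p * k) * 2 ^ p := Nat.mul_lt_mul_of_lt_of_le ih hstep (by positivity)

theorem crude_base {p : ℕ} (hp : 13 ≤ p) : 24 * p * p < 2 ^ p := by
  induction p, hp using Nat.le_induction with
  | base => norm_num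
  | succ q hq ih =>
    rw [pow_succ]
    nlinarith

theorem key_bound_large {p k t : ℕ} (hk : 1 ≤ k) (ht : t < 4) (hp : 1 ≤ p)
    (h : 12 * p * k * (2 * p) ^ k < 2 ^ (p * k)) :
    2 * (p ^ k * cycleMax k * nilMax t) < nilMax (p * k + t) := by
  have hg : cycleMax k ≤ 2 ^ k := by
    rw [cycleMax]
    split_ifs
    · exact Nat.one_le_two_pow
    · exact nilMax_le_two_pow hk
  have hf : nilMax t ≤ 3 := by interval_cases t <;> decide
  have h1 := two_pow_le_expTwo (p * k) (Nat.mul_pos hp hk)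
  have h2 : 2 ^ expTwo (p * k) ≤ nilMax (p * k + t) :=
    le_trans (Nat.pow_le_pow_right (by norm_num) (expTwo_mono (Nat.le_add_right _ t))) (two_pow_le_nilMax _)
  have h3 : 2 * (p ^ k * cycleMax k * nilMax t) ≤ 6 * (2 * p) ^ k := by
    calc 2 * (p ^ k * cycleMax k * nilMax t) ≤ 2 * (p ^ k * 2 ^ k * 3) := by gcongr
      _ = 6 * (2 * p) ^ k := by rw [mul_pow]; ring
  have h4 : 6 * (2 * p) ^ k * (2 * p * k) < 2 ^ expTwo (p * k) * (2 * p * k) := by
    calc 6 * (2 * p) ^ k * (2 * p * k) = 12 * p * k * (2 * p) ^ k := by ring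
      _ < 2 ^ (p * k) := h
      _ ≤ 2 * (p * k) * 2 ^ expTwo (p * k) := h1
      _ = 2 ^ expTwo (p * k) * (2 * p * k) := by ring
  have := Nat.lt_of_mul_lt_mul_right h4
  omega

theorem crude_of_large {p k : ℕ} (hp : p.Prime) (hp2 : p ≠ 2) (hk : 1 ≤ k)
    (hbig : ¬ ((p = 3 ∧ k < 24) ∨ (p = 5 ∧ k < 5) ∨ (p = 7 ∧ k < 3) ∨ (p = 11 ∧ k < 2))) :
    12 * p * k * (2 * p) ^ k < 2 ^ (p * k) := by
  have h2 := hp.two_le
  rcases Nat.lt_or_ge p 13 with h | h
  · interval_cases p <;> norm_num at hp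
    · omega
    · simpa [mul_assoc] using crude_three k (by omega)
    · exact crude_large 5 5 le_rfl (by norm_num) (by decide +kernel) k (by omega)
    · exact crude_large 7 3 (by norm_num) (by norm_num) (by decide +kernel) k (by omega)
    · exact crude_large 11 2 (by norm_num) (by norm_num) (by decide +kernel) k (by omega)
  · refine crude_large p 1 (by omega) le_rfl ?_ k hk
    have := crude_base h
    rw [pow_one, mul_one, mul_one]
    nlinarith

set_option synthInstance.maxSize 4000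

theorem key_finite_three : ∀ t < 4, ∀ k < 24, 1 ≤ k →
    (k ≠ 1 → 4 * (3 ^ k * cycleMax k * nilMax t) < 3 * nilMax (3 * k + t)) := by
  decide +kernel

theorem key_finite_three' : ∀ t < 4, ∀ k < 4, 1 ≤ k →
    (k ≠ 1 → t ≠ 0 → 2 * (3 ^ k * cycleMax k * nilMax t) < nilMax (3 * k + t)) := by
  decide +kernel

theorem key_finite_five : ∀ t < 4, ∀ k < 5, 1 ≤ k →
    4 * (5 ^ k * cycleMax k * nilMax t) < 3 * nilMax (5 * k + t) ∧
      (¬ (k = 1 ∧ t = 0) → k ≤ 3 → 2 * (5 ^ k * cycleMax k * nilMax t) < nilMax (5 * k + t)) := by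
  decide +kernel

theorem key_finite_seven : ∀ t < 4, ∀ k < 3, 1 ≤ k →
    2 * (7 ^ k * cycleMax k * nilMax t) < nilMax (7 * k + t) := by
  decide +kernel

theorem key_finite_eleven : ∀ t < 4, 2 * (11 * cycleMax 1 * nilMax t) < nilMax (11 + t) := by
  decide +kernel

/-- The key numeric inequality for an odd prime `p` with `k` cycles and `r` fixed points. -/
theorem key_bound {p k r : ℕ} (hp : p.Prime) (hp2 : p ≠ 2) (hk : 1 ≤ k) (h31 : ¬ (p = 3 ∧ k = 1)) :
    4 * (p ^ k * cycleMax k * nilMax r) < 3 * nilMax (p * k + r) := by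
  set t := r % 4
  set j := r / 4
  have hr : r = 4 * j + t := (Nat.div_add_mod r 4).symm
  have ht : t < 4 := Nat.mod_lt _ (by norm_num)
  have hsmall : 4 * (p ^ k * cycleMax k * nilMax t) < 3 * nilMax (p * k + t) := by
    by_cases hs : (p = 3 ∧ k < 24) ∨ (p = 5 ∧ k < 5) ∨ (p = 7 ∧ k < 3) ∨ (p = 11 ∧ k < 2)
    · have h3 := key_finite_three t ht
      have h5 := key_finite_five t ht
      have h7 := key_finite_seven t ht
      have h11 := key_finite_eleven t ht
      rcases hs with ⟨rfl, hk'⟩ | ⟨rfl, hk'⟩ | ⟨rfl, hk'⟩ | ⟨rfl, hk'⟩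
      · exact h3 k hk' hk (fun e => h31 ⟨rfl, e⟩)
      · exact (h5 k hk' hk).1
      · have := h7 k hk' hk; omega
      · obtain rfl : k = 1 := by omega
        simp only [pow_one, mul_one] at h11 ⊢; omega
    · have := key_bound_large hk ht hp.one_le (crude_of_large hp hp2 hk hs)
      omega
  rw [hr, nilMax_shift j t ht, show p * k + (4 * j + t) = 4 * j + (p * k + t) by ring]
  have h2 := nilMax_add_ge j (p * k + t)
  have : 0 < 2 ^ expTwo (4 * j) := by positivity
  calc 4 * (p ^ k * cycleMax k * (2 ^ expTwo (4 * j) * nilMax t))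
      = 2 ^ expTwo (4 * j) * (4 * (p ^ k * cycleMax k * nilMax t)) := by ring
    _ < 2 ^ expTwo (4 * j) * (3 * nilMax (p * k + t)) := Nat.mul_lt_mul_of_pos_left hsmall this
    _ = 3 * (2 ^ expTwo (4 * j) * nilMax (p * k + t)) := by ring
    _ ≤ 3 * nilMax (4 * j + (p * k + t)) := Nat.mul_le_mul_left 3 h2

/-- The numeric inequality for at most three cycles and few fixed points. -/
theorem key_bound_small {p k r : ℕ} (hp : p.Prime) (hp2 : p ≠ 2) (hk : 1 ≤ k) (hk3 : k ≤ 3)
    (hr : r < 4) (h31 : ¬ (p = 3 ∧ k = 1))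
    (hexc : ¬ (r = 0 ∧ ((p = 5 ∧ k = 1) ∨ (p = 3 ∧ (k = 2 ∨ k = 3))))) :
    2 * (p ^ k * cycleMax k * nilMax r) < nilMax (p * k + r) := by
  by_cases hs : (p = 3 ∧ k < 24) ∨ (p = 5 ∧ k < 5) ∨ (p = 7 ∧ k < 3) ∨ (p = 11 ∧ k < 2)
  · have h3 := key_finite_three' r hr
    have h5 := key_finite_five r hr
    have h7 := key_finite_seven r hr
    have h11 := key_finite_eleven r hr
    rcases hs with ⟨rfl, hk'⟩ | ⟨rfl, hk'⟩ | ⟨rfl, hk'⟩ | ⟨rfl, hk'⟩
    · exact h3 k (by omega) hk (fun e => h31 ⟨rfl, e⟩) (fun e => hexc ⟨e, Or.inr ⟨rfl, by omega⟩⟩)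
    · exact (h5 k hk' hk).2 (fun e => hexc ⟨e.2, Or.inl ⟨rfl, e.1⟩⟩) hk3
    · exact h7 k hk' hk
    · obtain rfl : k = 1 := by omega
      simpa using h11
  · exact key_bound_large hk hr hp.one_le (crude_of_large hp hp2 hk hs)

end Cfsg.Agent.H62
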