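import Cfsg.Agent.H19.Misc
import Cfsg.Agent.H89.Nilpotent
import Mathlib

/-!
The centraliser of a product of `k` cycles of prime length `p`, in coordinates, and the resulting
bound on nilpotent subgroups.
-/

set_option autoImplicit false

namespace Cfsg.Agent.H62

open Equiv

variable {p k r : ℕ}

/-- Points: `k` cycles of length `p` and `r` further points. -/
abbrev cyclePoints (p k r : ℕ) := (Fin k × ZMod p) ⊕ Fin r

/-- The translation action on the cycles, after permuting them. -/
def cycleFib (σ : Perm (Fin k)) (t : Fin k → ZMod p) : Perm (Fin k × ZMod p) where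
  toFun x := (σ x.1, x.2 + t x.1)
  invFun x := (σ.symm x.1, x.2 - t (σ.symm x.1))
  left_inv x := by simp
  right_inv x := by simp

/-- A permutation commuting with the standard product of cycles, in coordinates. -/
def cycleBlock (σ : Perm (Fin k)) (t : Fin k → ZMod p) (ρ : Perm (Fin r)) : Perm (cyclePoints p k r) :=
  Equiv.sumCongr (cycleFib σ t) ρ

/-- The standard product of `k` cycles of length `p`. -/
def cycleStd (p k r : ℕ) : Perm (cyclePoints p k r) := cycleBlock 1 (fun _ => 1) 1

theorem cycleBlock_inl (σ : Perm (Fin k)) (t : Fin k → ZMod p) (ρ : Perm (Fin r)) (c : Fin k)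
    (i : ZMod p) : cycleBlock σ t ρ (.inl (c, i)) = .inl (σ c, i + t c) := rfl

theorem cycleBlock_inr (σ : Perm (Fin k)) (t : Fin k → ZMod p) (ρ : Perm (Fin r)) (j : Fin r) :
    cycleBlock σ t ρ (.inr j) = .inr (ρ j) := rfl

theorem cycleBlock_mul (σ σ' : Perm (Fin k)) (t t' : Fin k → ZMod p) (ρ ρ' : Perm (Fin r)) :
    cycleBlock σ t ρ * cycleBlock σ' t' ρ' =
      cycleBlock (σ * σ') (fun c => t' c + t (σ' c)) (ρ * ρ') := by
  ext x
  rcases x with ⟨c, i⟩ | j
  · simp [Perm.mul_apply, cycleBlock_inl, add_assoc]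
  · simp [Perm.mul_apply, cycleBlock_inr]

theorem cycleBlock_one : cycleBlock (1 : Perm (Fin k)) (0 : Fin k → ZMod p) (1 : Perm (Fin r)) = 1 := by
  ext x
  rcases x with ⟨c, i⟩ | j <;> simp [cycleBlock_inl, cycleBlock_inr]

theorem cycleBlock_inj {σ σ' : Perm (Fin k)} {t t' : Fin k → ZMod p} {ρ ρ' : Perm (Fin r)}
    (h : cycleBlock σ t ρ = cycleBlock σ' t' ρ') : σ = σ' ∧ t = t' ∧ ρ = ρ' := by
  refine ⟨Equiv.ext fun c => ?_, funext fun c => ?_, Equiv.ext fun j => ?_⟩
  · have := congrArg (fun f : Perm (cyclePoints p k r) => f (.inl (c, 0))) h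
    simp [cycleBlock_inl] at this
    exact this.1
  · have := congrArg (fun f : Perm (cyclePoints p k r) => f (.inl (c, 0))) h
    simp [cycleBlock_inl] at this
    exact this.2
  · have := congrArg (fun f : Perm (cyclePoints p k r) => f (.inr j)) h
    simpa [cycleBlock_inr] using this

theorem cycleBlock_shift_pow (t : Fin k → ZMod p) :
    (cycleBlock (r := r) (1 : Perm (Fin k)) t 1) ^ p = 1 := by
  have h : ∀ m : ℕ, (cycleBlock (r := r) (1 : Perm (Fin k)) t 1) ^ m =
      cycleBlock 1 (fun c => (m : ZMod p) * t c) 1 := by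
    intro m
    induction m with
    | zero => simp only [pow_zero, Nat.cast_zero, zero_mul]; exact cycleBlock_one.symm
    | succ m ih =>
      rw [pow_succ, ih, cycleBlock_mul]
      simp [add_mul, add_comm]
  rw [h]
  simp only [ZMod.natCast_self, zero_mul]
  exact cycleBlock_one

theorem sign_cycleBlock [NeZero p] (hp : Odd p) (σ : Perm (Fin k)) (t : Fin k → ZMod p)
    (ρ : Perm (Fin r)) : Perm.sign (cycleBlock σ t ρ) = Perm.sign σ * Perm.sign ρ := by
  have hu : ∀ u : ℤˣ, u ^ p = u := fun u => by
    rcases Int.units_eq_one_or u with rfl | rfl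
    · simp
    · exact hp.neg_one_pow
  have h1 : cycleBlock σ t ρ = cycleBlock σ 0 ρ * cycleBlock 1 t 1 := by
    rw [cycleBlock_mul]
    simp
  have h2 : Perm.sign (cycleBlock (r := r) (1 : Perm (Fin k)) t 1) = 1 := by
    have := congrArg Perm.sign (cycleBlock_shift_pow (r := r) t)
    rw [map_pow, map_one, hu] at this
    exact this
  have h3 : cycleFib σ (0 : Fin k → ZMod p) = Equiv.prodCongrLeft (fun _ : ZMod p => σ) := by
    ext x <;> simp [cycleFib, Equiv.prodCongrLeft]
  rw [h1, map_mul, h2, mul_one, cycleBlock, Perm.sign_sumCongr, h3, Perm.sign_prodCongrLeft,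
    Finset.prod_const, Finset.card_univ, ZMod.card, hu]

/-- Every permutation commuting with the standard product of cycles has coordinates. -/
theorem exists_cycleBlock [Fact p.Prime] {g : Perm (cyclePoints p k r)}
    (hg : Commute g (cycleStd p k r)) : ∃ σ t ρ, g = cycleBlock σ t ρ := by
  have hz : ∀ x, g (cycleStd p k r x) = cycleStd p k r (g x) := fun x =>
    congrArg (fun f : Perm (cyclePoints p k r) => f x) hg.eq
  have hl : ∀ c i, ∃ c' i', g (.inl (c, i)) = .inl (c', i') := by
    intro c i
    rcases h : g (.inl (c, i)) with ⟨c', i'⟩ | j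
    · exact ⟨c', i', rfl⟩
    · exfalso
      have h1 := hz (.inl (c, i))
      rw [h, cycleStd, cycleBlock_inl, cycleBlock_inr, Perm.one_apply, Perm.one_apply, ← h] at h1
      have h2 := g.injective h1
      simp at h2
  choose σf tf hf using hl
  have hstep : ∀ c (m : ℕ), g (.inl (c, (m : ZMod p))) = .inl (σf c 0, tf c 0 + m) := by
    intro c m
    induction m with
    | zero => rw [Nat.cast_zero, hf c 0, add_zero]
    | succ m ih =>
      have h1 := hz (.inl (c, (m : ZMod p)))
      rw [ih, cycleStd, cycleBlock_inl, cycleBlock_inl] at h1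
      simpa [add_assoc] using h1
  have hall : ∀ c i, g (.inl (c, i)) = .inl (σf c 0, i + tf c 0) := fun c i => by
    rw [← ZMod.natCast_zmod_val i, hstep, add_comm]
  have hσ : Function.Injective fun c => σf c 0 := by
    intro c c' h
    have h1 : g (.inl (c, 0)) = g (.inl (c', tf c 0 - tf c' 0)) := by
      rw [hall, hall]
      simp only at h
      simp [h]
    simpa using congrArg (fun x => x.elim Prod.fst (fun _ => c)) (g.injective h1)
  let σ : Perm (Fin k) := Equiv.ofBijective _ (Finite.injective_iff_bijective.1 hσ)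
  have hr : ∀ j, ∃ j', g (.inr j) = .inr j' := by
    intro j
    rcases h : g (.inr j) with ⟨c', i'⟩ | j'
    · exfalso
      obtain ⟨c, hc⟩ := σ.surjective c'
      have h1 : g (.inr j) = g (.inl (c, i' - tf c 0)) := by
        rw [h, hall, sub_add_cancel]
        exact congrArg (fun u => Sum.inl (u, i')) hc.symm
      simpa using g.injective h1
    · exact ⟨j', rfl⟩
  choose ρf hρf using hr
  have hρ : Function.Injective ρf := fun a b h => by
    have : g (.inr a) = g (.inr b) := by rw [hρf, hρf, h]
    simpa using g.injective this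
  refine ⟨σ, fun c => tf c 0, Equiv.ofBijective ρf (Finite.injective_iff_bijective.1 hρ), ?_⟩
  ext x
  rcases x with ⟨c, i⟩ | j
  · rw [hall]; rfl
  · rw [hρf]; rfl

section Bound

variable [Fact p.Prime] {N : Subgroup (Perm (cyclePoints p k r))}
  (hN : ∀ g ∈ N, Commute g (cycleStd p k r))

/-- The cycle permutation and fixed-point permutation of an element of `N`. -/
noncomputable def coordHom : N →* Perm (Fin k) × Perm (Fin r) where
  toFun g := ((exists_cycleBlock (hN g g.2)).choose,
    (exists_cycleBlock (hN g g.2)).choose_spec.choose_spec.choose)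
  map_one' := by
    have h := (exists_cycleBlock (hN 1 (one_mem N))).choose_spec.choose_spec.choose_spec
    obtain ⟨h1, _, h3⟩ := cycleBlock_inj (h.symm.trans cycleBlock_one.symm)
    exact Prod.ext h1 h3
  map_mul' g g' := by
    have hg := (exists_cycleBlock (hN g g.2)).choose_spec.choose_spec.choose_spec
    have hg' := (exists_cycleBlock (hN g' g'.2)).choose_spec.choose_spec.choose_spec
    have h := (exists_cycleBlock (hN _ (g * g').2)).choose_spec.choose_spec.choose_spec
    obtain ⟨h1, _, h3⟩ := cycleBlock_inj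
      (h.symm.trans ((congrArg₂ (· * ·) hg hg').trans (cycleBlock_mul _ _ _ _ _ _)))
    exact Prod.ext h1 h3

theorem coordHom_spec (g : N) :
    ∃ t, (g : Perm (cyclePoints p k r)) = cycleBlock (coordHom hN g).1 t (coordHom hN g).2 :=
  ⟨_, (exists_cycleBlock (hN g g.2)).choose_spec.choose_spec.choose_spec⟩

theorem coordHom_sign (hp : Odd p) (g : N) :
    Perm.sign (g : Perm (cyclePoints p k r)) =
      Perm.sign (coordHom hN g).1 * Perm.sign (coordHom hN g).2 := by
  obtain ⟨t, ht⟩ := coordHom_spec hN g
  rw [ht, sign_cycleBlock hp]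

theorem coordHom_ker_spec (u : (coordHom hN).ker) :
    ∃ t, ((u : N) : Perm (cyclePoints p k r)) = cycleBlock 1 t 1 := by
  obtain ⟨t, ht⟩ := coordHom_spec hN u
  rw [show coordHom hN u = 1 from u.2] at ht
  exact ⟨t, ht⟩

theorem card_ker_le : Nat.card (coordHom hN).ker ≤ p ^ k := by
  choose t ht using coordHom_ker_spec hN
  have := Nat.card_le_card_of_injective t (fun u v h => Subtype.ext (Subtype.ext (by rw [ht, ht, h])))
  rwa [Nat.card_fun, Nat.card_fin, Nat.card_zmod] at this

theorem card_eq_ker_mul_range :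
    Nat.card N = Nat.card (coordHom hN).ker * Nat.card (coordHom hN).range := by
  rw [← Subgroup.index_ker, Subgroup.card_mul_index]

theorem card_le_pow_mul_range : Nat.card N ≤ p ^ k * Nat.card (coordHom hN).range := by
  rw [card_eq_ker_mul_range hN]
  exact Nat.mul_le_mul_right _ (card_ker_le hN)

end Bound

section TwoCycles

variable [Fact p.Prime] {N : Subgroup (Perm (cyclePoints p 2 r))}
  (hN : ∀ g ∈ N, Commute g (cycleStd p 2 r))

/-- With two swapped cycles a nilpotent group meets the translations in at most `p` elements. -/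
theorem card_ker_le_of_swap (hodd : p ≠ 2) (hnil : Group.IsNilpotent N)
    (hg : ∃ g : N, (coordHom hN g).1 ≠ 1) : Nat.card (coordHom hN).ker ≤ p := by
  have hp : p.Prime := Fact.out
  obtain ⟨g, hg⟩ := hg
  set a := (orderOf g).factorization 2 with ha
  set m := orderOf g / 2 ^ a with hm
  have hpos : 0 < orderOf g := orderOf_pos g
  have hfull : 2 ^ a * m = orderOf g := Nat.ordProj_mul_ordCompl_eq_self _ 2
  have hmodd : Odd m := by
    rw [← Nat.not_even_iff_odd, even_iff_two_dvd]
    exact Nat.not_dvd_ordCompl Nat.prime_two hpos.ne'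
  set h : N := g ^ m with hh
  have hsq : ∀ σ : Perm (Fin 2), σ * σ = 1 := by decide
  have hσ : (coordHom hN h).1 = (coordHom hN g).1 := by
    rw [hh, map_pow, Prod.pow_fst]
    obtain ⟨j, hj⟩ := hmodd
    rw [hj, pow_succ, pow_mul, sq, hsq, one_pow, one_mul]
  have hoh : orderOf (h : Perm (cyclePoints p 2 r)) ∣ 2 ^ a := by
    rw [Subgroup.orderOf_coe]
    exact orderOf_dvd_of_pow_eq_one (by rw [hh, ← pow_mul, mul_comm, hfull, pow_orderOf_eq_one])
  choose t ht using coordHom_ker_spec hN
  obtain ⟨s, hs⟩ := coordHom_spec hN h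
  have hswap : (coordHom hN h).1 0 = 1 := by
    rw [hσ]
    have : ∀ σ : Perm (Fin 2), σ ≠ 1 → σ 0 = 1 := by decide
    exact this _ hg
  have hconst : ∀ u, t u 1 = t u 0 := by
    intro u
    have hou : orderOf ((u : N) : Perm (cyclePoints p 2 r)) ∣ p :=
      orderOf_dvd_of_pow_eq_one (by rw [ht]; exact cycleBlock_shift_pow _)
    have hco : Nat.Coprime (orderOf (h : Perm (cyclePoints p 2 r)))
        (orderOf ((u : N) : Perm (cyclePoints p 2 r))) :=
      Nat.Coprime.of_dvd hoh hou (Nat.Coprime.pow_left _
        ((Nat.coprime_primes Nat.prime_two hp).2 (Ne.symm hodd)))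
    have hc := H89.commute_of_nilpotent_coprime hnil h.2 (u : N).2 hco
    have := congrArg (fun f : Perm (cyclePoints p 2 r) => f (.inl (0, 0))) hc.eq
    simp only [Perm.mul_apply] at this
    rw [hs, ht, cycleBlock_inl, cycleBlock_inl, cycleBlock_inl, cycleBlock_inl] at this
    simp [hswap] at this
    exact (add_right_cancel (this.trans (add_comm _ _))).symm
  have hinj : Function.Injective fun u => t u 0 := by
    intro u v h'
    simp only at h'
    refine Subtype.ext (Subtype.ext ?_)
    have e : t u = t v := by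
      funext c
      fin_cases c
      · exact h'
      · show t u 1 = t v 1
        rw [hconst, hconst, h']
    rw [ht, ht, e]
  have := Nat.card_le_card_of_injective _ hinj
  rwa [Nat.card_zmod] at this

end TwoCycles

/-- An element of prime order is a standard product of cycles in suitable coordinates. -/
theorem exists_coordinates {n p : ℕ} [Fact p.Prime] {z : Perm (Fin n)} (hz : orderOf z = p) :
    ∃ k r : ℕ, 1 ≤ k ∧ n = p * k + r ∧
      ∃ e : Fin n ≃ cyclePoints p k r, e.permCongrHom z = cycleStd p k r := by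
  classical
  have hp : p.Prime := Fact.out
  obtain ⟨k', hk'⟩ := Perm.cycleType_prime_order (hz ▸ hp : (orderOf z).Prime)
  rw [hz] at hk'
  have hsum : p * (k' + 1) = z.support.card := by
    rw [← Perm.sum_cycleType, hk', Multiset.sum_replicate, smul_eq_mul, mul_comm]
  have hle : z.support.card ≤ n := le_trans (Finset.card_le_univ _) (Fintype.card_fin n).le
  refine ⟨k' + 1, n - p * (k' + 1), by omega, by omega, ?_⟩
  set k := k' + 1
  set r := n - p * k
  have hcard : Fintype.card (Fin n) = Fintype.card (cyclePoints p k r) := by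
    rw [Fintype.card_sum, Fintype.card_prod, Fintype.card_fin, Fintype.card_fin, Fintype.card_fin,
      ZMod.card, mul_comm k p]
    omega
  let e0 : Fin n ≃ cyclePoints p k r := Fintype.equivOfCardEq hcard
  set z' : Perm (Fin n) := e0.permCongrHom.symm (cycleStd p k r) with hz'
  have hne : ∀ c i, cycleStd p k r (.inl (c, i)) ≠ .inl (c, i) := by
    intro c i h
    rw [cycleStd, cycleBlock_inl] at h
    simp at h
  have hord : orderOf z' = p := by
    rw [hz', MulEquiv.orderOf_eq]
    refine orderOf_eq_prime (cycleBlock_shift_pow _) fun h => ?_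
    exact hne ⟨0, by omega⟩ 0 (by rw [h]; rfl)
  obtain ⟨k'', hk''⟩ := Perm.cycleType_prime_order (hord ▸ hp : (orderOf z').Prime)
  rw [hord] at hk''
  have hsupp : z'.support = Finset.univ.map
      ((Function.Embedding.inl : Fin k × ZMod p ↪ cyclePoints p k r).trans e0.symm.toEmbedding) := by
    ext x
    simp only [Perm.mem_support, Finset.mem_map, Finset.mem_univ, true_and,
      Function.Embedding.trans_apply, Equiv.coe_toEmbedding, Function.Embedding.inl_apply]
    obtain ⟨y, rfl⟩ := e0.symm.surjective x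
    have hval : z' (e0.symm y) = e0.symm (cycleStd p k r y) := by
      simp [hz', Equiv.permCongrHom, Equiv.permCongr_apply]
    rw [hval, ne_eq, e0.symm.injective.eq_iff]
    rcases y with ⟨c, i⟩ | j
    · exact ⟨fun _ => ⟨(c, i), rfl⟩, fun _ => hne c i⟩
    · simp [cycleStd, cycleBlock_inr]
  have hsum' : p * (k'' + 1) = p * k := by
    have h1 : p * (k'' + 1) = z'.support.card := by
      rw [← Perm.sum_cycleType, hk'', Multiset.sum_replicate, smul_eq_mul, mul_comm]
    rw [h1, hsupp, Finset.card_map, Finset.card_univ, Fintype.card_prod, Fintype.card_fin, ZMod.card,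
      mul_comm]
  have htype : z.cycleType = z'.cycleType := by
    rw [hk', hk'', Nat.eq_of_mul_eq_mul_left hp.pos hsum']
  obtain ⟨c, hc⟩ := isConj_iff.1 (Perm.isConj_iff_cycleType_eq.2 htype)
  refine ⟨(c : Fin n ≃ Fin n).trans e0, ?_⟩
  have h2 : ((c : Fin n ≃ Fin n).trans e0).permCongrHom z = e0.permCongrHom (c * z * c⁻¹) := by
    ext x
    simp [Equiv.permCongrHom, Equiv.permCongr_apply, Perm.mul_apply]
  rw [h2, hc, hz', MulEquiv.apply_symm_apply]

/-- A nilpotent group which is not a 2-group has a central element of odd prime order. -/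
theorem exists_central_odd_prime {G : Type*} [Group G] [Finite G] (hnil : Group.IsNilpotent G)
    (h2 : ¬ IsPGroup 2 G) : ∃ p : ℕ, p.Prime ∧ p ≠ 2 ∧ ∃ z : G, orderOf z = p ∧ z ∈ Subgroup.center G := by
  obtain ⟨p, hp, hp2, hdvd⟩ : ∃ p, p.Prime ∧ p ≠ 2 ∧ p ∣ Nat.card G := by
    by_contra h
    push Not at h
    refine h2 (IsPGroup.of_card (n := (Nat.card G).primeFactorsList.length)
      (Nat.eq_prime_pow_of_unique_prime_dvd Nat.card_pos.ne' fun {d} hd hdd => ?_))
    by_contra hne
    exact h d hd hne hdd
  haveI := Fact.mk hp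
  let P : Sylow p G := default
  haveI := hnil
  haveI : (P : Subgroup G).Normal := P.normal_of_normalizerCondition normalizerCondition_of_isNilpotent
  have hne : (P : Subgroup G) ≠ ⊥ := fun h => by
    have h1 := P.dvd_card_of_dvd_card hdvd
    rw [show ((P : Subgroup G) : Subgroup G) = ⊥ from h, Subgroup.card_bot] at h1
    exact hp.one_lt.ne' (Nat.dvd_one.1 h1)
  have h1 := H19.inf_center_ne_bot (P : Subgroup G) hne
  haveI : Nontrivial ((P : Subgroup G) ⊓ Subgroup.center G : Subgroup G) :=
    (Subgroup.nontrivial_iff_ne_bot _).2 h1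
  have hd2 : p ∣ Nat.card ((P : Subgroup G) ⊓ Subgroup.center G : Subgroup G) := by
    obtain ⟨j, hj⟩ := IsPGroup.iff_card.1 (P.isPGroup'.to_le (inf_le_left : (P : Subgroup G) ⊓ Subgroup.center G ≤ P))
    rw [hj]
    refine dvd_pow_self p fun h0 => ?_
    rw [h0, pow_zero] at hj
    exact absurd hj (Finite.one_lt_card.ne')
  obtain ⟨x, hx⟩ := exists_prime_orderOf_dvd_card' p hd2
  exact ⟨p, hp, hp2, x, by rw [Subgroup.orderOf_coe]; exact hx, x.2.2⟩

end Cfsg.Agent.H62
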