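import Cfsg.Agent.H62.NilArith
import Cfsg.Agent.H62.NilModel

/-!
Upper bounds on nilpotent subgroups of symmetric and alternating groups.
-/

set_option autoImplicit false

namespace Cfsg.Agent.H62

open Equiv

/-- The bounds proved by induction on the degree. -/
structure NilBounds (n : ℕ) : Prop where
  sym : ∀ N : Subgroup (Perm (Fin n)), Group.IsNilpotent N → Nat.card N ≤ nilMax n
  symStrict : ∀ N : Subgroup (Perm (Fin n)), Group.IsNilpotent N → n % 4 ≠ 3 → ¬ IsPGroup 2 N →
    Nat.card N < nilMax n
  alt : ∀ N : Subgroup (Perm (Fin n)), Group.IsNilpotent N → N ≤ alternatingGroup (Fin n) →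
    n ≠ 0 → n ≠ 1 → n ≠ 3 → n ≠ 5 → n ≠ 6 → n ≠ 9 → 2 * Nat.card N ≤ nilMax n
  altWeak : ∀ N : Subgroup (Perm (Fin n)), Group.IsNilpotent N → N ≤ alternatingGroup (Fin n) →
    n ≠ 0 → n ≠ 1 → n ≠ 3 → 3 * Nat.card N ≤ 2 * nilMax n
  altStrict : ∀ N : Subgroup (Perm (Fin n)), Group.IsNilpotent N → N ≤ alternatingGroup (Fin n) →
    n % 4 = 0 → n ≠ 0 → ¬ IsPGroup 2 N → 2 * Nat.card N < nilMax n

section Step

variable {p k r : ℕ} [Fact p.Prime] {N : Subgroup (Perm (cyclePoints p k r))}
  (hN : ∀ g ∈ N, Commute g (cycleStd p k r))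

/-- The group of induced permutations of the cycles. -/
noncomputable def cycleImage : Subgroup (Perm (Fin k)) := (coordHom hN).range.map (MonoidHom.fst _ _)

/-- The group of induced permutations of the fixed points. -/
noncomputable def fixImage : Subgroup (Perm (Fin r)) := (coordHom hN).range.map (MonoidHom.snd _ _)

theorem cycleImage_nilpotent (hnil : Group.IsNilpotent N) : Group.IsNilpotent (cycleImage hN) := by
  haveI := hnil
  let φ : N →* cycleImage hN := ((MonoidHom.fst _ _).comp (coordHom hN)).codRestrict _ fun g =>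
    ⟨_, ⟨g, rfl⟩, rfl⟩
  exact nilpotent_of_surjective φ (by
    rintro ⟨σ, x, ⟨g, rfl⟩, rfl⟩
    exact ⟨g, rfl⟩)

theorem fixImage_nilpotent (hnil : Group.IsNilpotent N) : Group.IsNilpotent (fixImage hN) := by
  haveI := hnil
  let φ : N →* fixImage hN := ((MonoidHom.snd _ _).comp (coordHom hN)).codRestrict _ fun g =>
    ⟨_, ⟨g, rfl⟩, rfl⟩
  exact nilpotent_of_surjective φ (by
    rintro ⟨σ, x, ⟨g, rfl⟩, rfl⟩
    exact ⟨g, rfl⟩)

theorem range_le_prod : (coordHom hN).range ≤ (cycleImage hN).prod (fixImage hN) :=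
  fun x hx => ⟨⟨x, hx, rfl⟩, ⟨x, hx, rfl⟩⟩

theorem card_range_le : Nat.card (coordHom hN).range ≤ Nat.card (cycleImage hN) * Nat.card (fixImage hN) := by
  rw [← Nat.card_prod, ← Nat.card_congr (Subgroup.prodEquiv _ _).toEquiv]
  exact Nat.card_le_card_of_injective _ (Subgroup.inclusion_injective (range_le_prod hN))

theorem even_dichotomy (hodd : Odd p) (heven : N ≤ alternatingGroup (cyclePoints p k r)) :
    2 * Nat.card (coordHom hN).range ≤ Nat.card (cycleImage hN) * Nat.card (fixImage hN) ∨
      (cycleImage hN ≤ alternatingGroup (Fin k) ∧ fixImage hN ≤ alternatingGroup (Fin r)) := by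
  by_cases h : (cycleImage hN).prod (fixImage hN) ≤ (coordHom hN).range
  · right
    have key : ∀ σ ρ, σ ∈ cycleImage hN → ρ ∈ fixImage hN → Perm.sign σ * Perm.sign ρ = 1 := by
      intro σ ρ hσ hρ
      obtain ⟨g, hg⟩ := h (show (σ, ρ) ∈ (cycleImage hN).prod (fixImage hN) from ⟨hσ, hρ⟩)
      have := coordHom_sign hN hodd g
      rw [hg, Perm.mem_alternatingGroup.1 (heven g.2)] at this
      exact this.symm
    exact ⟨fun σ hσ => Perm.mem_alternatingGroup.2 (by simpa using key σ 1 hσ (one_mem _)),
      fun ρ hρ => Perm.mem_alternatingGroup.2 (by simpa using key 1 ρ (one_mem _) hρ)⟩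
  · left
    rw [← Nat.card_prod, ← Nat.card_congr (Subgroup.prodEquiv _ _).toEquiv]
    have hd := Subgroup.card_dvd_of_le (range_le_prod hN)
    have hne : Nat.card (coordHom hN).range ≠ Nat.card ((cycleImage hN).prod (fixImage hN)) := fun e =>
      h (Subgroup.eq_of_le_of_card_ge (range_le_prod hN) e.ge).ge
    obtain ⟨c, hc⟩ := hd
    have hpos : 0 < Nat.card ((cycleImage hN).prod (fixImage hN)) := Nat.card_pos
    rw [hc] at hne hpos ⊢
    rcases c with _ | _ | c
    · simp at hpos
    · simp at hne
    · rw [mul_comm 2]; exact Nat.mul_le_mul_left _ (by omega)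

theorem card_perm_two_le (A : Subgroup (Perm (Fin 2))) : Nat.card A ≤ 2 := by
  refine le_trans (Subgroup.card_le_card_group A) ?_
  rw [Nat.card_perm, Nat.card_fin]
  rfl

include hN in
/-- Non-exceptional step: strict bounds. -/
theorem step_other (hodd : p ≠ 2) (hk : 1 ≤ k) (h31 : ¬ (p = 3 ∧ k = 1))
    (hnil : Group.IsNilpotent N) (hIk : NilBounds k) (hIr : NilBounds r) :
    Nat.card N < nilMax (p * k + r) ∧
      (N ≤ alternatingGroup (cyclePoints p k r) →
        2 * Nat.card N < nilMax (p * k + r) ∨
          ((p * k + r = 5 ∨ p * k + r = 6 ∨ p * k + r = 9) ∧ 3 * Nat.card N ≤ 2 * nilMax (p * k + r))) := by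
  have hp : p.Prime := Fact.out
  have hp3 : 3 ≤ p := lt_of_le_of_ne hp.two_le (Ne.symm hodd)
  set X := p ^ k * cycleMax k * nilMax r with hX
  have hkey : 4 * X < 3 * nilMax (p * k + r) := key_bound hp hodd hk h31
  have hXpos : 0 < p ^ k := Nat.pow_pos hp.pos
  have hA := hIk.sym _ (cycleImage_nilpotent hN hnil)
  have hB := hIr.sym _ (fixImage_nilpotent hN hnil)
  have hcard := card_range_le hN
  have hN1 := card_le_pow_mul_range hN
  -- two swapped cycles
  have hswap : k = 2 → cycleImage hN ≠ ⊥ → Nat.card (coordHom hN).ker ≤ p := by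
    rintro rfl hne
    refine card_ker_le_of_swap hN hodd hnil ?_
    obtain ⟨⟨σ, x, ⟨g, rfl⟩, rfl⟩, hσ1⟩ := Subgroup.ne_bot_iff_exists_ne_one.1 hne
    exact ⟨g, fun e => hσ1 (Subtype.ext e)⟩
  have hmain : Nat.card N ≤ X := by
    by_cases hk2 : k = 2
    · have hX' : X = p ^ 2 * nilMax r := by rw [hX, hk2]; simp [cycleMax]
      by_cases hb : cycleImage hN = ⊥
      · rw [hb, Subgroup.card_bot, one_mul] at hcard
        rw [hX', show p ^ 2 = p ^ k by rw [hk2]]
        exact le_trans hN1 (Nat.mul_le_mul_left _ (le_trans hcard hB))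
      · subst hk2
        rw [hX', card_eq_ker_mul_range hN]
        calc Nat.card (coordHom hN).ker * Nat.card (coordHom hN).range
            ≤ p * (2 * nilMax r) := Nat.mul_le_mul (hswap rfl hb)
              (le_trans hcard (Nat.mul_le_mul (card_perm_two_le _) hB))
          _ ≤ p * (p * nilMax r) := by gcongr; omega
          _ = p ^ 2 * nilMax r := by ring
    · rw [hX, cycleMax, if_neg hk2, mul_assoc]
      exact le_trans hN1 (Nat.mul_le_mul_left _ (le_trans hcard (Nat.mul_le_mul hA hB)))
  refine ⟨by omega, fun heven => ?_⟩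
  have hoddp : Odd p := hp.odd_of_ne_two hodd
  rcases even_dichotomy hN hoddp heven with hlt | ⟨hAe, hBe⟩
  · left
    suffices 2 * Nat.card N ≤ X by omega
    by_cases hk2 : k = 2
    · have hX' : X = p ^ 2 * nilMax r := by rw [hX, hk2]; simp [cycleMax]
      by_cases hb : cycleImage hN = ⊥
      · rw [hb, Subgroup.card_bot, one_mul] at hlt
        rw [hX', show p ^ 2 = p ^ k by rw [hk2]]
        calc 2 * Nat.card N ≤ 2 * (p ^ k * Nat.card (coordHom hN).range) := Nat.mul_le_mul_left _ hN1
          _ = p ^ k * (2 * Nat.card (coordHom hN).range) := by ring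
          _ ≤ p ^ k * nilMax r := Nat.mul_le_mul_left _ (le_trans hlt hB)
      · subst hk2
        have h2 := card_perm_two_le (cycleImage hN)
        rw [hX', card_eq_ker_mul_range hN]
        calc 2 * (Nat.card (coordHom hN).ker * Nat.card (coordHom hN).range)
            = Nat.card (coordHom hN).ker * (2 * Nat.card (coordHom hN).range) := by ring
          _ ≤ p * (2 * nilMax r) := Nat.mul_le_mul (hswap rfl hb)
              (le_trans hlt (Nat.mul_le_mul h2 hB))
          _ ≤ p * (p * nilMax r) := by gcongr; omega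
          _ = p ^ 2 * nilMax r := by ring
    · rw [hX, cycleMax, if_neg hk2, mul_assoc]
      calc 2 * Nat.card N ≤ 2 * (p ^ k * Nat.card (coordHom hN).range) := Nat.mul_le_mul_left _ hN1
        _ = p ^ k * (2 * Nat.card (coordHom hN).range) := by ring
        _ ≤ p ^ k * (nilMax k * nilMax r) :=
            Nat.mul_le_mul_left _ (le_trans hlt (Nat.mul_le_mul hA hB))
  · have hA2 : k = 2 → Nat.card (cycleImage hN) ≤ 1 := fun h2 => by
      have h1 := Subgroup.card_dvd_of_le hAe
      subst h2
      rw [nat_card_alternatingGroup, Nat.card_fin] at h1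
      exact Nat.le_of_dvd (by decide) h1
    have hAB : Nat.card (cycleImage hN) ≤ cycleMax k := by
      rw [cycleMax]
      split_ifs with h2
      · exact hA2 h2
      · exact hA
    by_cases hr : r ≠ 0 ∧ r ≠ 1 ∧ r ≠ 3
    · left
      have h3 := hIr.altWeak _ (fixImage_nilpotent hN hnil) hBe hr.1 hr.2.1 hr.2.2
      have : 3 * Nat.card N ≤ 2 * X := by
        calc 3 * Nat.card N ≤ 3 * (p ^ k * (Nat.card (cycleImage hN) * Nat.card (fixImage hN))) :=
              Nat.mul_le_mul_left _ (le_trans hN1 (Nat.mul_le_mul_left _ hcard))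
          _ = p ^ k * (Nat.card (cycleImage hN) * (3 * Nat.card (fixImage hN))) := by ring
          _ ≤ p ^ k * (cycleMax k * (2 * nilMax r)) := by gcongr
          _ = 2 * X := by rw [hX]; ring
      omega
    · by_cases hk4 : 4 ≤ k
      · left
        have h3 := hIk.altWeak _ (cycleImage_nilpotent hN hnil) hAe (by omega) (by omega) (by omega)
        have : 3 * Nat.card N ≤ 2 * X := by
          calc 3 * Nat.card N ≤ 3 * (p ^ k * (Nat.card (cycleImage hN) * Nat.card (fixImage hN))) :=
                Nat.mul_le_mul_left _ (le_trans hN1 (Nat.mul_le_mul_left _ hcard))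
            _ = p ^ k * (3 * Nat.card (cycleImage hN) * Nat.card (fixImage hN)) := by ring
            _ ≤ p ^ k * (2 * nilMax k * nilMax r) := by gcongr
            _ = 2 * X := by rw [hX, cycleMax, if_neg (by omega)]; ring
        omega
      · by_cases hexc : r = 0 ∧ ((p = 5 ∧ k = 1) ∨ (p = 3 ∧ (k = 2 ∨ k = 3)))
        · right
          obtain ⟨rfl, h | ⟨h, h' | h'⟩⟩ := hexc
          · obtain ⟨rfl, rfl⟩ := h
            have : 3 * X ≤ 2 * nilMax (5 * 1 + 0) := by rw [hX]; decide +kernel
            exact ⟨Or.inl rfl, by omega⟩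
          · subst h h'
            have : 3 * X ≤ 2 * nilMax (3 * 2 + 0) := by rw [hX]; decide +kernel
            exact ⟨Or.inr (Or.inl rfl), by omega⟩
          · subst h h'
            have : 3 * X ≤ 2 * nilMax (3 * 3 + 0) := by rw [hX]; decide +kernel
            exact ⟨Or.inr (Or.inr rfl), by omega⟩
        · left
          have : 2 * X < nilMax (p * k + r) :=
            key_bound_small hp hodd hk (by omega) (by omega) h31 hexc
          omega

end Step

theorem three_bound (r : ℕ) :
    (r % 4 = 0 → 3 * nilMax r ≤ nilMax (3 + r)) ∧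
    (r % 4 = 1 → 4 * nilMax r < nilMax (3 + r)) ∧
    (r % 4 = 2 → 3 * nilMax r < nilMax (3 + r) ∧ 4 * nilMax r ≤ nilMax (3 + r)) ∧
    (r % 4 = 3 → 3 * nilMax r < nilMax (3 + r)) := by
  set t := r % 4
  set j := r / 4
  have hr : r = 4 * j + t := (Nat.div_add_mod r 4).symm
  have ht : t < 4 := Nat.mod_lt _ (by norm_num)
  have h1 := nilMax_add_ge j (3 + t)
  rw [hr, nilMax_shift j t ht, show 3 + (4 * j + t) = 4 * j + (3 + t) by ring]
  have hpos : 0 < 2 ^ expTwo (4 * j) := by positivity
  interval_cases t <;>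
    simp only [show nilMax (3 + 0) = 3 by decide +kernel, show nilMax (3 + 1) = 8 by decide +kernel,
      show nilMax (3 + 2) = 8 by decide +kernel, show nilMax (3 + 3) = 16 by decide +kernel,
      show nilMax 0 = 1 by decide +kernel, show nilMax 1 = 1 by decide +kernel,
      show nilMax 2 = 2 by decide +kernel, show nilMax 3 = 3 by decide +kernel] at h1 ⊢ <;> omega

section ThreeStep

variable {r : ℕ} [Fact (Nat.Prime 3)] {N : Subgroup (Perm (cyclePoints 3 1 r))}
  (hN : ∀ g ∈ N, Commute g (cycleStd 3 1 r))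

theorem three_card_le : Nat.card N ≤ 3 * Nat.card (fixImage hN) := by
  refine le_trans (card_le_pow_mul_range hN) ?_
  rw [pow_one]
  refine Nat.mul_le_mul_left _ (le_trans (card_range_le hN) ?_)
  have : Nat.card (cycleImage hN) = 1 :=
    Nat.card_of_subsingleton (1 : cycleImage hN)
  rw [this, one_mul]

theorem three_fixImage_even (heven : N ≤ alternatingGroup (cyclePoints 3 1 r)) :
    fixImage hN ≤ alternatingGroup (Fin r) := by
  rintro ρ ⟨x, ⟨g, rfl⟩, rfl⟩
  have := coordHom_sign hN (by decide) g
  rw [Perm.mem_alternatingGroup.1 (heven g.2), Subsingleton.elim (coordHom hN g).1 1, map_one,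
    one_mul] at this
  exact Perm.mem_alternatingGroup.2 this.symm

end ThreeStep

theorem two_group_bound {n : ℕ} {N : Subgroup (Perm (Fin n))} (h : IsPGroup 2 N) :
    Nat.card N ≤ nilMax n ∧ (N ≤ alternatingGroup (Fin n) → 2 ≤ n → 2 * Nat.card N ≤ nilMax n) := by
  obtain ⟨a, ha⟩ := IsPGroup.iff_card.1 h
  have hle : ∀ b, 2 ^ b ∣ n.factorial → 2 ^ b ≤ nilMax n := fun b hb => by
    refine le_trans (Nat.pow_le_pow_right (by norm_num) ?_) (two_pow_le_nilMax n)
    rw [expTwo_eq]
    exact (padicValNat_dvd_iff_le n.factorial_ne_zero).1 hb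
  refine ⟨?_, fun heven hn => ?_⟩
  · rw [ha]
    refine hle a ?_
    rw [← ha]
    have := Subgroup.card_subgroup_dvd_card N
    rwa [Nat.card_perm, Nat.card_fin] at this
  · have : Nontrivial (Fin n) := Fin.nontrivial_iff_two_le.2 hn
    have h2 : 2 * Nat.card N ∣ n.factorial := by
      have := Nat.mul_dvd_mul_left 2 (Subgroup.card_dvd_of_le heven)
      rwa [two_mul_nat_card_alternatingGroup, Nat.card_perm, Nat.card_fin] at this
    rw [ha, ← pow_succ'] at h2 ⊢
    exact hle _ h2

/-- Coordinates of a nilpotent subgroup which is not a 2-group. -/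
theorem exists_nil_coordinates {n : ℕ} (N : Subgroup (Perm (Fin n))) (hnil : Group.IsNilpotent N)
    (h2 : ¬ IsPGroup 2 N) :
    ∃ p k r : ℕ, ∃ _ : Fact p.Prime, p ≠ 2 ∧ 1 ≤ k ∧ n = p * k + r ∧
      ∃ e : Fin n ≃ cyclePoints p k r,
        Group.IsNilpotent (N.map e.permCongrHom.toMonoidHom) ∧
        (∀ g ∈ N.map e.permCongrHom.toMonoidHom, Commute g (cycleStd p k r)) ∧
        Nat.card (N.map e.permCongrHom.toMonoidHom) = Nat.card N ∧
        (N ≤ alternatingGroup (Fin n) →
          N.map e.permCongrHom.toMonoidHom ≤ alternatingGroup (cyclePoints p k r)) := by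
  obtain ⟨p, hp, hp2, z, hz, hzc⟩ := exists_central_odd_prime hnil h2
  haveI := Fact.mk hp
  obtain ⟨k, r, hk, hn, e, he⟩ := exists_coordinates (p := p) (z := (z : Perm (Fin n)))
    (by rw [Subgroup.orderOf_coe]; exact hz)
  refine ⟨p, k, r, inferInstance, hp2, hk, hn, e, ?_, ?_, ?_, ?_⟩
  · haveI := hnil
    exact nilpotent_of_mulEquiv (N.equivMapOfInjective _ e.permCongrHom.injective)
  · rintro _ ⟨g, hg, rfl⟩
    rw [← he]
    have hcomm : Commute g (z : Perm (Fin n)) :=
      congrArg Subtype.val (Subgroup.mem_center_iff.1 hzc ⟨g, hg⟩)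
    exact hcomm.map e.permCongrHom.toMonoidHom
  · exact Subgroup.card_map_of_injective e.permCongrHom.injective
  · rintro heven _ ⟨g, hg, rfl⟩
    exact Perm.mem_alternatingGroup.2 (by
      show Perm.sign (e.permCongr g) = 1
      rw [Perm.sign_permCongr]
      exact Perm.mem_alternatingGroup.1 (heven hg))

/-- The bounds hold in every degree. -/
theorem nilBounds : ∀ n, NilBounds n := by
  intro n
  induction n using Nat.strong_induction_on with
  | _ n ih =>
    have key : ∀ N : Subgroup (Perm (Fin n)), Group.IsNilpotent N →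
        Nat.card N ≤ nilMax n ∧ (n % 4 ≠ 3 → ¬ IsPGroup 2 N → Nat.card N < nilMax n) ∧
        (N ≤ alternatingGroup (Fin n) → n ≠ 0 → n ≠ 1 → n ≠ 3 →
          ((n ≠ 5 → n ≠ 6 → n ≠ 9 → 2 * Nat.card N ≤ nilMax n) ∧
          (n % 4 = 0 → ¬ IsPGroup 2 N → 2 * Nat.card N < nilMax n) ∧
          3 * Nat.card N ≤ 2 * nilMax n)) := by
      intro N hnil
      by_cases h2 : IsPGroup 2 N
      · obtain ⟨h1, h1'⟩ := two_group_bound h2
        refine ⟨h1, fun _ h => absurd h2 h, fun he h0 h1n _ => ?_⟩
        have := h1' he (by omega)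
        exact ⟨fun _ _ _ => this, fun _ h => absurd h2 h, by omega⟩
      obtain ⟨p, k, r, hpf, hp2, hk, hn, e, hnil', hcomm, hcard, hev⟩ := exists_nil_coordinates N hnil h2
      have hp : p.Prime := hpf.out
      have hp3 : 3 ≤ p := lt_of_le_of_ne hp.two_le (Ne.symm hp2)
      have hpk : 3 * k ≤ p * k := Nat.mul_le_mul_right k hp3
      have hIk := ih k (by omega)
      have hIr := ih r (by omega)
      by_cases h31 : p = 3 ∧ k = 1
      · obtain ⟨rfl, rfl⟩ := h31
        have hn' : n = 3 + r := by omega
        have hc := three_card_le hcomm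
        rw [hcard] at hc
        have hB := hIr.sym _ (fixImage_nilpotent hcomm hnil')
        obtain ⟨t0, t1, t2, t3⟩ := three_bound r
        rw [← hn'] at t0 t1 t2 t3
        have hfpos := nilMax_pos r
        refine ⟨?_, fun hmod _ => ?_, fun he h0 h1 h3 => ?_⟩
        · rcases (by omega : r % 4 = 0 ∨ r % 4 = 1 ∨ r % 4 = 2 ∨ r % 4 = 3) with h | h | h | h
          · have := t0 h; omega
          · have := t1 h; omega
          · have := (t2 h).1; omega
          · have := t3 h; omega
        · rcases (by omega : r % 4 = 1 ∨ r % 4 = 2 ∨ r % 4 = 3) with h | h | h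
          · have := t1 h; omega
          · have := (t2 h).1; omega
          · have := t3 h; omega
        · have hBe := three_fixImage_even hcomm (hev he)
          have hnilB := fixImage_nilpotent hcomm hnil'
          rcases (by omega : r % 4 = 0 ∨ r % 4 = 1 ∨ r % 4 = 2 ∨ r % 4 = 3) with h | h | h | h
          · have := hIr.alt _ hnilB hBe (by omega) (by omega) (by omega) (by omega) (by omega) (by omega)
            have := t0 h
            exact ⟨fun _ _ _ => by omega, fun _ _ => by omega, by omega⟩
          · by_cases hr1 : r = 1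
            · subst hr1
              subst hn'
              have h1B : Nat.card (fixImage hcomm) = 1 := Nat.card_of_subsingleton (1 : fixImage hcomm)
              have h8 : nilMax (3 + 1) = 8 := by decide +kernel
              rw [h8]
              exact ⟨fun _ _ _ => by omega, fun _ _ => by omega, by omega⟩
            · have := hIr.altWeak _ hnilB hBe (by omega) hr1 (by omega)
              have := t1 h
              exact ⟨fun _ _ _ => by omega, fun _ _ => by omega, by omega⟩
          · have := hIr.altWeak _ hnilB hBe (by omega) (by omega) (by omega)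
            have := t2 h
            exact ⟨fun _ _ _ => by omega, fun _ _ => by omega, by omega⟩
          · by_cases hr3 : r = 3
            · subst hr3
              subst hn'
              have h16 : nilMax (3 + 3) = 16 := by decide +kernel
              have h3' : nilMax 3 = 3 := by decide +kernel
              rw [h16]
              exact ⟨fun _ h6 _ => absurd rfl h6, fun h4 => by omega, by omega⟩
            · have := hIr.alt _ hnilB hBe (by omega) (by omega) hr3 (by omega) (by omega) (by omega)
              have := t3 h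
              exact ⟨fun _ _ _ => by omega, fun _ _ => by omega, by omega⟩
      · obtain ⟨hs, ha⟩ := step_other hcomm hp2 hk h31 hnil' hIk hIr
        rw [hcard, ← hn] at hs ha
        refine ⟨hs.le, fun _ _ => hs, fun he _ _ _ => ?_⟩
        rcases ha (hev he) with h | ⟨hex, h⟩
        · exact ⟨fun _ _ _ => h.le, fun _ _ => h, by omega⟩
        · exact ⟨fun _ _ _ => by omega, fun _ _ => by omega, h⟩
    exact ⟨fun N h => (key N h).1, fun N h => (key N h).2.1,
      fun N h he a b c => ((key N h).2.2 he a b c).1,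
      fun N h he a b c => ((key N h).2.2 he a b c).2.2,
      fun N h he hm a h2 => ((key N h).2.2 he a (by omega) (by omega)).2.1 hm h2⟩

end Cfsg.Agent.H62
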