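import Cfsg.Agent.H62.NilBound

/-!
The largest nilpotent subgroups in degree `3 mod 4`: a three-cycle times a Sylow 2-subgroup on the
remaining points, unique up to conjugacy.
-/

set_option autoImplicit false

namespace Cfsg.Agent.H62

open Equiv Pointwise

variable {r n : ℕ}

/-- A rotation of the three distinguished points times a permutation of the others. -/
def threeEmb (r : ℕ) : Multiplicative (ZMod 3) × Perm (Fin r) →* Perm (cyclePoints 3 1 r) where
  toFun x := cycleBlock 1 (fun _ => x.1.toAdd) x.2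
  map_one' := cycleBlock_one
  map_mul' x y := by
    rw [cycleBlock_mul]
    simp [add_comm]

theorem threeEmb_injective : Function.Injective (threeEmb r) := by
  intro x y h
  obtain ⟨-, h2, h3⟩ := cycleBlock_inj h
  exact Prod.ext (Multiplicative.toAdd.injective (congrFun h2 0)) h3

/-- The model subgroup `C₃ × B`. -/
def threeModel (B : Subgroup (Perm (Fin r))) : Subgroup (Perm (cyclePoints 3 1 r)) :=
  ((⊤ : Subgroup (Multiplicative (ZMod 3))).prod B).map (threeEmb r)

/-- The model is the direct product. -/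
noncomputable def threeModelEquiv (B : Subgroup (Perm (Fin r))) :
    threeModel B ≃* B × Multiplicative (ZMod 3) :=
  (Subgroup.equivMapOfInjective _ _ threeEmb_injective).symm.trans
    ((Subgroup.prodEquiv _ _).trans
      ((MulEquiv.prodCongr Subgroup.topEquiv (MulEquiv.refl _)).trans MulEquiv.prodComm))

theorem card_threeModel (B : Subgroup (Perm (Fin r))) : Nat.card (threeModel B) = 3 * Nat.card B := by
  rw [Nat.card_congr (threeModelEquiv B).toEquiv, Nat.card_prod,
    Nat.card_congr Multiplicative.toAdd, Nat.card_zmod, mul_comm]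

theorem threeModel_nilpotent (B : Subgroup (Perm (Fin r))) (hB : IsPGroup 2 B) :
    Group.IsNilpotent (threeModel B) := by
  haveI : Group.IsNilpotent B := hB.isNilpotent
  exact nilpotent_of_mulEquiv (threeModelEquiv B).symm

theorem threeModel_le_alt (B : Subgroup (Perm (Fin r))) (hB : B ≤ alternatingGroup (Fin r)) :
    threeModel B ≤ alternatingGroup (cyclePoints 3 1 r) := by
  rintro _ ⟨⟨a, ρ⟩, ⟨-, hρ⟩, rfl⟩
  exact Perm.mem_alternatingGroup.2 (by
    show Perm.sign (cycleBlock _ _ ρ) = 1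
    rw [sign_cycleBlock (by decide), map_one, one_mul]
    exact Perm.mem_alternatingGroup.1 (hB hρ))

/-- Every group commuting with the three-cycle lies in the model over its image. -/
theorem le_threeModel [Fact (Nat.Prime 3)] {N : Subgroup (Perm (cyclePoints 3 1 r))}
    (hN : ∀ g ∈ N, Commute g (cycleStd 3 1 r)) : N ≤ threeModel (fixImage hN) := by
  intro g hg
  obtain ⟨t, ht⟩ := coordHom_spec hN ⟨g, hg⟩
  refine ⟨(Multiplicative.ofAdd (t 0), (coordHom hN ⟨g, hg⟩).2), ⟨trivial, ⟨_, ⟨_, rfl⟩, rfl⟩⟩, ?_⟩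
  show cycleBlock _ _ _ = g
  refine Eq.trans ?_ ht.symm
  rw [Subsingleton.elim (coordHom hN ⟨g, hg⟩).1 1]
  congr 1
  funext c
  rw [Subsingleton.elim c 0]
  rfl

theorem two_mul_card_sylow_alt (hn : 2 ≤ n) (P : Sylow 2 (alternatingGroup (Fin n))) :
    2 * Nat.card P = 2 ^ padicValNat 2 n.factorial := by
  have : Nontrivial (Fin n) := Fin.nontrivial_iff_two_le.2 hn
  have hA := Nat.factorization_mul (by norm_num : (2 : ℕ) ≠ 0)
    (Nat.card_pos (α := alternatingGroup (Fin n))).ne'
  rw [two_mul_nat_card_alternatingGroup, Nat.card_perm, Nat.card_fin] at hA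
  have hA2 := congrArg (fun f => f 2) hA
  simp only [Finsupp.add_apply, Nat.Prime.factorization_self Nat.prime_two,
    Nat.factorization_def _ Nat.prime_two] at hA2
  rw [P.card_eq_multiplicity, Nat.factorization_def _ Nat.prime_two, hA2, pow_add, pow_one]

theorem card_sylow_perm (P : Sylow 2 (Perm (Fin n))) :
    Nat.card P = 2 ^ padicValNat 2 n.factorial := by
  rw [P.card_eq_multiplicity, Nat.card_perm, Nat.card_fin, Nat.factorization_def _ Nat.prime_two]

theorem nilMax_mod_three (hn : n % 4 = 3) : nilMax n = 3 * nilMax (n - 3) := by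
  rw [nilMax_of_mod_eq hn, nilMax_of_mod_ne (by omega)]

/-- Structure in the extremal case. -/
theorem exists_model_of_extremal (hn : n % 4 = 3) (N : Subgroup (Perm (Fin n)))
    (hnil : Group.IsNilpotent N)
    (hmax : Nat.card N = nilMax n ∨
      (N ≤ alternatingGroup (Fin n) ∧ 7 ≤ n ∧ 2 * Nat.card N = nilMax n)) :
    ∃ (B : Subgroup (Perm (Fin (n - 3)))) (e : Fin n ≃ cyclePoints 3 1 (n - 3)),
      N.map e.permCongrHom.toMonoidHom = threeModel B ∧
      ((Nat.card N = nilMax n ∧ Nat.card B = nilMax (n - 3)) ∨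
        (B ≤ alternatingGroup (Fin (n - 3)) ∧ 2 * Nat.card B = nilMax (n - 3))) := by
  have h2 : ¬ IsPGroup 2 N := by
    intro h
    obtain ⟨a, ha⟩ := IsPGroup.iff_card.1 h
    have h3 : 3 ∣ 2 * 2 ^ a := by
      rcases hmax with h' | ⟨_, _, h'⟩
      · rw [← ha, h', nilMax_mod_three hn]
        exact Dvd.dvd.mul_left (dvd_mul_right 3 _) 2
      · rw [← ha, h', nilMax_mod_three hn]
        exact dvd_mul_right 3 _
    rw [← pow_succ'] at h3
    exact absurd ((Nat.prime_dvd_prime_iff_eq Nat.prime_three Nat.prime_two).1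
      (Nat.prime_three.dvd_of_dvd_pow h3)) (by norm_num)
  obtain ⟨p, k, r, hpf, hp2, hk, hnr, e, hnil', hcomm, hcard, hev⟩ := exists_nil_coordinates N hnil h2
  have h31 : p = 3 ∧ k = 1 := by
    by_contra h31
    obtain ⟨hs, ha⟩ := step_other hcomm hp2 hk h31 hnil' (nilBounds k) (nilBounds r)
    rw [hcard, ← hnr] at hs ha
    rcases hmax with h | ⟨he, h7, h⟩
    · omega
    · rcases ha (hev he) with h' | ⟨hex, -⟩ <;> omega
  obtain ⟨rfl, rfl⟩ := h31
  obtain rfl : r = n - 3 := by omega
  have hc := three_card_le hcomm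
  rw [hcard] at hc
  have hB := (nilBounds (n - 3)).sym _ (fixImage_nilpotent hcomm hnil')
  have hf := nilMax_mod_three hn
  refine ⟨fixImage hcomm, e, ?_, ?_⟩
  · refine Subgroup.eq_of_le_of_card_ge (le_threeModel hcomm) ?_
    rw [card_threeModel, hcard]
    rcases hmax with h | ⟨he, h7, h⟩
    · omega
    · have := (nilBounds (n - 3)).alt _ (fixImage_nilpotent hcomm hnil')
        (three_fixImage_even hcomm (hev he)) (by omega) (by omega) (by omega) (by omega) (by omega)
        (by omega)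
      omega
  · rcases hmax with h | ⟨he, h7, h⟩
    · exact Or.inl ⟨h, by omega⟩
    · have := (nilBounds (n - 3)).alt _ (fixImage_nilpotent hcomm hnil')
        (three_fixImage_even hcomm (hev he)) (by omega) (by omega) (by omega) (by omega) (by omega)
        (by omega)
      exact Or.inr ⟨three_fixImage_even hcomm (hev he), by omega⟩

theorem permCongrHom_trans_apply {α β γ : Type*} (e : α ≃ β) (f : β ≃ γ) (x : Perm α) :
    (e.trans f).permCongrHom x = f.permCongrHom (e.permCongrHom x) := rfl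

theorem permCongrHom_perm {α : Type*} (w x : Perm α) : (w : α ≃ α).permCongrHom x = w * x * w⁻¹ := rfl

/-- Groups with conjugate models are conjugate. -/
theorem conj_of_models {B₁ B₂ : Subgroup (Perm (Fin r))} (N₁ N₂ : Subgroup (Perm (Fin n)))
    (e₁ e₂ : Fin n ≃ cyclePoints 3 1 r) (h₁ : N₁.map e₁.permCongrHom.toMonoidHom = threeModel B₁)
    (h₂ : N₂.map e₂.permCongrHom.toMonoidHom = threeModel B₂) (d : Perm (Fin r))
    (hd : B₁.map (MulAut.conj d).toMonoidHom = B₂) :
    ∃ g : Perm (Fin n), Perm.sign g = 1 ∧ N₂ = N₁.map (MulAut.conj g).toMonoidHom := by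
  let neg : Perm (cyclePoints 3 1 r) :=
    Equiv.sumCongr (Equiv.prodCongr (Equiv.refl (Fin 1)) (Equiv.neg (ZMod 3))) (Equiv.refl (Fin r))
  have hneg : Perm.sign neg = -1 := by
    rw [show neg = Equiv.sumCongr (Equiv.prodCongr (Equiv.refl (Fin 1)) (Equiv.neg (ZMod 3)))
      (Equiv.refl (Fin r)) from rfl, Perm.sign_sumCongr, show Perm.sign (Equiv.refl (Fin r)) = 1 from map_one _,
      mul_one]
    decide
  have hnegconj : ∀ x, neg * threeEmb r x * neg⁻¹ = threeEmb r (x.1⁻¹, x.2) := by
    intro x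
    rw [mul_inv_eq_iff_eq_mul]
    refine Equiv.ext fun y => ?_
    rcases y with ⟨c, i⟩ | j
    · show neg (.inl (c, i + x.1.toAdd)) = cycleBlock _ _ x.2 (.inl (c, -i))
      rw [cycleBlock_inl]
      show Sum.inl (c, -(i + x.1.toAdd)) = _
      simp
      ring
    · rfl
  set dd : Perm (cyclePoints 3 1 r) := cycleBlock 1 0 d with hdd
  have hdconj : ∀ x, dd * threeEmb r x * dd⁻¹ = threeEmb r (x.1, d * x.2 * d⁻¹) := by
    intro x
    rw [mul_inv_eq_iff_eq_mul]
    show cycleBlock 1 0 d * cycleBlock _ _ _ = cycleBlock _ _ _ * cycleBlock 1 0 d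
    rw [cycleBlock_mul, cycleBlock_mul]
    simp [mul_assoc]
  have key : ∀ w : Perm (cyclePoints 3 1 r),
      (∀ x ∈ threeModel B₁, w * x * w⁻¹ ∈ threeModel B₂) →
      N₂ = N₁.map (MulAut.conj ((e₁.trans w).trans e₂.symm : Perm (Fin n))).toMonoidHom := by
    intro w hw
    set g : Perm (Fin n) := (e₁.trans w).trans e₂.symm with hg
    have hgx : ∀ x, e₂.permCongrHom (g * x * g⁻¹) = w * e₁.permCongrHom x * w⁻¹ := by
      intro x
      rw [← permCongrHom_perm g x, ← permCongrHom_perm w, ← permCongrHom_trans_apply,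
        ← permCongrHom_trans_apply]
      congr 2
      rw [hg, Equiv.trans_assoc, Equiv.trans_assoc, Equiv.symm_trans_self, Equiv.trans_refl]
    refine (Subgroup.eq_of_le_of_card_ge ?_ ?_).symm
    · rintro _ ⟨x, hx, rfl⟩
      have h3 : e₂.permCongrHom (g * x * g⁻¹) ∈ N₂.map e₂.permCongrHom.toMonoidHom := by
        rw [hgx, h₂]
        exact hw _ (h₁ ▸ Subgroup.mem_map_of_mem e₁.permCongrHom.toMonoidHom hx)
      exact (Subgroup.mem_map_iff_mem e₂.permCongrHom.injective).1 h3
    · have hB : Nat.card B₂ = Nat.card B₁ := by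
        rw [← hd, Subgroup.card_map_of_injective (MulAut.conj d).injective]
      rw [Subgroup.card_map_of_injective (MulAut.conj g).injective,
        ← Subgroup.card_map_of_injective (K := N₁) (f := e₁.permCongrHom.toMonoidHom)
          (show Function.Injective e₁.permCongrHom.toMonoidHom from e₁.permCongrHom.injective), h₁,
        ← Subgroup.card_map_of_injective (K := N₂) (f := e₂.permCongrHom.toMonoidHom)
          (show Function.Injective e₂.permCongrHom.toMonoidHom from e₂.permCongrHom.injective), h₂, card_threeModel, card_threeModel, hB]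
  have hdmem : ∀ x ∈ threeModel B₁, dd * x * dd⁻¹ ∈ threeModel B₂ := by
    rintro _ ⟨⟨a, ρ⟩, ⟨-, hρ⟩, rfl⟩
    exact ⟨(a, d * ρ * d⁻¹), ⟨trivial, by rw [← hd]; exact ⟨ρ, hρ, rfl⟩⟩, (hdconj (a, ρ)).symm⟩
  have hnmem : ∀ x ∈ threeModel B₁, (dd * neg) * x * (dd * neg)⁻¹ ∈ threeModel B₂ := by
    rintro _ ⟨⟨a, ρ⟩, ⟨-, hρ⟩, rfl⟩
    rw [show dd * neg * threeEmb r (a, ρ) * (dd * neg)⁻¹ =
      dd * (neg * threeEmb r (a, ρ) * neg⁻¹) * dd⁻¹ by group, hnegconj]
    exact hdmem _ ⟨(a⁻¹, ρ), ⟨trivial, hρ⟩, rfl⟩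
  set g0 : Perm (Fin n) := (e₁.trans dd).trans e₂.symm with hg0
  rcases Int.units_eq_one_or (Perm.sign g0) with h | h
  · exact ⟨g0, h, key dd hdmem⟩
  · refine ⟨_, ?_, key (dd * neg) hnmem⟩
    have he : ((e₁.trans (dd * neg : Perm (cyclePoints 3 1 r))).trans e₂.symm : Perm (Fin n)) =
        g0 * e₁.symm.permCongrHom neg := by
      ext x
      simp [hg0, Perm.mul_apply, Equiv.permCongrHom, Equiv.permCongr_apply]
    rw [he, map_mul, h]
    show -1 * Perm.sign (e₁.symm.permCongr neg) = 1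
    rw [Perm.sign_permCongr, hneg]
    decide

/-- Sylow 2-subgroups given by their order are conjugate. -/
theorem exists_conj_of_card {G : Type*} [Group G] [Finite G] (B₁ B₂ : Subgroup G)
    (h₁ : Nat.card B₁ = 2 ^ (Nat.card G).factorization 2)
    (h₂ : Nat.card B₂ = 2 ^ (Nat.card G).factorization 2) :
    ∃ d : G, B₁.map (MulAut.conj d).toMonoidHom = B₂ := by
  obtain ⟨d, hd⟩ := MulAction.exists_smul_eq G (Sylow.ofCard B₁ h₁) (Sylow.ofCard B₂ h₂)
  refine ⟨d, ?_⟩
  have := congrArg (fun Q : Sylow 2 G => (Q : Subgroup G)) hd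
  simp only [Sylow.coe_subgroup_smul, Sylow.coe_ofCard] at this
  exact this

/-- The extremal nilpotent subgroups of `S_n`, `n ≡ 3 (mod 4)`. -/
theorem perm_extremal (hn : n % 4 = 3) (P : Sylow 2 (Perm (Fin (n - 3)))) :
    (∃ M : Subgroup (Perm (Fin n)), Group.IsNilpotent M ∧ Nat.card M = 3 * Nat.card P ∧
      Nonempty (M ≃* (↥(P : Subgroup (Perm (Fin (n - 3)))) × Multiplicative (ZMod 3)))) ∧
    (∀ N₁ N₂ : Subgroup (Perm (Fin n)), Group.IsNilpotent N₁ → Group.IsNilpotent N₂ →
      Nat.card N₁ = 3 * Nat.card P → Nat.card N₂ = 3 * Nat.card P →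
      ∃ g : Perm (Fin n), N₂ = N₁.map (MulAut.conj g).toMonoidHom) := by
  have hP : Nat.card P = nilMax (n - 3) := by rw [card_sylow_perm, nilMax_of_mod_ne (by omega)]
  have hmax : nilMax n = 3 * Nat.card P := by rw [hP, nilMax_mod_three hn]
  refine ⟨?_, ?_⟩
  · let e : Fin n ≃ cyclePoints 3 1 (n - 3) := Fintype.equivOfCardEq (by
      simp [Fintype.card_sum, Fintype.card_prod]; omega)
    let M := (threeModel (P : Subgroup (Perm (Fin (n - 3))))).map e.permCongrHom.symm.toMonoidHom
    have iso : M ≃* threeModel (P : Subgroup (Perm (Fin (n - 3)))) :=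
      (Subgroup.equivMapOfInjective _ _ e.permCongrHom.symm.injective).symm
    haveI := threeModel_nilpotent _ P.isPGroup'
    exact ⟨M, nilpotent_of_mulEquiv iso.symm,
      by rw [Nat.card_congr iso.toEquiv, card_threeModel], ⟨iso.trans (threeModelEquiv _)⟩⟩
  · intro N₁ N₂ h₁ h₂ c₁ c₂
    obtain ⟨B₁, e₁, hm₁, hB₁⟩ := exists_model_of_extremal hn N₁ h₁ (Or.inl (c₁.trans hmax.symm))
    obtain ⟨B₂, e₂, hm₂, hB₂⟩ := exists_model_of_extremal hn N₂ h₂ (Or.inl (c₂.trans hmax.symm))
    have hc : ∀ (N : Subgroup (Perm (Fin n))) (B : Subgroup (Perm (Fin (n - 3))))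
        (e : Fin n ≃ cyclePoints 3 1 (n - 3)), Nat.card N = 3 * Nat.card P →
        N.map e.permCongrHom.toMonoidHom = threeModel B →
        Nat.card B = 2 ^ (Nat.card (Perm (Fin (n - 3)))).factorization 2 := by
      intro N B e hc hm
      have h := card_threeModel B
      rw [← hm, Subgroup.card_map_of_injective (K := N)
        (show Function.Injective e.permCongrHom.toMonoidHom from e.permCongrHom.injective), hc] at h
      rw [← P.card_eq_multiplicity]
      exact (Nat.eq_of_mul_eq_mul_left (by norm_num) h).symm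
    obtain ⟨d, hd⟩ := exists_conj_of_card B₁ B₂ (hc N₁ B₁ e₁ c₁ hm₁) (hc N₂ B₂ e₂ c₂ hm₂)
    obtain ⟨g, -, hg⟩ := conj_of_models N₁ N₂ e₁ e₂ hm₁ hm₂ d hd
    exact ⟨g, hg⟩

/-- The extremal nilpotent subgroups of `A_n`, `n ≡ 3 (mod 4)`, `n ≥ 7`. -/
theorem alt_extremal (hn : n % 4 = 3) (h7 : 7 ≤ n) (P : Sylow 2 (alternatingGroup (Fin (n - 3)))) :
    (∀ N : Subgroup (alternatingGroup (Fin n)), Group.IsNilpotent N → Nat.card N ≤ 3 * Nat.card P) ∧
    (∃ M : Subgroup (alternatingGroup (Fin n)), Group.IsNilpotent M ∧ Nat.card M = 3 * Nat.card P ∧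
      Nonempty (M ≃* (↥(P : Subgroup (alternatingGroup (Fin (n - 3)))) × Multiplicative (ZMod 3)))) ∧
    (∀ N₁ N₂ : Subgroup (alternatingGroup (Fin n)), Group.IsNilpotent N₁ → Group.IsNilpotent N₂ →
      Nat.card N₁ = 3 * Nat.card P → Nat.card N₂ = 3 * Nat.card P →
      ∃ g : alternatingGroup (Fin n), N₂ = N₁.map (MulAut.conj g).toMonoidHom) := by
  have hP : 2 * Nat.card P = nilMax (n - 3) := by
    rw [two_mul_card_sylow_alt (by omega), nilMax_of_mod_ne (by omega)]
  have hf := nilMax_mod_three hn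
  have hinj : Function.Injective (alternatingGroup (Fin n)).subtype := (alternatingGroup (Fin n)).subtype_injective
  have hnilmap : ∀ N : Subgroup (alternatingGroup (Fin n)), Group.IsNilpotent N → Group.IsNilpotent (N.map (alternatingGroup (Fin n)).subtype) :=
    fun N h => by
      haveI := h
      exact nilpotent_of_mulEquiv (N.equivMapOfInjective _ hinj)
  have hext : ∀ N : Subgroup (alternatingGroup (Fin n)), Nat.card N = 3 * Nat.card P → 2 * Nat.card (N.map (alternatingGroup (Fin n)).subtype) = nilMax n := by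
    intro N h
    rw [Subgroup.card_map_of_injective hinj, h]
    omega
  refine ⟨?_, ?_, ?_⟩
  · intro N hN
    have h := (nilBounds n).alt _ (hnilmap N hN) (Subgroup.map_subtype_le N) (by omega) (by omega)
      (by omega) (by omega) (by omega) (by omega)
    rw [Subgroup.card_map_of_injective hinj] at h
    omega
  · let B : Subgroup (Perm (Fin (n - 3))) := (P : Subgroup (alternatingGroup (Fin (n - 3)))).map (alternatingGroup (Fin (n - 3))).subtype
    have hB2 : IsPGroup 2 B := P.isPGroup'.map (alternatingGroup (Fin (n - 3))).subtype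
    have hBA : B ≤ (alternatingGroup (Fin (n - 3))) := Subgroup.map_subtype_le _
    let e : Fin n ≃ cyclePoints 3 1 (n - 3) := Fintype.equivOfCardEq (by
      simp [Fintype.card_sum, Fintype.card_prod]; omega)
    let M0 := (threeModel B).map e.permCongrHom.symm.toMonoidHom
    have iso : M0 ≃* threeModel B :=
      (Subgroup.equivMapOfInjective _ _ e.permCongrHom.symm.injective).symm
    have hM0 : M0 ≤ (alternatingGroup (Fin n)) := by
      rintro _ ⟨x, hx, rfl⟩
      have h := Perm.mem_alternatingGroup.1 (threeModel_le_alt B hBA hx)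
      exact Perm.mem_alternatingGroup.2 (by
        show Perm.sign (e.symm.permCongr x) = 1
        rw [Perm.sign_permCongr]; exact h)
    let iso2 : M0.subgroupOf (alternatingGroup (Fin n)) ≃* threeModel B := (Subgroup.subgroupOfEquivOfLe hM0).trans iso
    let isoB : B ≃* (P : Subgroup (alternatingGroup (Fin (n - 3)))) := (Subgroup.equivMapOfInjective _ _ (alternatingGroup (Fin (n - 3))).subtype_injective).symm
    haveI := threeModel_nilpotent B hB2
    exact ⟨M0.subgroupOf (alternatingGroup (Fin n)), nilpotent_of_mulEquiv iso2.symm,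
      by rw [Nat.card_congr iso2.toEquiv, card_threeModel, Nat.card_congr isoB.toEquiv],
      ⟨(iso2.trans (threeModelEquiv B)).trans (MulEquiv.prodCongr isoB (MulEquiv.refl _))⟩⟩
  · intro N₁ N₂ h₁ h₂ c₁ c₂
    obtain ⟨B₁, e₁, hm₁, hB₁⟩ := exists_model_of_extremal hn _ (hnilmap N₁ h₁)
      (Or.inr ⟨Subgroup.map_subtype_le N₁, h7, hext N₁ c₁⟩)
    obtain ⟨B₂, e₂, hm₂, hB₂⟩ := exists_model_of_extremal hn _ (hnilmap N₂ h₂)
      (Or.inr ⟨Subgroup.map_subtype_le N₂, h7, hext N₂ c₂⟩)
    have hfpos := nilMax_pos n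
    have key : ∀ (N : Subgroup (alternatingGroup (Fin n))) (B : Subgroup (Perm (Fin (n - 3)))), Nat.card N = 3 * Nat.card P →
        ((Nat.card (N.map (alternatingGroup (Fin n)).subtype) = nilMax n ∧ Nat.card B = nilMax (n - 3)) ∨
          (B ≤ (alternatingGroup (Fin (n - 3))) ∧ 2 * Nat.card B = nilMax (n - 3))) →
        B ≤ (alternatingGroup (Fin (n - 3))) ∧ Nat.card (B.subgroupOf (alternatingGroup (Fin (n - 3)))) = 2 ^ (Nat.card (alternatingGroup (Fin (n - 3)))).factorization 2 := by
      intro N B hc hB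
      rcases hB with ⟨h, -⟩ | ⟨hle, h⟩
      · have := hext N hc
        omega
      · refine ⟨hle, ?_⟩
        rw [Nat.card_congr (Subgroup.subgroupOfEquivOfLe hle).toEquiv, ← P.card_eq_multiplicity]
        omega
    obtain ⟨hle₁, hk₁⟩ := key N₁ B₁ c₁ hB₁
    obtain ⟨hle₂, hk₂⟩ := key N₂ B₂ c₂ hB₂
    obtain ⟨d, hd⟩ := exists_conj_of_card (B₁.subgroupOf (alternatingGroup (Fin (n - 3)))) (B₂.subgroupOf (alternatingGroup (Fin (n - 3)))) hk₁ hk₂
    have hd' : B₁.map (MulAut.conj (d : Perm (Fin (n - 3)))).toMonoidHom = B₂ := by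
      have := congrArg (Subgroup.map (alternatingGroup (Fin (n - 3))).subtype) hd
      rw [Subgroup.subgroupOf_map_subtype, inf_of_le_left hle₂, Subgroup.map_map] at this
      rw [← this]
      conv_lhs => rw [← inf_of_le_left hle₁, ← Subgroup.subgroupOf_map_subtype, Subgroup.map_map]
      rfl
    obtain ⟨g, hg, hgN⟩ := conj_of_models _ _ e₁ e₂ hm₁ hm₂ (d : Perm (Fin (n - 3))) hd'
    refine ⟨⟨g, Perm.mem_alternatingGroup.2 hg⟩, ?_⟩
    apply Subgroup.map_injective hinj
    rw [hgN, Subgroup.map_map, Subgroup.map_map]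
    rfl

end Cfsg.Agent.H62
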