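import Cfsg.Agent.H62.BoundedPresentation

/-!
Two-generator presentations of `A_n` and `S_n` for `n < 5`.
-/

set_option autoImplicit false

namespace Cfsg.Agent.H62

open Equiv

/-- The conclusion "two generators and at most eight relations". -/
def HasTwoGenPres (T : Type*) [Group T] : Prop :=
  ∃ rels : Finset (FreeGroup (Fin 2)), rels.card ≤ 8 ∧
    Nonempty (PresentedGroup (↑rels : Set (FreeGroup (Fin 2))) ≃* T)

theorem pres_range_two {R : Set (FreeGroup (Fin 2))} {S : Subgroup (PresentedGroup R)}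
    (h0 : PresentedGroup.of 0 ∈ S) (h1 : PresentedGroup.of 1 ∈ S) : S = ⊤ := by
  rw [eq_top_iff, ← PresentedGroup.closure_range_of R, Subgroup.closure_le]
  rintro _ ⟨j, rfl⟩
  fin_cases j
  · exact h0
  · exact h1

theorem hasTwoGenPres_subsingleton {T : Type*} [Group T] [Subsingleton T] : HasTwoGenPres T := by
  classical
  let R : Finset (FreeGroup (Fin 2)) := {FreeGroup.of 0, FreeGroup.of 1}
  refine ⟨R, Finset.card_le_two.trans (by norm_num), ?_⟩
  have hbot : (⊥ : Subgroup (PresentedGroup (↑R : Set (FreeGroup (Fin 2))))) = ⊤ :=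
    pres_range_two (Subgroup.mem_bot.2 (pres_rel_eq_one (by simp [R])))
      (Subgroup.mem_bot.2 (pres_rel_eq_one (by simp [R])))
  have : Subsingleton (PresentedGroup (↑R : Set (FreeGroup (Fin 2)))) :=
    ⟨fun a b => (Subgroup.mem_bot.1 (hbot ▸ Subgroup.mem_top a)).trans
      (Subgroup.mem_bot.1 (hbot ▸ Subgroup.mem_top b)).symm⟩
  exact ⟨⟨⟨fun _ => 1, fun _ => 1, fun _ => Subsingleton.elim _ _, fun _ => Subsingleton.elim _ _⟩,
    fun _ _ => Subsingleton.elim _ _⟩⟩

theorem top_of_alt_le_and_odd {n : ℕ} {S : Subgroup (Perm (Fin n))}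
    (hA : alternatingGroup (Fin n) ≤ S) {y : Perm (Fin n)} (hy : y ∈ S)
    (hodd : Perm.sign y = -1) : S = ⊤ := by
  rw [eq_top_iff]
  intro g _
  rcases Int.units_eq_one_or (Perm.sign g) with h | h
  · exact hA (Perm.mem_alternatingGroup.2 h)
  · have : g * y ∈ S := hA (Perm.mem_alternatingGroup.2 (by rw [map_mul, h, hodd]; decide))
    simpa using mul_mem this (inv_mem hy)

theorem two_card_alt (k : ℕ) :
    2 * Nat.card (alternatingGroup (Fin (k + 2))) = (k + 2).factorial := by
  rw [two_mul_nat_card_alternatingGroup, Nat.card_perm, Nat.card_fin]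

instance : Subsingleton (alternatingGroup (Fin 2)) := by
  have h := two_card_alt 0
  exact (Nat.card_eq_one_iff_unique.1 (by simp [Nat.factorial] at h ⊢; omega)).1

theorem hasTwoGenPres_perm_two : HasTwoGenPres (Perm (Fin 2)) := by
  classical
  let R : Finset (FreeGroup (Fin 2)) := {FreeGroup.of 0 ^ 2, FreeGroup.of 1}
  refine ⟨R, Finset.card_le_two.trans (by norm_num), ?_⟩
  let P := PresentedGroup (↑R : Set (FreeGroup (Fin 2)))
  let x : P := PresentedGroup.of 0
  have hx : x ^ 2 = 1 :=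
    (map_pow (PresentedGroup.mk _) _ 2).symm.trans (pres_rel_eq_one (by simp [R]))
  have hy : (PresentedGroup.of 1 : P) = 1 := pres_rel_eq_one (by simp [R])
  obtain ⟨hf, hc⟩ := two_step_bound (⊥ : Subgroup P) x (Subgroup.mem_bot.2 hx)
    (fun h hh => by rw [Subgroup.mem_bot.1 hh]; simp)
    (by
      rw [bot_sup_eq]
      exact pres_range_two (Subgroup.mem_zpowers x) (hy ▸ one_mem _))
  rw [Subgroup.card_bot] at hc
  obtain ⟨e, -⟩ := pres_of_bound ![swap (0 : Fin 2) 1, 1]
    (top_of_alt_le_and_odd (fun g hg => by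
        have h1 : g = 1 := congrArg Subtype.val
          (Subsingleton.elim (α := alternatingGroup (Fin 2)) ⟨g, hg⟩ 1)
        rw [h1]; exact one_mem _)
      (Subgroup.subset_closure ⟨0, rfl⟩) (Perm.sign_swap (by decide)))
    (↑R : Set (FreeGroup (Fin 2)))
    (fun r hr => by
      simp only [R, Finset.coe_insert, Finset.coe_singleton] at hr
      rcases hr with rfl | rfl <;> simp [sq])
    ⟨hf, by rw [Nat.card_perm, Nat.card_fin]; exact hc⟩
  exact ⟨e⟩

theorem hasTwoGenPres_alt_three : HasTwoGenPres (alternatingGroup (Fin 3)) := by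
  classical
  let R : Finset (FreeGroup (Fin 2)) := {FreeGroup.of 0 ^ 3, FreeGroup.of 1}
  refine ⟨R, Finset.card_le_two.trans (by norm_num), ?_⟩
  let P := PresentedGroup (↑R : Set (FreeGroup (Fin 2)))
  let x : P := PresentedGroup.of 0
  have hx : x ^ 3 = 1 :=
    (map_pow (PresentedGroup.mk _) _ 3).symm.trans (pres_rel_eq_one (by simp [R]))
  have hy : (PresentedGroup.of 1 : P) = 1 := pres_rel_eq_one (by simp [R])
  obtain ⟨hf, hc⟩ := carmichael_bound 1 (fun _ => x) (fun _ => hx)
    (fun i j h => absurd (Subsingleton.elim i j) h)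
  have htop : Subgroup.closure (Set.range fun _ : Fin 1 => x) = ⊤ :=
    pres_range_two (Subgroup.subset_closure ⟨0, rfl⟩) (hy ▸ one_mem _)
  rw [htop] at hf hc
  rw [Subgroup.card_top] at hc
  have h2 := two_card_alt 1
  obtain ⟨e, -⟩ := pres_of_bound ![tauA 1 0, 1]
    (by
      rw [eq_top_iff, ← closure_tau 1]
      refine Subgroup.closure_mono ?_
      rintro _ ⟨i, rfl⟩
      exact ⟨0, by rw [Subsingleton.elim i 0]; rfl⟩)
    (↑R : Set (FreeGroup (Fin 2)))
    (fun r hr => by
      simp only [R, Finset.coe_insert, Finset.coe_singleton] at hr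
      rcases hr with rfl | rfl <;> simp [(tau_relations 1).1])
    ⟨Finite.of_equiv _ Subgroup.topEquiv.toEquiv, by
      show Nat.card P ≤ Nat.card (alternatingGroup (Fin (1 + 2)))
      omega⟩
  exact ⟨e⟩

theorem hasTwoGenPres_alt_four : HasTwoGenPres (alternatingGroup (Fin 4)) := by
  classical
  let R : Finset (FreeGroup (Fin 2)) :=
    {FreeGroup.of 0 ^ 3, FreeGroup.of 1 ^ 3, (FreeGroup.of 0 * FreeGroup.of 1) ^ 2}
  refine ⟨R, Finset.card_le_three.trans (by norm_num), ?_⟩
  let P := PresentedGroup (↑R : Set (FreeGroup (Fin 2)))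
  let g : Fin 2 → P := PresentedGroup.of
  have h3 : ∀ i, g i ^ 3 = 1 := fun i =>
    (map_pow (PresentedGroup.mk _) _ 3).symm.trans (pres_rel_eq_one (by fin_cases i <;> simp [R]))
  have h2 : (g 0 * g 1) ^ 2 = 1 :=
    (by rw [map_pow, map_mul]; rfl : _ = PresentedGroup.mk (↑R : Set (FreeGroup (Fin 2)))
      ((FreeGroup.of 0 * FreeGroup.of 1) ^ 2)).trans (pres_rel_eq_one (by simp [R]))
  obtain ⟨hf, hc⟩ := carmichael_bound 2 g h3 (fun i j h => by
    fin_cases i <;> fin_cases j
    · exact absurd rfl h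
    · exact h2
    · show (g 1 * g 0) ^ 2 = 1
      rw [show g 1 * g 0 = (g 0)⁻¹ * (g 0 * g 1) * (g 0)⁻¹⁻¹ by group, conj_pow, h2]
      group
    · exact absurd rfl h)
  have htop : Subgroup.closure (Set.range g) = ⊤ := PresentedGroup.closure_range_of _
  rw [htop] at hf hc
  rw [Subgroup.card_top] at hc
  have hA := two_card_alt 2
  obtain ⟨e, -⟩ := pres_of_bound (tauA 2) (closure_tau 2) (↑R : Set (FreeGroup (Fin 2)))
    (fun r hr => by
      simp only [R, Finset.coe_insert, Finset.coe_singleton] at hr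
      rcases hr with rfl | rfl | rfl
      · simp [(tau_relations 2).1]
      · simp [(tau_relations 2).1]
      · simp [(tau_relations 2).2 0 1 (by decide)])
    ⟨Finite.of_equiv _ Subgroup.topEquiv.toEquiv, by
      show Nat.card P ≤ Nat.card (alternatingGroup (Fin (2 + 2)))
      omega⟩
  exact ⟨e⟩

theorem hasTwoGenPres_perm_three : HasTwoGenPres (Perm (Fin 3)) := by
  classical
  let R : Finset (FreeGroup (Fin 2)) :=
    {FreeGroup.of 0 ^ 3, FreeGroup.of 1 ^ 2, (FreeGroup.of 1 * FreeGroup.of 0) ^ 2}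
  refine ⟨R, Finset.card_le_three.trans (by norm_num), ?_⟩
  let P := PresentedGroup (↑R : Set (FreeGroup (Fin 2)))
  let x : P := PresentedGroup.of 0
  let y : P := PresentedGroup.of 1
  have hx : x ^ 3 = 1 :=
    (map_pow (PresentedGroup.mk _) _ 3).symm.trans (pres_rel_eq_one (by simp [R]))
  have hy : y ^ 2 = 1 :=
    (map_pow (PresentedGroup.mk _) _ 2).symm.trans (pres_rel_eq_one (by simp [R]))
  have hyx : (y * x) ^ 2 = 1 :=
    (by rw [map_pow, map_mul]; rfl : _ = PresentedGroup.mk (↑R : Set (FreeGroup (Fin 2)))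
      ((FreeGroup.of 1 * FreeGroup.of 0) ^ 2)).trans (pres_rel_eq_one (by simp [R]))
  have hfin : IsOfFinOrder x := isOfFinOrder_iff_pow_eq_one.2 ⟨3, by omega, hx⟩
  have : Finite (Subgroup.zpowers x) :=
    Nat.finite_of_card_ne_zero (by rw [Nat.card_zpowers]; exact (orderOf_pos_iff.2 hfin).ne')
  obtain ⟨hf, hc⟩ := two_step_bound (Subgroup.zpowers x) y (hy ▸ one_mem _)
    (fun h hh => by
      obtain ⟨j, rfl⟩ := Subgroup.mem_zpowers_iff.1 hh
      rw [← conj_zpow]
      refine zpow_mem ?_ _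
      have : y * x * y⁻¹ = x⁻¹ := by
        rw [show y⁻¹ = y from inv_eq_of_mul_eq_one_right (by rw [← sq, hy])]
        exact eq_inv_of_mul_eq_one_left (by rw [← hyx, sq]; group)
      rw [this]
      exact inv_mem (Subgroup.mem_zpowers x))
    (pres_range_two (Subgroup.mem_sup_left (Subgroup.mem_zpowers x))
      (Subgroup.mem_sup_right (Subgroup.mem_zpowers y)))
  have h3 : Nat.card (Subgroup.zpowers x) ≤ 3 := by
    rw [Nat.card_zpowers]; exact orderOf_le_of_pow_eq_one (by omega) hx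
  obtain ⟨e, -⟩ := pres_of_bound ![tau 1 0, theta 1]
    (top_of_alt_le_and_odd (by
        rw [← closure_tau_perm 1, Subgroup.closure_le]
        rintro _ ⟨i, rfl⟩
        exact Subgroup.subset_closure ⟨0, by rw [Subsingleton.elim i 0]; rfl⟩)
      (Subgroup.subset_closure ⟨1, rfl⟩) (Perm.sign_swap (zero_ne_one' 1)))
    (↑R : Set (FreeGroup (Fin 2)))
    (fun r hr => by
      simp only [R, Finset.coe_insert, Finset.coe_singleton] at hr
      rcases hr with rfl | rfl | rfl <;>
        simp only [map_pow, map_mul, FreeGroup.lift_apply_of, Matrix.cons_val] <;> decide)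
    ⟨hf, by rw [Nat.card_perm, Nat.card_fin]; show Nat.card P ≤ 6; omega⟩
  exact ⟨e⟩

theorem hasTwoGenPres_perm_four : HasTwoGenPres (Perm (Fin 4)) := by
  classical
  let R : Finset (FreeGroup (Fin 2)) := {FreeGroup.of 0 ^ 3, FreeGroup.of 1 ^ 2,
    (FreeGroup.of 0 * (FreeGroup.of 1 * FreeGroup.of 0 * (FreeGroup.of 1)⁻¹)) ^ 2}
  refine ⟨R, Finset.card_le_three.trans (by norm_num), ?_⟩
  let P := PresentedGroup (↑R : Set (FreeGroup (Fin 2)))
  let x : P := PresentedGroup.of 0
  let y : P := PresentedGroup.of 1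
  have hx : x ^ 3 = 1 :=
    (map_pow (PresentedGroup.mk _) _ 3).symm.trans (pres_rel_eq_one (by simp [R]))
  have hy : y ^ 2 = 1 :=
    (map_pow (PresentedGroup.mk _) _ 2).symm.trans (pres_rel_eq_one (by simp [R]))
  have hxy : (x * (y * x * y⁻¹)) ^ 2 = 1 :=
    (by simp only [map_pow, map_mul, map_inv]; rfl :
      _ = PresentedGroup.mk (↑R : Set (FreeGroup (Fin 2)))
      ((FreeGroup.of 0 * (FreeGroup.of 1 * FreeGroup.of 0 * (FreeGroup.of 1)⁻¹)) ^ 2)).trans
      (pres_rel_eq_one (by simp [R]))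
  let g : Fin 2 → P := ![x, y * x * y⁻¹]
  obtain ⟨hfH, hcH⟩ := carmichael_bound 2 g (fun i => by
      fin_cases i
      · exact hx
      · show (y * x * y⁻¹) ^ 3 = 1
        rw [conj_pow, hx]; group)
    (fun i j h => by
      fin_cases i <;> fin_cases j
      · exact absurd rfl h
      · exact hxy
      · show (y * x * y⁻¹ * x) ^ 2 = 1
        rw [show y * x * y⁻¹ * x = x⁻¹ * (x * (y * x * y⁻¹)) * x⁻¹⁻¹ by group, conj_pow, hxy]
        group
      · exact absurd rfl h)
  have hy' : y⁻¹ = y := inv_eq_of_mul_eq_one_right (by rw [← sq, hy])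
  obtain ⟨hf, hc⟩ := two_step_bound (Subgroup.closure (Set.range g)) y (hy ▸ one_mem _)
    (fun h hh => conj_closure_mem (by
      rintro _ ⟨i, rfl⟩
      fin_cases i
      · exact Subgroup.subset_closure ⟨1, rfl⟩
      · refine Subgroup.subset_closure ⟨0, ?_⟩
        show x = y * (y * x * y⁻¹) * y⁻¹
        rw [show y * (y * x * y⁻¹) * y⁻¹ = y ^ 2 * x * (y⁻¹) ^ 2 by rw [sq, sq]; group, hy', hy]
        group) hh)
    (pres_range_two (Subgroup.mem_sup_left (Subgroup.subset_closure ⟨0, rfl⟩))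
      (Subgroup.mem_sup_right (Subgroup.mem_zpowers y)))
  obtain ⟨e, -⟩ := pres_of_bound ![tau 2 0, pe (swap (0 : Fin 2) 1) 0]
    (top_of_alt_le_and_odd (by
        rw [← closure_tau_perm 2, Subgroup.closure_le]
        rintro _ ⟨i, rfl⟩
        fin_cases i
        · exact Subgroup.subset_closure ⟨0, rfl⟩
        · have h := pe_conj (swap (0 : Fin 2) 1) 0 0
          rw [pow_zero, zpow_one, swap_apply_left] at h
          show tau 2 1 ∈ _
          rw [← h]
          have hm : pe (swap (0 : Fin 2) 1) 0 ∈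
              Subgroup.closure (Set.range ![tau 2 0, pe (swap (0 : Fin 2) 1) 0]) :=
            Subgroup.subset_closure ⟨1, rfl⟩
          exact mul_mem (mul_mem hm (Subgroup.subset_closure ⟨0, rfl⟩)) (inv_mem hm))
      (Subgroup.subset_closure ⟨1, rfl⟩)
      (show Perm.sign (pe (swap (0 : Fin 2) 1) 0) = -1 by
        rw [sign_pe, Perm.sign_swap (by decide)]; simp))
    (↑R : Set (FreeGroup (Fin 2)))
    (fun r hr => by
      simp only [R, Finset.coe_insert, Finset.coe_singleton] at hr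
      have h3 : ∀ i, tau 2 i ^ 3 = 1 := fun i => by
        simpa [tauA] using congrArg Subtype.val ((tau_relations 2).1 i)
      rcases hr with rfl | rfl | rfl <;>
        simp only [map_pow, map_mul, map_inv, FreeGroup.lift_apply_of, Matrix.cons_val]
      · exact h3 0
      · rw [pe_pow, zero_mul, sq, swap_mul_self, pe_one]
      · rw [pe_conj, pow_zero, zpow_one, swap_apply_left]
        simpa [tauA] using congrArg Subtype.val ((tau_relations 2).2 0 1 (by decide)))
    ⟨hf, by rw [Nat.card_perm, Nat.card_fin]; show Nat.card P ≤ 24; norm_num at hcH; omega⟩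
  exact ⟨e⟩

/-- Two generators and at most eight relations for every `n`. -/
theorem hasTwoGenPres_sym_alt (n : ℕ) :
    HasTwoGenPres (Perm (Fin n)) ∧ HasTwoGenPres (alternatingGroup (Fin n)) := by
  by_cases hn : 5 ≤ n
  · obtain ⟨W⟩ := perm_window_model hn
    obtain ⟨V⟩ := alt_window_model hn
    obtain ⟨R, hR, e⟩ := W.two_gen
    obtain ⟨S, hS, f⟩ := V.two_gen
    exact ⟨⟨R, by omega, e⟩, S, by omega, f⟩
  have : n = 0 ∨ n = 1 ∨ n = 2 ∨ n = 3 ∨ n = 4 := by omega
  rcases this with rfl | rfl | rfl | rfl | rfl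
  · exact ⟨hasTwoGenPres_subsingleton, hasTwoGenPres_subsingleton⟩
  · exact ⟨hasTwoGenPres_subsingleton, hasTwoGenPres_subsingleton⟩
  · exact ⟨hasTwoGenPres_perm_two, hasTwoGenPres_subsingleton⟩
  · exact ⟨hasTwoGenPres_perm_three, hasTwoGenPres_alt_three⟩
  · exact ⟨hasTwoGenPres_perm_four, hasTwoGenPres_alt_four⟩

end Cfsg.Agent.H62
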