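import Cfsg.Agent.H62.Carmichael

/-!
A seven-relation presentation of alternating and symmetric groups on `p + M + 2` points
(`p` prime), built from overlapping windows of three-cycles with a common base pair: the
bound on the presented group.
-/

set_option autoImplicit false

namespace Cfsg.Agent.H62

/-- The conjugate `a^i z a^-i`. -/
def winX {G : Type*} [Group G] (a z : G) (i : ℕ) : G := a ^ i * z * (a ^ i)⁻¹

/-- The twisted conjugates of `z` under `c`. -/
def winY {G : Type*} [Group G] (c z : G) (ε : ℤ) : ℕ → G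
  | 0 => z
  | j + 1 => c * winY c z ε j ^ ε * c⁻¹

/-- Parameters of the window presentation: exponents and three words. -/
structure WinData (p M k : ℕ) where
  r : ℕ
  s : ℕ
  t : ℕ
  eps : ℤ
  wb : FreeGroup (Fin p)
  we : FreeGroup (Fin p)
  wv : FreeGroup (Fin (M + k))

variable {p M k : ℕ}

/-- The word in the conjugates `a^i z a^-i` permuting them as multiplication by `r`. -/
def winW (D : WinData p M k) {G : Type*} [Group G] (a z : G) : G :=
  FreeGroup.lift (fun i : Fin p => winX a z i) D.wb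

/-- The word in the conjugates `a^i z a^-i` permuting them as a partial shift. -/
def winH (D : WinData p M k) {G : Type*} [Group G] (a z : G) : G :=
  FreeGroup.lift (fun i : Fin p => winX a z i) D.we

/-- The word in the last window relating `c^k` to `a^k`. -/
def winV (D : WinData p M k) {G : Type*} [Group G] (c z : G) : G :=
  FreeGroup.lift (fun i : Fin (M + k) => winY c z D.eps (p - k + i)) D.wv

/-- The seven relators. -/
def winRel (D : WinData p M k) {G : Type*} [Group G] (a z c : G) : Fin 7 → G :=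
  ![a ^ p * (winW D a z ^ (p - 1))⁻¹,
    (winW D a z)⁻¹ * a ^ D.s * winW D a z * (a ^ (D.s - 1))⁻¹,
    winW D a z * z * (winW D a z)⁻¹ * z,
    winX a z 1 * winX a z 0 * winX a z 1 * (winX a z 0 * winX a z 0)⁻¹,
    a⁻¹ * c * z * (a⁻¹ * c)⁻¹ * (z ^ D.t)⁻¹,
    a⁻¹ * c * winH D a z * (winH D a z * (a⁻¹ * c))⁻¹,
    c ^ k * (a ^ k * winV D c z)⁻¹]

section map

variable {G G' : Type*} [Group G] [Group G'] (f : G →* G')

theorem map_winX (a z : G) (i : ℕ) : f (winX a z i) = winX (f a) (f z) i := by simp [winX]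

theorem map_winY (c z : G) (ε : ℤ) : ∀ j, f (winY c z ε j) = winY (f c) (f z) ε j
  | 0 => rfl
  | j + 1 => by simp [winY, map_winY c z ε j]

theorem map_freeLift {ι : Type*} (g : ι → G) (w : FreeGroup ι) :
    f (FreeGroup.lift g w) = FreeGroup.lift (fun i => f (g i)) w :=
  FreeGroup.lift_unique (f.comp (FreeGroup.lift g)) (fun i => by simp)

theorem map_winW (D : WinData p M k) (a z : G) : f (winW D a z) = winW D (f a) (f z) := by
  simp [winW, map_freeLift, map_winX]

theorem map_winH (D : WinData p M k) (a z : G) : f (winH D a z) = winH D (f a) (f z) := by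
  simp [winH, map_freeLift, map_winX]

theorem map_winV (D : WinData p M k) (c z : G) : f (winV D c z) = winV D (f c) (f z) := by
  simp [winV, map_freeLift, map_winY]

theorem map_winRel (D : WinData p M k) (a z c : G) (i : Fin 7) :
    f (winRel D a z c i) = winRel D (f a) (f z) (f c) i := by
  fin_cases i <;> simp [winRel, map_winW, map_winH, map_winV, map_winX]

end map

theorem freeLift_mem {ι G : Type*} [Group G] (g : ι → G) (S : Subgroup G) (h : ∀ i, g i ∈ S)
    (w : FreeGroup ι) : FreeGroup.lift g w ∈ S := by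
  induction w using FreeGroup.induction_on with
  | C1 => simpa using one_mem S
  | of i => simpa using h i
  | inv_of i _ => simpa using inv_mem (h i)
  | mul u v hu hv => simpa using mul_mem hu hv

theorem conj_closure_mem {G : Type*} [Group G] {S : Set G} {g : G}
    (h : ∀ u ∈ S, g * u * g⁻¹ ∈ Subgroup.closure S) {x : G} (hx : x ∈ Subgroup.closure S) :
    g * x * g⁻¹ ∈ Subgroup.closure S :=
  ((Subgroup.closure_le (k := S) ((Subgroup.closure S).comap (MulAut.conj g).toMonoidHom)).2
    fun u hu => by simpa using h u hu) hx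

/-- What the parameters must satisfy for the bound. -/
structure WinData.Valid (D : WinData p M k) : Prop where
  prime_pos : 3 ≤ p
  window : M + k ≤ p
  k_pos : 1 ≤ k
  s_pos : 1 ≤ D.s
  hs1 : (D.s - 1) * (D.r - 1) % p = 1
  hsr : D.s * (D.r - 1) % p = D.r % p
  prim : ∀ d, d < p → d ≠ 0 → ∃ m, D.r ^ m % p = d
  heps : D.eps = 1 ∨ D.eps = -1
  t_even : Even D.t
  t_three : (3 : ℤ) ∣ (D.t : ℤ) - D.eps
  shift : ∀ (i : ℕ) (hi : i + 2 < p),
    FreeGroup.lift (tauA p) D.we * tauA p ⟨i, by omega⟩ * (FreeGroup.lift (tauA p) D.we)⁻¹ =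
      (tauA p ⟨i + 1, by omega⟩)⁻¹
  wrap : ∀ hM : M < M + k,
    FreeGroup.lift (tauA (M + k)) D.wv * tauA (M + k) ⟨M, hM⟩ *
      (FreeGroup.lift (tauA (M + k)) D.wv)⁻¹ = tauA (M + k) ⟨0, by omega⟩ ^ (D.eps ^ k)

/-- The seven relations define a group of order at most `k (p + M + 2)! / 2`. -/
theorem window_bound {J : Type*} [Group J] (D : WinData p M k) (hD : D.Valid) (a z c : J)
    (hrel : ∀ i, winRel D a z c i = 1) (hgen : Subgroup.closure {a, z, c} = ⊤) :
    Finite J ∧ 2 * Nat.card J ≤ k * (p + M + 2).factorial := by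
  obtain ⟨hp3, hwin, hk, hs, hs1, hsr, prim, heps, hteven, ht3, hshift, hwrap⟩ := hD
  set ε := D.eps with hεdef
  set W := winW D a z with hWdef
  set h := winH D a z with hhdef
  set V := winV D c z with hVdef
  set e := a⁻¹ * c with hedef
  have e1 : a ^ p = W ^ (p - 1) := mul_inv_eq_one.1 (hrel 0)
  have e2 : W⁻¹ * a ^ D.s * W = a ^ (D.s - 1) := mul_inv_eq_one.1 (hrel 1)
  have e3 : W * z * W⁻¹ = z⁻¹ := eq_inv_of_mul_eq_one_left (hrel 2)
  have e4 : winX a z 1 * winX a z 0 * winX a z 1 = winX a z 0 * winX a z 0 :=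
    mul_inv_eq_one.1 (hrel 3)
  have e5 : e * z * e⁻¹ = z ^ D.t := mul_inv_eq_one.1 (hrel 4)
  have e6 : e * h = h * e := mul_inv_eq_one.1 (hrel 5)
  have e7 : c ^ k = a ^ k * V := mul_inv_eq_one.1 (hrel 6)
  have hεε : ε * ε = 1 := by rcases heps with h' | h' <;> rw [h'] <;> norm_num
  -- the order of `a`
  have hC : a ^ p = 1 := by
    have hc : Commute W ((a ^ p) ^ D.s) := by
      rw [e1]; exact (Commute.self_pow W _).pow_right _
    have h2 := congrArg (· ^ p) e2
    replace h2 : (W⁻¹ * a ^ D.s * W) ^ p = (a ^ (D.s - 1)) ^ p := h2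
    have l : (W⁻¹ * a ^ D.s * W) ^ p = (a ^ p) ^ D.s := by
      have := conj_pow (a := W⁻¹) (b := a ^ D.s) (i := p)
      rw [inv_inv] at this
      rw [this, ← pow_mul, mul_comm D.s p, pow_mul, mul_assoc, ← hc.eq, inv_mul_cancel_left]
    rw [l, ← pow_mul, ← pow_mul, mul_comm (D.s - 1) p] at h2
    have h3 : a ^ (p * (D.s - 1)) * a ^ p = a ^ (p * (D.s - 1)) * 1 := by
      rw [← pow_add, mul_one]
      convert h2 using 2
      conv_rhs => rw [← Nat.sub_add_cancel hs]
      ring
    exact mul_left_cancel h3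
  have amod : ∀ m, a ^ m = a ^ (m % p) := fun m => pow_eq_pow_mod m hC
  let X : ℕ → J := winX a z
  have Xmod : ∀ m, X m = X (m % p) := fun m => by
    simp only [X, winX]; rw [← amod]
  have aX : ∀ j m, a ^ j * X m * (a ^ j)⁻¹ = X (j + m) := fun j m => by
    simp only [X, winX, pow_add]; group
  have X0 : X 0 = z := by simp [X, winX]
  have hWa : W * a * W⁻¹ = a ^ D.r := by
    have h1 : W * a ^ (D.s - 1) * W⁻¹ = a ^ D.s := by rw [← e2]; group
    have h2 : a = (a ^ (D.s - 1)) ^ (D.r - 1) := by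
      rw [← pow_mul, amod, hs1, pow_one]
    conv_lhs => rw [h2]
    rw [← conj_pow, h1, ← pow_mul, amod, hsr, ← amod]
  have hWX : ∀ i, W * X i * W⁻¹ = (X (D.r * i))⁻¹ := fun i => by
    have h1 : W * a ^ i * W⁻¹ = a ^ (D.r * i) := by rw [← conj_pow, hWa, ← pow_mul]
    calc W * (a ^ i * z * (a ^ i)⁻¹) * W⁻¹
        = (W * a ^ i * W⁻¹) * (W * z * W⁻¹) * (W * a ^ i * W⁻¹)⁻¹ := by group
      _ = _ := by rw [h1, e3]; simp only [X, winX]; group
  -- all pairs satisfy `v u v = u²`
  let P : J → J → Prop := fun u v => v * u * v = u * u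
  have Pconj : ∀ g u v, P u v → P (g * u * g⁻¹) (g * v * g⁻¹) := fun g u v huv => by
    show _ = _
    calc g * v * g⁻¹ * (g * u * g⁻¹) * (g * v * g⁻¹) = g * (v * u * v) * g⁻¹ := by group
      _ = _ := by rw [huv]; group
  have Pinv : ∀ u v, P u⁻¹ v⁻¹ → P u v := fun u v huv => by
    have := congrArg (·⁻¹) (huv : v⁻¹ * u⁻¹ * v⁻¹ = u⁻¹ * u⁻¹)
    simpa [P, mul_assoc] using this
  have hP0 : ∀ m, P (X 0) (X (D.r ^ m)) := fun m => by
    induction m with
    | zero => exact e4
    | succ m ih =>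
      have := Pconj W _ _ ih
      rw [hWX, hWX, mul_zero, ← pow_succ'] at this
      exact Pinv _ _ this
  have hP : ∀ i d, 0 < d → d < p → P (X i) (X (i + d)) := fun i d hd hd' => by
    obtain ⟨m, hm⟩ := prim d hd' (by omega)
    have := Pconj (a ^ i) _ _ (hP0 m)
    rw [aX, aX, add_zero, Xmod (i + D.r ^ m), Nat.add_mod, hm] at this
    rwa [Xmod (i + d), Nat.add_mod, Nat.mod_eq_of_lt hd']
  -- the cubes
  have hcube : ∀ i, X i ^ 3 = z ^ 3 := fun i => by
    rw [Xmod i, ← X0]
    set d := i % p with hd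
    have hdp : d < p := Nat.mod_lt _ (by omega)
    rcases Nat.eq_zero_or_pos d with h0 | h0
    · rw [h0]
    have q1 : P (X 0) (X d) := by simpa using hP 0 d h0 hdp
    have q2 : P (X d) (X 0) := by
      have := hP d (p - d) (by omega) (by omega)
      rwa [Nat.add_sub_cancel' hdp.le, Xmod p, Nat.mod_self] at this
    calc X d ^ 3 = X d * X d * X d := by simp [pow_succ]
      _ = X 0 * X d * X 0 * X d := by rw [← (q2 : _ = _)]
      _ = X 0 * (X d * X 0 * X d) := by group
      _ = X 0 * (X 0 * X 0) := by rw [(q1 : _ = _)]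
      _ = X 0 ^ 3 := by simp [pow_succ, mul_assoc]
  have hWz : Commute W (z ^ 3) := by
    have := freeLift_mem (fun i : Fin p => winX a z i) (Subgroup.centralizer {z ^ 3}) (fun i => by
      rw [Subgroup.mem_centralizer_iff]
      rintro _ rfl
      rw [← hcube i]
      exact (Commute.pow_self _ 3).eq) D.wb
    exact (Subgroup.mem_centralizer_iff.1 this _ rfl).symm
  have hz2 : (z ^ 3) ^ 2 = 1 := by
    have h1 : W * z ^ 3 * W⁻¹ = (z ^ 3)⁻¹ := by rw [← conj_pow, e3, inv_pow]
    rw [hWz.eq, mul_inv_cancel_right] at h1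
    rw [sq]
    exact mul_eq_one_iff_eq_inv.2 h1
  have hz3 : z ^ 3 = 1 := by
    have h1 : e * z ^ 3 * e⁻¹ = 1 := by
      obtain ⟨t', ht'⟩ := hteven
      rw [← conj_pow, e5, ← pow_mul, mul_comm, pow_mul, ht', ← two_mul, pow_mul, hz2, one_pow]
    exact conj_eq_one_iff.1 h1
  have hX3 : ∀ i, X i ^ 3 = 1 := fun i => (hcube i).trans hz3
  have PQ : ∀ u v, u ^ 3 = 1 → P u v → (u * v) ^ 2 = 1 := fun u v hu huv => by
    rw [sq, mul_assoc, ← mul_assoc v, (huv : _ = _), ← hu]
    simp [pow_succ, mul_assoc]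
  have Xpair : ∀ i j : Fin p, i ≠ j → (X i * X j) ^ 2 = 1 := fun i j hij => by
    apply PQ _ _ (hX3 _)
    rcases Nat.lt_or_gt_of_ne (Fin.val_ne_of_ne hij) with hlt | hgt
    · have := hP i (j - i) (by omega) (by omega)
      rwa [Nat.add_sub_cancel' hlt.le] at this
    · have := hP i (p - (i - j)) (by omega) (by omega)
      rwa [show i.val + (p - (i.val - j.val)) = j + p by omega, Xmod (j + p), Nat.add_mod_right,
        Nat.mod_eq_of_lt j.isLt] at this
  obtain ⟨Ψ, hΨ⟩ := exists_alt_hom (fun i : Fin p => X i) (fun i => hX3 _) Xpair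
  have hh : h = Ψ (FreeGroup.lift (tauA p) D.we) := lift_eq_alt_hom _ Ψ hΨ _
  have hhX : ∀ i, i + 2 < p → h * X i * h⁻¹ = (X (i + 1))⁻¹ := fun i hi => by
    have := congrArg Ψ (hshift i hi)
    simpa only [map_mul, map_inv, hΨ, ← hh] using this
  -- conjugation by `c`
  have heX : ∀ i, i + 2 ≤ p → e * X i * e⁻¹ = X i ^ ε := fun i => by
    induction i with
    | zero =>
      intro _
      obtain ⟨q, hq⟩ := ht3
      rw [X0, e5, ← zpow_natCast, show (D.t : ℤ) = ε + 3 * q by omega, zpow_add, zpow_mul,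
        show z ^ (3 : ℤ) = 1 by exact_mod_cast hz3, one_zpow, mul_one]
    | succ i ih =>
      intro hi
      have hs' : X (i + 1) = h * (X i)⁻¹ * h⁻¹ := by
        rw [← inv_inv (X (i + 1)), ← hhX i (by omega)]; group
      calc e * X (i + 1) * e⁻¹ = (e * h) * (X i)⁻¹ * (e * h)⁻¹ := by rw [hs']; group
        _ = h * (e * X i * e⁻¹)⁻¹ * h⁻¹ := by rw [e6]; group
        _ = X (i + 1) ^ ε := by rw [ih (by omega), hs', conj_zpow, inv_zpow]
  let Y : ℕ → J := winY c z ε
  have Ysucc : ∀ j, Y (j + 1) = c * Y j ^ ε * c⁻¹ := fun j => rfl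
  have hXY : ∀ i, i < p → Y i = X i := fun i => by
    induction i with
    | zero => exact fun _ => X0.symm
    | succ i ih =>
      intro hi
      rw [Ysucc, ih (by omega), show c = a * e by rw [hedef]; group]
      calc a * e * X i ^ ε * (a * e)⁻¹ = a * ((e * X i * e⁻¹) ^ ε) * a⁻¹ := by
            rw [conj_zpow]; group
        _ = a * X i * a⁻¹ := by rw [heX i (by omega), ← zpow_mul, hεε, zpow_one]
        _ = X (i + 1) := by rw [add_comm i 1, ← aX 1 i, pow_one]
  have Qpow : ∀ u v : J, (u * v) ^ 2 = 1 → (u ^ ε * v ^ ε) ^ 2 = 1 := fun u v huv => by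
    rcases heps with h' | h' <;> rw [h']
    · simpa using huv
    · rw [zpow_neg_one, zpow_neg_one]
      have h2 : (u⁻¹ * v⁻¹) = u⁻¹ * (u * v)⁻¹ * u := by group
      rw [h2, show (u⁻¹ * (u * v)⁻¹ * u) ^ 2 = u⁻¹ * ((u * v) ^ 2)⁻¹ * u by rw [sq, sq]; group,
        huv]
      group
  have Yshift : ∀ j d, 0 < d → d < p → (Y j * Y (j + d)) ^ 2 = 1 := fun j => by
    induction j with
    | zero =>
      intro d hd hd'
      rw [zero_add, hXY 0 (by omega), hXY d hd']
      exact PQ _ _ (hX3 0) (by simpa using hP 0 d hd hd')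
    | succ j ih =>
      intro d hd hd'
      rw [add_right_comm, Ysucc, Ysucc]
      rw [show c * Y j ^ ε * c⁻¹ * (c * Y (j + d) ^ ε * c⁻¹) =
        c * (Y j ^ ε * Y (j + d) ^ ε) * c⁻¹ by group, conj_pow, Qpow _ _ (ih d hd hd')]
      group
  have Y3 : ∀ j, Y j ^ 3 = 1 := fun j => by
    induction j with
    | zero => exact hz3
    | succ j ih =>
      rw [Ysucc, conj_pow, ← zpow_natCast, ← zpow_mul, mul_comm, zpow_mul, zpow_natCast, ih,
        one_zpow]
      group
  have Qsymm : ∀ u v : J, (u * v) ^ 2 = 1 → (v * u) ^ 2 = 1 := fun u v huv => by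
    rw [show v * u = u⁻¹ * (u * v) * u⁻¹⁻¹ by group, conj_pow, huv]; group
  -- the last window
  obtain ⟨Ψ', hΨ'⟩ := exists_alt_hom (fun i : Fin (M + k) => Y (p - k + i)) (fun i => Y3 _)
    (fun i j hij => by
      rcases Nat.lt_or_gt_of_ne (Fin.val_ne_of_ne hij) with hlt | hgt
      · have := Yshift (p - k + i) (j - i) (by omega) (by omega)
        rwa [show p - k + i.val + (j.val - i.val) = p - k + j by omega] at this
      · have := Qsymm _ _ (Yshift (p - k + j) (i - j) (by omega) (by omega))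
        rwa [show p - k + j.val + (i.val - j.val) = p - k + i by omega] at this)
  have hV : V = Ψ' (FreeGroup.lift (tauA (M + k)) D.wv) := lift_eq_alt_hom _ Ψ' hΨ' _
  have hVY : V * Y (p - k + M) * V⁻¹ = Y (p - k) ^ (ε ^ k) := by
    have := congrArg Ψ' (hwrap (by omega))
    simpa only [map_mul, map_inv, map_zpow, hΨ', ← hV, add_zero] using this
  have Yadd : ∀ j l, Y (j + l) = c ^ l * Y j ^ (ε ^ l) * (c ^ l)⁻¹ := fun j l => by
    induction l with
    | zero => simp
    | succ l ih =>
      rw [← add_assoc, Ysucc, ih, conj_zpow, ← zpow_mul, ← pow_succ, pow_succ' c]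
      group
  set N := p + M with hN
  have YN : Y N = z := by
    rw [show N = p - k + M + k by omega, Yadd, e7]
    calc a ^ k * V * Y (p - k + M) ^ ε ^ k * (a ^ k * V)⁻¹
        = a ^ k * ((V * Y (p - k + M) * V⁻¹) ^ ε ^ k) * (a ^ k)⁻¹ := by rw [conj_zpow]; group
      _ = a ^ k * Y (p - k) * (a ^ k)⁻¹ := by
            rw [hVY, ← zpow_mul, ← mul_pow, hεε, one_pow, zpow_one]
      _ = z := by
            rw [hXY _ (by omega), aX, show k + (p - k) = p by omega, Xmod, Nat.mod_self, X0]
  have Yper : ∀ j, Y (j + N) = Y j := fun j => by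
    induction j with
    | zero => rw [zero_add, YN]; rfl
    | succ j ih => rw [add_right_comm, Ysucc, ih, Ysucc]
  -- the alternating group on all the points
  obtain ⟨Φ, hΦ⟩ := exists_alt_hom (fun i : Fin N => Y i) (fun i => Y3 _) (by
    intro i j hij
    have main : ∀ u v : Fin N, u.val < v.val → (Y u * Y v) ^ 2 = 1 := fun u v huv => by
      by_cases hd : v.val - u.val < p
      · have := Yshift u (v - u) (by omega) hd
        rwa [Nat.add_sub_cancel' huv.le] at this
      · have := Qsymm _ _ (Yshift v (u + N - v) (by omega) (by omega))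
        rwa [show v.val + (u.val + N - v.val) = u + N by omega, Yper] at this
    rcases Nat.lt_or_gt_of_ne (Fin.val_ne_of_ne hij) with hlt | hgt
    · exact main i j hlt
    · exact Qsymm _ _ (main j i hgt))
  set R := Subgroup.closure (Set.range Y) with hR
  have hYR : ∀ j, Y j ∈ R := fun j => Subgroup.subset_closure ⟨j, rfl⟩
  have hRΦ : R ≤ Φ.range := by
    rw [hR, Subgroup.closure_le]
    rintro _ ⟨j, rfl⟩
    induction j using Nat.strong_induction_on with
    | _ j ih =>
      by_cases hj : j < N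
      · exact ⟨_, hΦ ⟨j, hj⟩⟩
      · rw [show j = j - N + N by omega, Yper]
        exact ih _ (by omega)
  have hXR : ∀ m, X m ∈ R := fun m => by
    rw [Xmod, ← hXY _ (Nat.mod_lt _ (by omega))]; exact hYR _
  have hWR : W ∈ R := freeLift_mem (fun i : Fin p => winX a z i) R (fun i => hXR i) _
  have hVR : V ∈ R := freeLift_mem (fun i : Fin (M + k) => winY c z ε (p - k + i)) R (fun i => hYR _) _
  have haR : a ∈ R := by
    have h1 : a ^ D.s * W⁻¹ * (a ^ D.s)⁻¹ * W = a := by
      calc a ^ D.s * W⁻¹ * (a ^ D.s)⁻¹ * W = a ^ D.s * (W⁻¹ * a ^ D.s * W)⁻¹ := by group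
        _ = a ^ (D.s - 1 + 1) * (a ^ (D.s - 1))⁻¹ := by rw [e2, Nat.sub_add_cancel hs]
        _ = a := by rw [pow_succ']; group
    have h2 : a ^ D.s * W * (a ^ D.s)⁻¹ ∈ R := by
      have := map_freeLift (MulAut.conj (a ^ D.s)).toMonoidHom (fun i : Fin p => winX a z i) D.wb
      simp only [MulEquiv.coe_toMonoidHom, MulAut.conj_apply] at this
      rw [hWdef, winW, this]
      exact freeLift_mem _ R (fun i => by
        show a ^ D.s * X i * (a ^ D.s)⁻¹ ∈ R
        rw [aX]; exact hXR _) _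
    rw [← h1]
    refine mul_mem ?_ hWR
    simpa [mul_assoc] using inv_mem h2
  have hcn : c ∈ Subgroup.normalizer (R : Set J) := by
    rw [Subgroup.mem_normalizer_iff]
    intro x
    constructor
    · refine fun hx => conj_closure_mem ?_ hx
      rintro _ ⟨j, rfl⟩
      have : c * Y j * c⁻¹ = Y (j + 1) ^ ε := by
        rw [Ysucc, ← conj_zpow, ← zpow_mul, hεε, zpow_one]
      rw [this]
      exact zpow_mem (hYR _) _
    · intro hx
      have := conj_closure_mem (g := c⁻¹) (S := Set.range Y) ?_ hx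
      · simpa [mul_assoc] using this
      rintro _ ⟨j, rfl⟩
      rw [← Yper j, show j + N = j + N - 1 + 1 by omega, Ysucc, inv_inv]
      rw [show c⁻¹ * (c * Y (j + N - 1) ^ ε * c⁻¹) * c = Y (j + N - 1) ^ ε by group]
      exact zpow_mem (hYR _) _
  have hnorm : R.Normal := by
    rw [← Subgroup.normalizer_eq_top_iff, eq_top_iff, ← hgen, Subgroup.closure_le]
    rintro g (rfl | rfl | rfl)
    · exact Subgroup.le_normalizer haR
    · exact Subgroup.le_normalizer (X0 ▸ hXR 0)
    · exact hcn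
  have hfinΦ : Finite Φ.range := Finite.of_surjective _ Φ.rangeRestrict_surjective
  have hfinR : Finite R :=
    Finite.of_injective (Subgroup.inclusion hRΦ) (Subgroup.inclusion_injective hRΦ)
  have hcardR : 2 * Nat.card R ≤ (N + 2).factorial := by
    have h1 : Nat.card R ≤ Nat.card Φ.range :=
      Nat.card_le_card_of_injective _ (Subgroup.inclusion_injective hRΦ)
    have h2 : Nat.card Φ.range ≤ Nat.card (alternatingGroup (Fin (N + 2))) :=
      Nat.card_le_card_of_surjective _ Φ.rangeRestrict_surjective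
    calc 2 * Nat.card R ≤ 2 * Nat.card (alternatingGroup (Fin (N + 2))) :=
          Nat.mul_le_mul_left _ (h1.trans h2)
      _ = (N + 2).factorial := by
          rw [two_mul_nat_card_alternatingGroup, Nat.card_perm, Nat.card_fin]
  have hcyc : Subgroup.zpowers (QuotientGroup.mk' R c) = ⊤ := by
    rw [eq_top_iff, ← (Subgroup.map_top_of_surjective _ (QuotientGroup.mk'_surjective R)), ← hgen,
      MonoidHom.map_closure, Subgroup.closure_le]
    rintro _ ⟨g, (rfl | rfl | rfl), rfl⟩
    · rw [show QuotientGroup.mk' R g = 1 from (QuotientGroup.eq_one_iff g).2 haR]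
      exact one_mem _
    · rw [show QuotientGroup.mk' R g = 1 from (QuotientGroup.eq_one_iff g).2 (X0 ▸ hXR 0)]
      exact one_mem _
    · exact Subgroup.mem_zpowers _
  have hck : QuotientGroup.mk' R c ^ k = 1 := by
    rw [← map_pow]
    exact (QuotientGroup.eq_one_iff _).2 (e7 ▸ mul_mem (pow_mem haR k) hVR)
  have hq : Nat.card (J ⧸ R) ≤ k := by
    rw [← Subgroup.card_top (G := J ⧸ R), ← hcyc, Nat.card_zpowers]
    exact orderOf_le_of_pow_eq_one (by omega) hck
  have hq0 : Nat.card (J ⧸ R) ≠ 0 := by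
    rw [← Subgroup.card_top (G := J ⧸ R), ← hcyc, Nat.card_zpowers]
    exact (orderOf_pos_iff.2 (isOfFinOrder_iff_pow_eq_one.2 ⟨k, by omega, hck⟩)).ne'
  have hJ := Subgroup.card_eq_card_quotient_mul_card_subgroup R
  refine ⟨(Nat.card_pos_iff.1 ?_).2, ?_⟩
  · rw [hJ]; exact Nat.mul_pos (Nat.pos_of_ne_zero hq0) Nat.card_pos
  · calc 2 * Nat.card J = Nat.card (J ⧸ R) * (2 * Nat.card R) := by rw [hJ]; ring
      _ ≤ k * (N + 2).factorial := Nat.mul_le_mul hq hcardR

end Cfsg.Agent.H62
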