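import Cfsg.Agent.H62.WindowBound
import Mathlib.NumberTheory.Bertrand

/-!
A model of the window presentation inside `S_n`, for every `n ≥ 5`.
-/

set_option autoImplicit false

namespace Cfsg.Agent.H62

open Equiv

/-- `basePt` as an embedding. -/
def baseEmb (L : ℕ) : Fin L ↪ Fin (L + 2) :=
  ⟨basePt L, fun i j h => Fin.ext (by simpa [basePt, Fin.ext_iff] using h)⟩

theorem eq_zero_one_or_base {L : ℕ} (x : Fin (L + 2)) :
    x = 0 ∨ x = 1 ∨ ∃ i, x = basePt L i := by
  by_cases h0 : x.val = 0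
  · exact Or.inl (Fin.ext h0)
  by_cases h1 : x.val = 1
  · exact Or.inr (Or.inl (Fin.ext (by rw [h1]; simp)))
  exact Or.inr (Or.inr ⟨⟨x.val - 2, by omega⟩, Fin.ext (by simp [basePt]; omega)⟩)

/-- A permutation of the indices as a permutation of the points. -/
noncomputable def baseLift (L : ℕ) : Perm (Fin L) →* Perm (Fin (L + 2)) :=
  Perm.viaEmbeddingHom (baseEmb L)

theorem baseLift_base {L : ℕ} (σ : Perm (Fin L)) (i : Fin L) :
    baseLift L σ (basePt L i) = basePt L (σ i) :=
  Perm.viaEmbedding_apply σ (baseEmb L) i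

theorem baseLift_fix {L : ℕ} (σ : Perm (Fin L)) :
    baseLift L σ 0 = 0 ∧ baseLift L σ 1 = 1 := by
  refine ⟨Perm.viaEmbedding_apply_of_notMem σ (baseEmb L) _ ?_,
    Perm.viaEmbedding_apply_of_notMem σ (baseEmb L) _ ?_⟩
  · rintro ⟨i, hi⟩; exact (basePt_ne L i).1 hi.symm
  · rintro ⟨i, hi⟩; exact (basePt_ne L i).2 hi.symm

theorem sign_baseLift {L : ℕ} (σ : Perm (Fin L)) : Perm.sign (baseLift L σ) = Perm.sign σ := by
  induction σ using Perm.swap_induction_on with
  | one => simp
  | swap_mul σ a b hab ih =>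
    have : baseLift L (swap a b) = swap (basePt L a) (basePt L b) := by
      ext x : 1
      rcases eq_zero_one_or_base x with rfl | rfl | ⟨i, rfl⟩
      · rw [(baseLift_fix _).1, swap_apply_of_ne_of_ne (basePt_ne L a).1 (basePt_ne L b).1]
      · rw [(baseLift_fix _).2, swap_apply_of_ne_of_ne (basePt_ne L a).2 (basePt_ne L b).2]
      · rw [baseLift_base]
        exact ((baseEmb L).injective.swap_apply a b i).symm
    rw [map_mul, map_mul, map_mul, ih, this, Perm.sign_swap hab,
      Perm.sign_swap (show basePt L a ≠ basePt L b from (baseEmb L).injective.ne hab)]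

/-- The transposition of the base pair. -/
def theta (L : ℕ) : Perm (Fin (L + 2)) := swap 0 1

theorem theta_base (L : ℕ) (i : Fin L) : theta L (basePt L i) = basePt L i :=
  swap_apply_of_ne_of_ne (basePt_ne L i).1.symm (basePt_ne L i).2.symm

/-- A permutation of the indices together with a power of the swap of the base pair. -/
noncomputable def pe {L : ℕ} (σ : Perm (Fin L)) (m : ℕ) : Perm (Fin (L + 2)) :=
  baseLift L σ * theta L ^ m

theorem theta_comm {L : ℕ} (σ : Perm (Fin L)) : Commute (baseLift L σ) (theta L) := by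
  show baseLift L σ * theta L = theta L * baseLift L σ
  refine mul_inv_eq_iff_eq_mul.1 ?_
  rw [theta, ← swap_apply_apply, (baseLift_fix σ).1, (baseLift_fix σ).2]

theorem pe_mul {L : ℕ} (σ σ' : Perm (Fin L)) (m m' : ℕ) :
    pe σ m * pe σ' m' = pe (σ * σ') (m + m') := by
  simp only [pe, map_mul, pow_add]
  rw [mul_assoc, ← mul_assoc (theta L ^ m), ((theta_comm σ').pow_right m).eq.symm]
  group

theorem pe_one {L : ℕ} : pe (1 : Perm (Fin L)) 0 = 1 := by simp [pe]

theorem theta_pow_even {L : ℕ} {m : ℕ} (hm : Even m) : theta L ^ m = 1 := by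
  obtain ⟨j, rfl⟩ := hm
  rw [← two_mul, pow_mul, sq, theta, swap_mul_self, one_pow]

theorem pe_even {L : ℕ} (σ : Perm (Fin L)) {m : ℕ} (hm : Even m) : pe σ m = pe σ 0 := by
  simp [pe, theta_pow_even hm]

theorem pe_pow {L : ℕ} (σ : Perm (Fin L)) (m : ℕ) : ∀ j, pe σ m ^ j = pe (σ ^ j) (m * j)
  | 0 => by simp [pe]
  | j + 1 => by rw [pow_succ, pe_pow σ m j, pe_mul, pow_succ]; congr 1

theorem pe_inv {L : ℕ} (σ : Perm (Fin L)) (m : ℕ) : (pe σ m)⁻¹ = pe σ⁻¹ m :=
  inv_eq_of_mul_eq_one_right (by rw [pe_mul, mul_inv_cancel, pe_even _ ⟨m, rfl⟩, pe_one])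

theorem sign_pe {L : ℕ} (σ : Perm (Fin L)) (m : ℕ) :
    Perm.sign (pe σ m) = Perm.sign σ * (-1) ^ m := by
  rw [pe, map_mul, map_pow, sign_baseLift, theta, Perm.sign_swap (zero_ne_one' L)]

theorem pe_conj {L : ℕ} (σ : Perm (Fin L)) (m : ℕ) (i : Fin L) :
    pe σ m * tau L i * (pe σ m)⁻¹ = tau L (σ i) ^ ((-1 : ℤ) ^ m) := by
  have hθ : ∀ j, theta L * tau L j * (theta L)⁻¹ = (tau L j)⁻¹ := fun j => by
    rw [tau, conj_cyc3, theta_base, cyc3_inv (basePt_ne L j).1.symm (basePt_ne L j).2.symm]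
    simp [theta]
  have hb : baseLift L σ * tau L i * (baseLift L σ)⁻¹ = tau L (σ i) := by
    rw [tau, conj_cyc3, baseLift_base, (baseLift_fix σ).1, (baseLift_fix σ).2]
    rfl
  induction m with
  | zero => simpa [pe] using hb
  | succ m ih =>
    rw [show pe σ (m + 1) = pe σ m * theta L by rw [pe, pe, pow_succ, mul_assoc],
      show pe σ m * theta L * tau L i * (pe σ m * theta L)⁻¹ =
        pe σ m * (theta L * tau L i * (theta L)⁻¹) * (pe σ m)⁻¹ by group,
      hθ, ← zpow_neg_one, ← conj_zpow, ih, ← zpow_mul, pow_succ]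

/-- The `i`-th index of the window starting at `q`. -/
def winIdx {q L N : ℕ} (h : q + L ≤ N) : Fin L ↪ Fin N :=
  ⟨fun i => ⟨q + i, by omega⟩, fun i j e => Fin.ext (by simpa [Fin.ext_iff] using e)⟩

theorem winIdx_val {q L N : ℕ} (h : q + L ≤ N) (i : Fin L) : (winIdx h i).val = q + i.val := rfl

/-- The points of the window starting at `q`. -/
def winEmb {q L N : ℕ} (h : q + L ≤ N) : Fin (L + 2) ↪ Fin (N + 2) :=
  ⟨fun x => ⟨if x.val < 2 then x.val else x.val + q, by split_ifs <;> omega⟩, fun x y e => by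
    simp only [Fin.ext_iff] at e
    refine Fin.ext ?_
    split_ifs at e <;> omega⟩

theorem winEmb_base {q L N : ℕ} (h : q + L ≤ N) (i : Fin L) :
    winEmb h (basePt L i) = basePt N (winIdx h i) :=
  Fin.ext (by simp [winEmb, basePt, winIdx_val]; omega)

theorem winEmb_fix {q L N : ℕ} (h : q + L ≤ N) : winEmb h 0 = 0 ∧ winEmb h 1 = 1 :=
  ⟨Fin.ext (by simp [winEmb]), Fin.ext (by simp [winEmb])⟩

/-- Permutations of a window. -/
noncomputable def winHom {q L N : ℕ} (h : q + L ≤ N) : Perm (Fin (L + 2)) →* Perm (Fin (N + 2)) :=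
  Perm.viaEmbeddingHom (winEmb h)

theorem winHom_swap {q L N : ℕ} (h : q + L ≤ N) (a b : Fin (L + 2)) :
    winHom h (swap a b) = swap (winEmb h a) (winEmb h b) := by
  ext x : 1
  by_cases hx : x ∈ Set.range (winEmb h)
  · obtain ⟨y, rfl⟩ := hx
    rw [show winHom h (swap a b) (winEmb h y) = winEmb h (swap a b y) from
      Perm.viaEmbedding_apply _ _ _]
    exact ((winEmb h).injective.swap_apply a b y).symm
  · rw [show winHom h (swap a b) x = x from Perm.viaEmbedding_apply_of_notMem _ _ _ hx,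
      swap_apply_of_ne_of_ne (fun e => hx ⟨a, e.symm⟩) (fun e => hx ⟨b, e.symm⟩)]

theorem winHom_tau {q L N : ℕ} (h : q + L ≤ N) (i : Fin L) :
    winHom h (tau L i) = tau N (winIdx h i) := by
  simp only [tau, cyc3, map_mul, winHom_swap, winEmb_base, winEmb_fix]

theorem winHom_pe {q L N : ℕ} (h : q + L ≤ N) (σ : Perm (Fin L)) (m : ℕ) :
    winHom h (pe σ m) = pe (Perm.viaEmbeddingHom (winIdx h) σ) m := by
  rw [pe, pe, map_mul, map_pow, show winHom h (theta L) = theta N by
    rw [theta, winHom_swap, (winEmb_fix h).1, (winEmb_fix h).2]; rfl]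
  congr 1
  ext x : 1
  rcases eq_zero_one_or_base x with rfl | rfl | ⟨i, rfl⟩
  · rw [(baseLift_fix _).1]
    conv_lhs => rw [← (winEmb_fix h).1]
    rw [show winHom h _ (winEmb h 0) = winEmb h _ from Perm.viaEmbedding_apply _ _ _,
      (baseLift_fix σ).1, (winEmb_fix h).1]
  · rw [(baseLift_fix _).2]
    conv_lhs => rw [← (winEmb_fix h).2]
    rw [show winHom h _ (winEmb h 1) = winEmb h _ from Perm.viaEmbedding_apply _ _ _,
      (baseLift_fix σ).2, (winEmb_fix h).2]
  · rw [baseLift_base]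
    by_cases hi : i ∈ Set.range (winIdx h)
    · obtain ⟨j, rfl⟩ := hi
      rw [← winEmb_base, show winHom h _ (winEmb h _) = winEmb h _ from
          Perm.viaEmbedding_apply _ _ _, baseLift_base, winEmb_base]
      congr 1
      exact (Perm.viaEmbedding_apply _ _ _).symm
    · rw [show Perm.viaEmbeddingHom (winIdx h) σ i = i from
        Perm.viaEmbedding_apply_of_notMem _ _ _ hi]
      refine Perm.viaEmbedding_apply_of_notMem _ _ _ ?_
      rintro ⟨y, hy⟩
      rcases eq_zero_one_or_base y with rfl | rfl | ⟨j, rfl⟩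
      · rw [(winEmb_fix h).1] at hy; exact (basePt_ne N i).1 hy
      · rw [(winEmb_fix h).2] at hy; exact (basePt_ne N i).2 hy
      · rw [winEmb_base] at hy; exact hi ⟨j, (baseEmb N).injective hy⟩

theorem viaEmbeddingHom_winIdx_val {q L N : ℕ} (h : q + L ≤ N) (σ : Perm (Fin L)) (i : Fin N) :
    (Perm.viaEmbeddingHom (winIdx h) σ i).val =
      if hi : q ≤ i.val ∧ i.val < q + L then q + (σ ⟨i.val - q, by omega⟩).val else i.val := by
  split_ifs with hi
  · conv_lhs => rw [show i = winIdx h ⟨i.val - q, by omega⟩ from Fin.ext (by simp [winIdx_val]; omega)]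
    rw [show Perm.viaEmbeddingHom (winIdx h) σ (winIdx h _) = winIdx h _ from
      Perm.viaEmbedding_apply _ _ _]
    rfl
  · rw [show Perm.viaEmbeddingHom (winIdx h) σ i = i from
      Perm.viaEmbedding_apply_of_notMem _ _ _ (by
        rintro ⟨j, hj⟩
        have := congrArg Fin.val hj
        simp [winIdx_val] at this
        omega)]

theorem rot_pow_val {n : ℕ} : ∀ (j : ℕ) (i : Fin n), ((finRotate n ^ j) i).val = (i.val + j) % n
  | 0, i => by simp [Nat.mod_eq_of_lt i.isLt]
  | j + 1, i => by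
    rw [pow_succ', Perm.mul_apply]
    have hn : NeZero n := i.neZero
    rw [finRotate_apply, Fin.val_add, rot_pow_val j i, Fin.val_one', Nat.add_mod_mod,
      Nat.mod_add_mod, Nat.add_assoc]

theorem rot_val {n : ℕ} (i : Fin n) : (finRotate n i).val = (i.val + 1) % n := by
  simpa using rot_pow_val 1 i

theorem exists_window_prime {n : ℕ} (hn : 5 ≤ n) :
    ∃ p M, p.Prime ∧ 3 ≤ p ∧ M + 2 ≤ p ∧ n = p + M + 2 := by
  obtain ⟨p, hp, h1, h2⟩ := Nat.exists_prime_lt_and_le_two_mul ((n - 1) / 2) (by omega)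
  have hp3 : 3 ≤ p := by omega
  have hpN : p ≤ n - 2 := by
    by_contra hlt
    have h2p : 2 ∣ p := ⟨(n - 1) / 2, by omega⟩
    rcases hp.eq_one_or_self_of_dvd 2 h2p with h | h <;> omega
  exact ⟨p, n - 2 - p, hp, hp3, by omega, by omega⟩

/-- Index permutations used by the model. -/
theorem exists_mul_perm {p : ℕ} (hp : p.Prime) (hp3 : 3 ≤ p) :
    ∃ (r s : ℕ) (σ : Perm (Fin p)), 1 ≤ s ∧ (s - 1) * (r - 1) % p = 1 ∧
      s * (r - 1) % p = r % p ∧ (∀ d, d < p → d ≠ 0 → ∃ m, r ^ m % p = d) ∧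
      Perm.sign σ = -1 ∧ σ ^ (p - 1) = 1 ∧ σ ⟨0, by omega⟩ = ⟨0, by omega⟩ ∧
      finRotate p ^ s * σ = σ * finRotate p ^ (s - 1) := by
  have : Fact p.Prime := ⟨hp⟩
  have : NeZero p := ⟨hp.ne_zero⟩
  obtain ⟨g, hg⟩ := IsCyclic.exists_generator (α := (ZMod p)ˣ)
  have hg1 : (g : ZMod p) ≠ 1 := fun h => by
    have h2 : ∀ x : (ZMod p)ˣ, x = 1 := fun x => by
      obtain ⟨j, rfl⟩ := Subgroup.mem_zpowers_iff.1 (hg x)
      rw [show g = 1 from Units.ext h, one_zpow]
    have := Fintype.card_eq_one_iff.2 ⟨(1 : (ZMod p)ˣ), h2⟩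
    rw [ZMod.card_units] at this
    omega
  set t : ZMod p := (g : ZMod p) / ((g : ZMod p) - 1) with ht
  have hsub : (g : ZMod p) - 1 ≠ 0 := sub_ne_zero.2 hg1
  have ht0 : t ≠ 0 := div_ne_zero g.ne_zero hsub
  have hr1 : 1 ≤ (g : ZMod p).val :=
    Nat.one_le_iff_ne_zero.2 fun h => g.ne_zero ((ZMod.val_eq_zero _).1 h)
  have hs1 : 1 ≤ t.val := Nat.one_le_iff_ne_zero.2 fun h => ht0 ((ZMod.val_eq_zero _).1 h)
  set r := (g : ZMod p).val with hr
  set s := t.val with hs
  have cr : ((r - 1 : ℕ) : ZMod p) = g - 1 := by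
    rw [Nat.cast_sub hr1, hr, ZMod.natCast_zmod_val, Nat.cast_one]
  have cs : ((s - 1 : ℕ) : ZMod p) = t - 1 := by
    rw [Nat.cast_sub hs1, hs, ZMod.natCast_zmod_val, Nat.cast_one]
  let e : Fin p ≃ ZMod p := (ZMod.finEquiv p).toEquiv
  have he : ∀ i : Fin p, e i = (i.val : ZMod p) := fun i => by
    cases p with
    | zero => exact i.elim0
    | succ q => exact (ZMod.natCast_zmod_val (n := q + 1) (e i)).symm
  let μ : Perm (ZMod p) := Equiv.mulLeft₀ (g : ZMod p) g.ne_zero
  let σ : Perm (Fin p) := e.symm.permCongr μ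
  have hσ : ∀ i, e (σ i) = g * e i := fun i => by simp [σ, μ]
  refine ⟨r, s, σ, hs1, ?_, ?_, ?_, ?_, ?_, ?_, ?_⟩
  · have : (((s - 1) * (r - 1) : ℕ) : ZMod p) = ((1 : ℕ) : ZMod p) := by
      rw [Nat.cast_mul, cs, cr, Nat.cast_one, ht, sub_mul, div_mul_cancel₀ _ hsub]; ring
    rw [ZMod.natCast_eq_natCast_iff'] at this
    rwa [Nat.mod_eq_of_lt (show 1 < p by omega)] at this
  · have : ((s * (r - 1) : ℕ) : ZMod p) = (r : ZMod p) := by
      rw [Nat.cast_mul, cr, hs, hr, ZMod.natCast_zmod_val, ZMod.natCast_zmod_val, ht,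
        div_mul_cancel₀ _ hsub]
    exact (ZMod.natCast_eq_natCast_iff' _ _ _).1 this
  · intro d hd hd0
    have hdu : (d : ZMod p) ≠ 0 := by
      rw [Ne, ZMod.natCast_eq_zero_iff]
      exact fun h => absurd (Nat.le_of_dvd (by omega) h) (by omega)
    obtain ⟨m, hm⟩ := mem_powers_iff_mem_zpowers.2 (hg (Units.mk0 _ hdu))
    refine ⟨m, ?_⟩
    have : ((r ^ m : ℕ) : ZMod p) = (d : ZMod p) := by
      rw [Nat.cast_pow, hr, ZMod.natCast_zmod_val]
      simpa using congrArg (fun u : (ZMod p)ˣ => (u : ZMod p)) hm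
    rwa [ZMod.natCast_eq_natCast_iff', Nat.mod_eq_of_lt hd] at this
  · rw [show Perm.sign σ = Perm.sign μ from Perm.sign_permCongr _ _]
    have hmu : ∀ x, μ x = g * x := fun x => rfl
    have hpow : ∀ (m : ℕ) x, (μ ^ m) x = (g : ZMod p) ^ m * x := fun m => by
      induction m with
      | zero => simp
      | succ m ih =>
        intro x; rw [pow_succ', Perm.mul_apply, ih, hmu, pow_succ']; ring
    have hsupp : μ.support = Finset.univ.erase 0 := by
      ext x
      simp only [Perm.mem_support, Finset.mem_erase, Finset.mem_univ, and_true, hmu, ne_eq]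
      constructor
      · rintro h rfl; exact h (by simp)
      · intro hx h; exact hg1 (mul_right_cancel₀ hx (by rw [h, one_mul]))
    have hcyc : μ.IsCycle := by
      refine ⟨1, by simpa [hmu] using hg1, fun y hy => ?_⟩
      have hy0 : y ≠ 0 := fun h => hy (by simp [h, hmu])
      obtain ⟨m, hm⟩ := mem_powers_iff_mem_zpowers.2 (hg (Units.mk0 _ hy0))
      refine ⟨(m : ℤ), ?_⟩
      rw [zpow_natCast, hpow, mul_one]
      simpa using congrArg (fun u : (ZMod p)ˣ => (u : ZMod p)) hm
    rw [hcyc.sign, hsupp, Finset.card_erase_of_mem (Finset.mem_univ _), Finset.card_univ,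
      ZMod.card, Even.neg_one_pow]
    exact Nat.Odd.sub_odd (hp.odd_of_ne_two (by omega)) odd_one
  · ext i : 1
    apply e.injective
    have hpow : ∀ m, e ((σ ^ m) i) = (g : ZMod p) ^ m * e i := fun m => by
      induction m with
      | zero => simp
      | succ m ih => rw [pow_succ', Perm.mul_apply, hσ, ih, pow_succ']; ring
    rw [hpow, ZMod.pow_card_sub_one_eq_one g.ne_zero, one_mul, Perm.one_apply]
  · apply e.injective
    rw [hσ, he]
    simp
  · ext i : 1
    apply e.injective
    have erot : ∀ (j : ℕ) (x : Fin p), e ((finRotate p ^ j) x) = e x + (j : ZMod p) := fun j x => by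
      rw [he, he, rot_pow_val, ZMod.natCast_mod, Nat.cast_add]
    rw [Perm.mul_apply, Perm.mul_apply, erot, hσ, hσ, erot, cs, hs, ZMod.natCast_zmod_val, ht]
    field_simp
    ring

theorem closure_tau_perm (L : ℕ) :
    Subgroup.closure (Set.range (tau L)) = alternatingGroup (Fin (L + 2)) := by
  have h := congrArg (Subgroup.map (alternatingGroup (Fin (L + 2))).subtype) (closure_tau L)
  rw [MonoidHom.map_closure, ← Set.range_comp, ← MonoidHom.range_eq_map,
    Subgroup.range_subtype] at h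
  exact h

/-- The window presentation has a model generating `A_n` or `S_n`. -/
theorem exists_window_model {n k : ℕ} (hn : 5 ≤ n) (hk : k = 1 ∨ k = 2) :
    ∃ (p M : ℕ) (D : WinData p M k), D.Valid ∧ n = p + M + 2 ∧ ∃ a z c : Perm (Fin n),
      (∀ i, winRel D a z c i = 1) ∧ Perm.sign a = 1 ∧ Perm.sign z = 1 ∧
      Perm.sign c = (-1) ^ (k - 1) ∧ alternatingGroup (Fin n) ≤ Subgroup.closure {z, c} := by
  obtain ⟨p, M, hp, hp3, hMp, rfl⟩ := exists_window_prime hn
  have hk1 : 1 ≤ k := by omega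
  obtain ⟨r, s, σ, hs, hs1, hsr, hprim, hσsign, hσpow, hσ0, hσrot⟩ := exists_mul_perm hp hp3
  have hpodd : Odd p := hp.odd_of_ne_two (by omega)
  have : NeZero p := ⟨hp.ne_zero⟩
  set N := p + M with hN
  set b := (N + k) % 2 with hb
  set L := M + k with hL
  let π : Perm (Fin p) := swap ⟨0, by omega⟩ ⟨p - 1, by omega⟩ * finRotate p
  have hπsign : Perm.sign π = -1 := by
    rw [map_mul, Perm.sign_swap (by simp [Fin.ext_iff]; omega), sign_finRotate,
      Even.neg_one_pow (Nat.Odd.sub_odd hpodd odd_one), mul_one]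
  -- the three words
  have hβA : pe σ 1 ∈ alternatingGroup (Fin (p + 2)) := by
    rw [Perm.mem_alternatingGroup, sign_pe, hσsign]; decide
  have hηA : pe π 1 ∈ alternatingGroup (Fin (p + 2)) := by
    rw [Perm.mem_alternatingGroup, sign_pe, hπsign]; decide
  have hνA : pe (finRotate L ^ k) (b * k) ∈ alternatingGroup (Fin (L + 2)) := by
    rw [Perm.mem_alternatingGroup, sign_pe, map_pow, sign_finRotate, ← pow_mul, ← pow_add,
      Even.neg_one_pow]
    obtain ⟨q, rfl⟩ := hpodd
    rcases hk with rfl | rfl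
    · rw [Nat.even_iff]; omega
    · exact (even_two.mul_left _).add (even_two.mul_left _)
  obtain ⟨wb, hwb⟩ := exists_tau_word ⟨_, hβA⟩
  obtain ⟨we, hwe⟩ := exists_tau_word ⟨_, hηA⟩
  obtain ⟨wv, hwv⟩ := exists_tau_word ⟨_, hνA⟩
  have coe_lift : ∀ {K : ℕ} (w : FreeGroup (Fin K)),
      (FreeGroup.lift (tauA K) w).1 = FreeGroup.lift (tau K) w := fun w =>
    map_freeLift (alternatingGroup _).subtype _ w
  have hwb' : FreeGroup.lift (tau p) wb = pe σ 1 :=
    (coe_lift wb).symm.trans (congrArg Subtype.val hwb)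
  have hwe' : FreeGroup.lift (tau p) we = pe π 1 :=
    (coe_lift we).symm.trans (congrArg Subtype.val hwe)
  have hwv' : FreeGroup.lift (tau L) wv = pe (finRotate L ^ k) (b * k) :=
    (coe_lift wv).symm.trans (congrArg Subtype.val hwv)
  set ε : ℤ := (-1) ^ b with hε
  let D : WinData p M k := ⟨r, s, if b = 0 then 4 else 8, ε, wb, we, wv⟩
  have hb2 : b = 0 ∨ b = 1 := by omega
  have hπ : ∀ i : Fin p, i.val + 2 < p → (π i).val = i.val + 1 := fun i hi => by
    have h1 : (finRotate p i).val = i.val + 1 := by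
      rw [rot_val, Nat.mod_eq_of_lt (by omega)]
    rw [Perm.mul_apply, swap_apply_of_ne_of_ne
      (Fin.ne_of_val_ne (by show _ ≠ 0; omega)) (Fin.ne_of_val_ne (by show _ ≠ p - 1; omega)), h1]
  have hrotM : ∀ hM : M < L, (finRotate L ^ k) ⟨M, hM⟩ = ⟨0, by omega⟩ := fun hM =>
    Fin.ext (by rw [rot_pow_val]; exact Nat.mod_self L)
  refine ⟨p, M, D, ⟨hp3, by omega, hk1, hs, hs1, hsr, hprim, ?_, ?_, ?_, ?_, ?_⟩, rfl, ?_⟩
  · rcases hb2 with h | h <;> simp [D, hε, h]
  · rcases hb2 with h | h <;> simp [D, h] <;> decide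
  · rcases hb2 with h | h <;> simp [D, hε, h]
  · intro i hi
    apply Subtype.ext
    simp only [Subgroup.coe_mul, Subgroup.coe_inv, coe_lift, tauA]
    rw [show FreeGroup.lift (tau p) D.we = pe π 1 from hwe', pe_conj, pow_one, zpow_neg_one]
    congr 2
    exact Fin.ext (hπ _ hi)
  · intro hM
    apply Subtype.ext
    simp only [Subgroup.coe_mul, Subgroup.coe_inv, Subgroup.coe_zpow, coe_lift, tauA]
    rw [show FreeGroup.lift (tau L) D.wv = pe (finRotate L ^ k) (b * k) from hwv', pe_conj,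
      hrotM hM, pow_mul]
  -- the model
  have h0p : 0 + p ≤ N := by omega
  have hqL : p - k + L ≤ N := by omega
  let A : Perm (Fin N) := Perm.viaEmbeddingHom (winIdx h0p) (finRotate p)
  let C : Perm (Fin N) := finRotate N
  let S : Perm (Fin N) := Perm.viaEmbeddingHom (winIdx h0p) π
  have hAval : ∀ (j : ℕ) (i : Fin N),
      ((A ^ j) i).val = if i.val < p then (i.val + j) % p else i.val := fun j i => by
    rw [show A ^ j = Perm.viaEmbeddingHom (winIdx h0p) (finRotate p ^ j) from (map_pow _ _ _).symm,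
      viaEmbeddingHom_winIdx_val]
    by_cases hi : i.val < p
    · rw [dif_pos (by omega), if_pos hi, rot_pow_val]; simp
    · rw [dif_neg (by omega), if_neg hi]
  let a : Perm (Fin (N + 2)) := pe A 0
  let z : Perm (Fin (N + 2)) := tau N ⟨0, by omega⟩
  let c : Perm (Fin (N + 2)) := pe C b
  have ha : a = winHom h0p (pe (finRotate p) 0) := (winHom_pe _ _ _).symm
  have hX : ∀ i (hi : i < p), winX a z i = tau N ⟨i, by omega⟩ := fun i hi => by
    rw [winX, pe_pow, pe_conj, zero_mul, pow_zero, zpow_one]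
    congr 1
    exact Fin.ext (by rw [hAval, if_pos (by show 0 < p; omega)]; simp [Nat.mod_eq_of_lt hi])
  have hY : ∀ j (hj : j < N), winY c z ε j = tau N ⟨j, hj⟩ := fun j => by
    induction j with
    | zero => exact fun _ => rfl
    | succ j ih =>
      intro hj
      rw [winY, ih (by omega), ← conj_zpow, pe_conj, ← zpow_mul,
        show (-1 : ℤ) ^ b * ε = 1 by rw [hε, ← mul_pow]; norm_num, zpow_one]
      congr 1
      exact Fin.ext (by rw [rot_val, Nat.mod_eq_of_lt hj])
  have hW : winW D a z = winHom h0p (pe σ 1) := by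
    rw [← hwb', map_freeLift, winW]
    refine congrArg (fun f => FreeGroup.lift f wb) (funext fun i => ?_)
    rw [hX i i.isLt, winHom_tau]
    congr 1
    exact Fin.ext (by simp [winIdx_val])
  have hH : winH D a z = pe S 1 := by
    rw [← winHom_pe, ← hwe', map_freeLift, winH]
    refine congrArg (fun f => FreeGroup.lift f we) (funext fun i => ?_)
    rw [hX i i.isLt, winHom_tau]
    congr 1
    exact Fin.ext (by simp [winIdx_val])
  have hV : winV D c z = pe (Perm.viaEmbeddingHom (winIdx hqL) (finRotate L ^ k)) (b * k) := by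
    rw [← winHom_pe, ← hwv', map_freeLift, winV]
    refine congrArg (fun f => FreeGroup.lift f wv) (funext fun i => ?_)
    rw [show D.eps = ε from rfl, hY _ (by omega), winHom_tau]
    rfl
  have hz0 : z = winHom h0p (tau p ⟨0, by omega⟩) := by
    rw [winHom_tau]; congr 1
  have he : a⁻¹ * c = pe (A⁻¹ * C) b := by rw [pe_inv, pe_mul, zero_add]
  have hefix : ∀ i : Fin N, i.val + 2 ≤ p → (A⁻¹ * C) i = i := fun i hi => by
    rw [Perm.mul_apply, Perm.inv_eq_iff_eq]
    refine Fin.ext ?_
    rw [rot_val, ← pow_one A, hAval, if_pos (by omega), Nat.mod_eq_of_lt (by omega),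
      Nat.mod_eq_of_lt (by omega)]
  obtain ⟨t3, t2⟩ := tau_relations p
  have hz3 : z ^ 3 = 1 := by
    rw [hz0, ← map_pow]
    have := congrArg Subtype.val (t3 ⟨0, by omega⟩)
    rw [Subgroup.coe_pow] at this
    rw [show tau p ⟨0, _⟩ ^ 3 = 1 from this, map_one]
  refine ⟨a, z, c, ?_, ?_, tau_sign N _, ?_, ?_⟩
  · intro i
    fin_cases i <;> simp only [winRel, Fin.reduceFinMk, Fin.zero_eta, Fin.mk_one, Matrix.cons_val]
    · rw [mul_inv_eq_one, hW, ← map_pow, ha, ← map_pow]
      congr 1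
      rw [pe_pow, pe_pow, zero_mul, one_mul, hσpow,
        pe_even 1 (Nat.Odd.sub_odd hpodd odd_one), show finRotate p ^ p = 1 from
          Equiv.ext fun x => Fin.ext (by rw [rot_pow_val]; simp [Nat.mod_eq_of_lt x.isLt])]
    · rw [mul_inv_eq_one, hW, show D.s = s from rfl, mul_assoc, inv_mul_eq_iff_eq_mul, ha,
        ← map_pow, ← map_pow, ← map_mul, ← map_mul]
      congr 1
      rw [pe_pow, pe_pow, zero_mul, zero_mul, pe_mul, pe_mul, hσrot, zero_add, add_zero]
    · rw [hW, hz0, ← map_inv, ← map_mul, ← map_mul, ← map_mul, pe_conj, hσ0, pow_one,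
        zpow_neg_one, inv_mul_cancel, map_one]
    · rw [mul_inv_eq_one, hX 1 (by omega), hX 0 (by omega)]
      have e1 : tau N ⟨1, by omega⟩ = winHom h0p (tau p ⟨1, by omega⟩) := by
        rw [winHom_tau]; congr 1
      have e0 : tau N ⟨0, by omega⟩ = winHom h0p (tau p ⟨0, by omega⟩) := hz0
      rw [e1, e0, ← map_mul, ← map_mul, ← map_mul]
      congr 1
      have u2 := congrArg Subtype.val (t2 ⟨1, by omega⟩ ⟨0, by omega⟩ (by simp [Fin.ext_iff]))
      have u3 := congrArg Subtype.val (t3 ⟨0, by omega⟩)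
      simp only [Subgroup.coe_pow, Subgroup.coe_mul, Subgroup.coe_one, tauA, sq, pow_succ,
        pow_zero, one_mul] at u2 u3
      set u := tau p ⟨1, _⟩
      set v := tau p ⟨0, _⟩
      calc u * v * u = (u * v * (u * v)) * v⁻¹ := by group
        _ = (v * v * v) * v⁻¹ := by rw [u2, u3]
        _ = v * v := by group
    · rw [mul_inv_eq_one, he, pe_conj, hefix _ (by show 0 + 2 ≤ p; omega)]
      show z ^ (-1 : ℤ) ^ b = z ^ D.t
      rcases hb2 with h | h <;> simp only [D, h, pow_zero, zpow_one, pow_one, zpow_neg_one,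
        if_true, one_ne_zero, if_false]
      · rw [pow_succ, hz3, one_mul]
      · rw [show 8 = 3 * 2 + 2 from rfl, pow_add, pow_mul, hz3, one_pow, one_mul]
        exact inv_eq_of_mul_eq_one_right (by rw [← hz3]; simp [pow_succ, mul_assoc])
    · rw [mul_inv_eq_one, he, hH, pe_mul, pe_mul, add_comm b 1]
      congr 1
      refine (Perm.Disjoint.commute fun x => ?_).eq
      by_cases hx : x.val + 2 ≤ p
      · exact Or.inl (hefix x hx)
      · refine Or.inr (Fin.ext ?_)
        rw [show S x = Perm.viaEmbeddingHom (winIdx h0p) π x from rfl, viaEmbeddingHom_winIdx_val]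
        split_ifs with hxp
        · have hπlast : π ⟨p - 1, by omega⟩ = ⟨p - 1, by omega⟩ := by
            rw [Perm.mul_apply, show finRotate p ⟨p - 1, by omega⟩ = ⟨0, by omega⟩ from
              Fin.ext (by rw [rot_val]; simp [Nat.sub_add_cancel (show 1 ≤ p by omega)]),
              swap_apply_left]
          rw [show (⟨x.val - 0, _⟩ : Fin p) = ⟨p - 1, by omega⟩ from Fin.ext (by simp; omega),
            hπlast]
          simp
          omega
        · rfl
    · rw [mul_inv_eq_one, hV, pe_pow, pe_pow, zero_mul, pe_mul, zero_add]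
      congr 1
      ext i : 1
      refine Fin.ext ?_
      rw [rot_pow_val, Perm.mul_apply, hAval, viaEmbeddingHom_winIdx_val]
      by_cases hi : i.val < p - k
      · rw [dif_neg (by omega), if_pos (by omega), Nat.mod_eq_of_lt (by omega),
          Nat.mod_eq_of_lt (by omega)]
      · rw [dif_pos (by omega)]
        simp only [rot_pow_val]
        by_cases hi2 : i.val - (p - k) + k < L
        · rw [Nat.mod_eq_of_lt hi2, if_neg (by omega), Nat.mod_eq_of_lt (by omega)]
          omega
        · have hiN := i.isLt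
          have e1 : (i.val - (p - k) + k) % L = i.val - (p - k) + k - L := by
            rw [Nat.mod_eq_sub_mod (le_of_not_gt hi2), Nat.mod_eq_of_lt (by omega)]
          have e2 : (i.val + k) % N = i.val + k - N := by
            rw [Nat.mod_eq_sub_mod (by omega), Nat.mod_eq_of_lt (by omega)]
          have e3 : p - k + (i.val - (p - k) + k - L) = i.val - M := by omega
          rw [e1, e2, if_pos (by rw [e3]; omega), e3, Nat.mod_eq_sub_mod (by omega),
            Nat.mod_eq_of_lt (by omega)]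
          omega
  · rw [ha]
    have h1 : Perm.sign a ^ p = 1 := by
      rw [← map_pow, show a ^ p = 1 from ?_, map_one]
      rw [pe_pow, zero_mul, show A ^ p = 1 from Equiv.ext fun x => Fin.ext (by
        rw [hAval]; split_ifs with hx
        · simp [Nat.mod_eq_of_lt hx]
        · rfl), pe_one]
    rw [← ha]
    rcases Int.units_eq_one_or (Perm.sign a) with h | h
    · exact h
    · rw [h, hpodd.neg_one_pow] at h1; exact absurd h1 (by decide)
  · rw [sign_pe, sign_finRotate, ← pow_add]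
    exact neg_one_pow_congr (by simp only [Nat.even_iff]; omega)
  · rw [← closure_tau_perm, Subgroup.closure_le]
    rintro _ ⟨i, rfl⟩
    rw [← hY i i.isLt]
    have : ∀ j, winY c z ε j ∈ Subgroup.closure ({z, c} : Set (Perm (Fin (N + 2)))) := fun j => by
      induction j with
      | zero => exact Subgroup.subset_closure (Or.inl rfl)
      | succ j ih =>
        have hc : c ∈ Subgroup.closure ({z, c} : Set (Perm (Fin (N + 2)))) :=
          Subgroup.subset_closure (by simp)
        exact mul_mem (mul_mem hc (zpow_mem ih _)) (inv_mem hc)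
    exact this i

end Cfsg.Agent.H62
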