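import Mathlib

/-!
Iterated wreath products of a group of order two, as permutation groups, and the properties
of their commuting decompositions, centres and signs.
-/

set_option autoImplicit false

open scoped commutatorElement

namespace Cfsg.Agent.H62.WreathTwo

open Equiv

variable {X : Type}

/-- An element of the wreath product with the swap of two copies. -/
def mk (e : Bool) (f : Bool → Perm X) : Perm (Bool × X) where
  toFun q := (q.1 ^^ e, f q.1 q.2)
  invFun q := (q.1 ^^ e, (f (q.1 ^^ e)).symm q.2)
  left_inv q := by simp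
  right_inv q := by simp

theorem mk_apply (e : Bool) (f : Bool → Perm X) (b : Bool) (x : X) :
    mk e f (b, x) = (b ^^ e, f b x) := rfl

theorem mk_mul (e d : Bool) (f g : Bool → Perm X) :
    mk e f * mk d g = mk (d ^^ e) (fun b => f (b ^^ d) * g b) := by
  ext ⟨b, x⟩ <;> simp [mk_apply]

theorem mk_one : mk false (fun _ => (1 : Perm X)) = 1 := by
  ext ⟨b, x⟩ <;> simp [mk_apply]

theorem mk_inv (e : Bool) (f : Bool → Perm X) :
    (mk e f)⁻¹ = mk e (fun b => (f (b ^^ e))⁻¹) :=
  inv_eq_of_mul_eq_one_right (by rw [mk_mul]; simp [mk_one])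

theorem mk_inj [Nonempty X] {e d : Bool} {f g : Bool → Perm X} (h : mk e f = mk d g) :
    e = d ∧ f = g := by
  obtain ⟨x⟩ := ‹Nonempty X›
  have h1 : e = d := by
    have := congrArg Prod.fst (Equiv.congr_fun h (false, x))
    simpa [mk_apply] using this
  refine ⟨h1, funext fun b => Equiv.ext fun y => ?_⟩
  simpa [mk_apply] using congrArg Prod.snd (Equiv.congr_fun h (b, y))

/-- The wreath product of `W` with the group of order two. -/
def wr (W : Subgroup (Perm X)) : Subgroup (Perm (Bool × X)) where
  carrier := {σ | ∃ e f, (∀ b, f b ∈ W) ∧ σ = mk e f}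
  one_mem' := ⟨false, fun _ => 1, fun _ => one_mem W, mk_one.symm⟩
  mul_mem' := by
    rintro _ _ ⟨e, f, hf, rfl⟩ ⟨d, g, hg, rfl⟩
    exact ⟨_, _, fun b => mul_mem (hf _) (hg b), mk_mul e d f g⟩
  inv_mem' := by
    rintro _ ⟨e, f, hf, rfl⟩
    exact ⟨e, _, fun b => inv_mem (hf _), mk_inv e f⟩

theorem mk_mem {W : Subgroup (Perm X)} (e : Bool) {f : Bool → Perm X} (hf : ∀ b, f b ∈ W) :
    mk e f ∈ wr W := ⟨e, f, hf, rfl⟩

/-- A base element. -/
def base (a b : Perm X) : Perm (Bool × X) := mk false (fun c => cond c b a)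

theorem base_mem {W : Subgroup (Perm X)} {a b : Perm X} (ha : a ∈ W) (hb : b ∈ W) :
    base a b ∈ wr W := mk_mem false fun c => by cases c <;> assumption

theorem base_mul (a b c d : Perm X) : base a b * base c d = base (a * c) (b * d) := by
  rw [base, base, base, mk_mul]
  congr 1
  funext e
  cases e <;> rfl

theorem base_one : base (1 : Perm X) 1 = 1 := by
  rw [base, show (fun c : Bool => cond c (1 : Perm X) 1) = fun _ => 1 from
    funext fun c => by cases c <;> rfl, mk_one]

theorem base_inv (a b : Perm X) : (base a b)⁻¹ = base a⁻¹ b⁻¹ :=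
  inv_eq_of_mul_eq_one_right (by rw [base_mul]; simp [base_one])

theorem mk_false_eq (f : Bool → Perm X) : mk false f = base (f false) (f true) := by
  rw [base]; congr 1; funext c; cases c <;> rfl

theorem base_inj [Nonempty X] {a b c d : Perm X} (h : base a b = base c d) : a = c ∧ b = d :=
  ⟨congrFun (mk_inj h).2 false, congrFun (mk_inj h).2 true⟩

/-- The swap of the two copies. -/
def halves : Perm (Bool × X) := mk true (fun _ => 1)

theorem halves_mem (W : Subgroup (Perm X)) : halves ∈ wr W := mk_mem true fun _ => one_mem W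

theorem halves_base (a b : Perm X) : halves * base a b * halves⁻¹ = base b a := by
  rw [halves, base, base, mk_inv, mk_mul, mk_mul]
  congr 1
  funext c
  cases c <;> simp

section finite

variable [Fintype X] [DecidableEq X]

theorem sign_base (a b : Perm X) : Perm.sign (base a b) = Perm.sign a * Perm.sign b := by
  have : base a b = Equiv.prodCongrRight (fun c => cond c b a) := by
    ext ⟨c, x⟩ <;> cases c <;> simp [base, mk_apply]
  rw [this, Perm.sign_prodCongrRight, Fintype.prod_bool, mul_comm]
  rfl

theorem sign_halves : Perm.sign (halves : Perm (Bool × X)) = (-1) ^ Fintype.card X := by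
  have : (halves : Perm (Bool × X)) = Equiv.prodCongrLeft (fun _ : X => Equiv.swap false true) := by
    ext ⟨c, x⟩ <;> cases c <;> simp [halves, mk_apply]
  rw [this, Perm.sign_prodCongrLeft, Finset.prod_const, Perm.sign_swap (by decide), Finset.card_univ]

theorem card_wr [Nonempty X] (W : Subgroup (Perm X)) :
    Nat.card (wr W) = 2 * Nat.card W ^ 2 := by
  let F : Bool × (Bool → W) → wr W := fun q => ⟨mk q.1 (fun b => (q.2 b).1), mk_mem _ fun b => (q.2 b).2⟩
  have hF : Function.Bijective F := by
    refine ⟨fun q q' h => ?_, ?_⟩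
    · obtain ⟨h1, h2⟩ := mk_inj (show mk q.1 (fun b => (q.2 b).1) = mk q'.1 (fun b => (q'.2 b).1) from congrArg Subtype.val h)
      exact Prod.ext h1 (funext fun b => Subtype.ext (congrFun h2 b))
    · rintro ⟨_, e, f, hf, rfl⟩
      exact ⟨(e, fun b => ⟨f b, hf b⟩), rfl⟩
  rw [← Nat.card_congr (Equiv.ofBijective F hF), Nat.card_prod, Nat.card_fun]
  simp

end finite

/-- The properties propagated along the tower. -/
structure Good [Fintype X] [DecidableEq X] (W : Subgroup (Perm X)) : Prop where
  nonempty : Nonempty X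
  even : Even (Fintype.card X)
  split : ∀ U V : Subgroup (Perm X), U ≤ W → V ≤ W → U ⊔ V = W →
    (∀ u ∈ U, ∀ v ∈ V, u * v = v * u) →
    (∀ u ∈ U, ∀ w ∈ W, u * w = w * u) ∨ (∀ v ∈ V, ∀ w ∈ W, v * w = w * v)
  center : ∃ z ∈ W, z ≠ 1 ∧ Perm.sign z = 1 ∧ (∀ w ∈ W, z * w = w * z) ∧
    (∀ x ∈ W, (∀ w ∈ W, x * w = w * x) → x = 1 ∨ x = z) ∧
    ∃ s ∈ W, ∃ t ∈ W, Perm.sign s = 1 ∧ ⁅s, t⁆ = z
  odd : ∃ u ∈ W, Perm.sign u = -1
  noncomm : ∃ a ∈ W, ∃ b ∈ W, a * b ≠ b * a

/-- Only central elements centralise the even part. -/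
def EvenCentralizer [Fintype X] [DecidableEq X] (W : Subgroup (Perm X)) : Prop :=
  ∀ x ∈ W, (∀ w ∈ W, Perm.sign w = 1 → x * w = w * x) → ∀ w ∈ W, x * w = w * x

/-- The bottom of the tower: the dihedral group of order eight. -/
abbrev bottom : Subgroup (Perm (Bool × Bool)) := wr ⊤

theorem mem_bottom (σ : Perm (Bool × Bool)) :
    σ ∈ bottom ↔ ∀ b, (σ (b, false)).1 = (σ (b, true)).1 := by
  constructor
  · rintro ⟨e, f, -, rfl⟩ b
    simp [mk_apply]
  · intro h
    revert σ
    unfold bottom
    have key : ∀ σ : Perm (Bool × Bool), (∀ b, (σ (b, false)).1 = (σ (b, true)).1) →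
        ∃ e : Bool, ∃ f0 f1 : Perm Bool, ∀ q, σ q = (q.1 ^^ e, (cond q.1 f1 f0) q.2) := by
      decide +kernel
    intro σ h
    obtain ⟨e, f0, f1, hq⟩ := key σ h
    exact ⟨e, fun c => cond c f1 f0, fun _ => Subgroup.mem_top _, Equiv.ext fun q => hq q⟩

set_option synthInstance.maxSize 1024 in
theorem bottom_abelian_centralizer :
    ∀ x : Perm (Bool × Bool), (∀ b, (x (b, false)).1 = (x (b, true)).1) →
      x = 1 ∨ x = base (swap false true) (swap false true) ∨
      ∀ y : Perm (Bool × Bool), (∀ b, (y (b, false)).1 = (y (b, true)).1) → x * y = y * x →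
        ∀ w : Perm (Bool × Bool), (∀ b, (w (b, false)).1 = (w (b, true)).1) → x * w = w * x →
          y * w = w * y := by
  decide +kernel

theorem bottom_center :
    ∀ x : Perm (Bool × Bool), (∀ b, (x (b, false)).1 = (x (b, true)).1) →
      x * halves = halves * x →
      x * base (swap false true) 1 = base (swap false true) 1 * x →
      x = 1 ∨ x = base (swap false true) (swap false true) := by
  decide +kernel

theorem bottom_center_commutes :
    ∀ w : Perm (Bool × Bool), (∀ b, (w (b, false)).1 = (w (b, true)).1) →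
      base (swap false true) (swap false true) * w = w * base (swap false true) (swap false true) := by
  decide +kernel

theorem good_bottom : Good bottom := by
  have hCA := bottom_abelian_centralizer
  have hcen := bottom_center
  have hz := bottom_center_commutes
  set z : Perm (Bool × Bool) := base (swap false true) (swap false true) with hzdef
  have hW : ∀ {σ : Perm (Bool × Bool)}, σ ∈ bottom → ∀ b, (σ (b, false)).1 = (σ (b, true)).1 :=
    fun h => (mem_bottom _).1 h
  refine ⟨inferInstance, by decide, ?_, ?_, ⟨base (swap false true) 1,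
    base_mem (Subgroup.mem_top _) (Subgroup.mem_top _), by decide +kernel⟩,
    ⟨base (swap false true) 1, base_mem (Subgroup.mem_top _) (Subgroup.mem_top _), halves,
      halves_mem _, by decide +kernel⟩⟩
  · intro U V hU hV hUV hc
    by_contra hno
    push Not at hno
    obtain ⟨⟨u, hu, w₁, hw₁, hne₁⟩, v, hv, w₂, hw₂, hne₂⟩ := hno
    have notz : ∀ x, (∃ w ∈ bottom, x * w ≠ w * x) → x ≠ 1 ∧ x ≠ z := by
      rintro x ⟨w, hw, hne⟩
      exact ⟨fun h => hne (by rw [h]; simp), fun h => hne (by rw [h]; exact hz w (hW hw))⟩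
    obtain ⟨hu1, huz⟩ := notz u ⟨w₁, hw₁, hne₁⟩
    obtain ⟨hv1, hvz⟩ := notz v ⟨w₂, hw₂, hne₂⟩
    have hUC : ∀ x ∈ U, u * x = x * u := fun x hx =>
      ((hCA v (hW (hV hv))).resolve_left hv1).resolve_left hvz u (hW (hU hu)) (hc u hu v hv).symm
        x (hW (hU hx)) (hc x hx v hv).symm
    have hle : bottom ≤ Subgroup.centralizer {u} := by
      rw [← hUV, sup_le_iff]
      exact ⟨fun x hx => Subgroup.mem_centralizer_singleton_iff.2 (hUC x hx).symm,
        fun x hx => Subgroup.mem_centralizer_singleton_iff.2 (hc u hu x hx).symm⟩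
    exact hne₁ (Subgroup.mem_centralizer_singleton_iff.1 (hle hw₁)).symm
  · exact ⟨z, base_mem (Subgroup.mem_top _) (Subgroup.mem_top _), by decide +kernel,
      by decide +kernel, fun w hw => hz w (hW hw),
      fun x hx hxc => hcen x (hW hx) (hxc _ (halves_mem _))
        (hxc _ (base_mem (Subgroup.mem_top _) (Subgroup.mem_top _))),
      halves, halves_mem _, base (swap false true) 1,
      base_mem (Subgroup.mem_top _) (Subgroup.mem_top _), by decide +kernel, by decide +kernel⟩

variable [Fintype X] [DecidableEq X]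

theorem evenCentralizer_wr {W : Subgroup (Perm X)} (hW : Good W) : EvenCentralizer (wr W) := by
  have := hW.nonempty
  obtain ⟨z, hz, hz1, hzs, hzc, hzcen, -⟩ := hW.center
  rintro _ ⟨e, f, hf, rfl⟩ hcomm
  have h1 := hcomm _ (base_mem hz (one_mem W)) (by rw [sign_base, hzs, map_one, one_mul])
  rw [base, mk_mul, mk_mul] at h1
  have he : e = false := by
    by_contra he
    obtain rfl : e = true := by simpa using he
    have := congrFun (mk_inj h1).2 true
    simp at this
    exact hz1 this
  subst he
  rw [mk_false_eq] at hcomm ⊢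
  have hdiag : ∀ a ∈ W, f false * a = a * f false ∧ f true * a = a * f true := fun a ha => by
    have := hcomm _ (base_mem ha ha) (by rw [sign_base, Int.units_mul_self])
    rw [base_mul, base_mul] at this
    exact base_inj this
  have h2 := hcomm _ (halves_mem W) (by rw [sign_halves, hW.even.neg_one_pow])
  have hfe : f false = f true := by
    have h3 : base (f false) (f true) = base (f true) (f false) := by
      rw [← halves_base (f false) (f true), ← h2, mul_inv_cancel_right]
    exact (base_inj h3).1
  rintro _ ⟨d, g, hg, rfl⟩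
  rw [← mk_false_eq, mk_mul, mk_mul]
  congr 1
  · simp
  · funext c
    have hfc : f (c ^^ d) = f c := by cases c <;> cases d <;> simp [hfe]
    rw [hfc, Bool.xor_false]
    cases c
    · exact (hdiag _ (hg false)).1
    · exact (hdiag _ (hg true)).2

theorem good_wr {W : Subgroup (Perm X)} (hW : Good W) : Good (wr W) := by
  have := hW.nonempty
  obtain ⟨z, hz, hz1, hzs, hzc, hzcen, -⟩ := hW.center
  obtain ⟨a₀, ha₀, b₀, hb₀, hab⟩ := hW.noncomm
  obtain ⟨u₀, hu₀, hu₀s⟩ := hW.odd
  have hzz : z⁻¹ = z :=
    (hzcen _ (inv_mem hz) (fun w hw => ((show Commute z w from hzc w hw).inv_left).eq)).resolve_left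
      (inv_ne_one.2 hz1)
  refine ⟨inferInstance, by simp, ?_, ?_,
    ⟨base u₀ 1, base_mem hu₀ (one_mem W), by rw [sign_base, hu₀s, map_one, mul_one]⟩,
    ⟨base a₀ 1, base_mem ha₀ (one_mem W), base b₀ 1, base_mem hb₀ (one_mem W), fun h => by
      rw [base_mul, base_mul] at h; exact hab (base_inj h).1⟩⟩
  · -- commuting decompositions
    have main : ∀ U V : Subgroup (Perm (Bool × X)), U ≤ wr W → V ≤ wr W → U ⊔ V = wr W →
        (∀ u ∈ U, ∀ v ∈ V, u * v = v * u) → (∃ f, (∀ b, f b ∈ W) ∧ mk true f ∈ U) →
        ∀ v ∈ V, ∀ w ∈ wr W, v * w = w * v := by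
      rintro U V hU hV hUV hc ⟨f, hf, hu⟩ v hv
      have hnorm : ∀ g ∈ wr W, g ∈ Subgroup.normalizer (U : Set (Perm (Bool × X))) := by
        intro g hg
        rw [← hUV] at hg
        revert g
        show U ⊔ V ≤ _
        refine sup_le Subgroup.le_normalizer fun g hg => ?_
        rw [Subgroup.mem_normalizer_iff]
        have key : ∀ h ∈ U, ∀ g ∈ V, g * h * g⁻¹ = h := fun h hh g hg => by
          rw [← hc h hh g hg, mul_inv_cancel_right]
        intro h
        refine ⟨fun hh => by rw [key h hh g hg]; exact hh, fun hh => ?_⟩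
        have h2 := key _ hh g⁻¹ (inv_mem hg)
        rw [inv_inv, show g⁻¹ * (g * h * g⁻¹) * g = h by group] at h2
        rw [h2]
        exact hh
      have hsk : ∀ a ∈ W, base a⁻¹ (f false * a * (f false)⁻¹) ∈ U := fun a ha => by
        have hga : base a 1 ∈ wr W := base_mem ha (one_mem W)
        have h1 : base a 1 * (mk true f)⁻¹ * (base a 1)⁻¹ ∈ U :=
          (Subgroup.mem_normalizer_iff.1 (hnorm _ hga) _).1 (inv_mem hu)
        have h2 := mul_mem hu h1
        have e1 : mk true f * base a 1 * (mk true f)⁻¹ = base 1 (f false * a * (f false)⁻¹) := by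
          rw [base, base, mk_inv, mk_mul, mk_mul]
          congr 1
          funext c
          cases c <;> simp
        rw [← mul_assoc, ← mul_assoc, e1, base_inv, base_mul, one_mul, inv_one, mul_one] at h2
        exact h2
      obtain ⟨d, g, hg, rfl⟩ := hV hv
      have hd : d = false := by
        by_contra hd
        obtain rfl : d = true := by simpa using hd
        have hk := mul_mem (mul_mem (hsk _ ha₀) (hsk _ hb₀)) (inv_mem (hsk _ (mul_mem ha₀ hb₀)))
        have hk' := hc _ hk _ hv
        rw [base_mul, base_inv, base_mul, show f false * a₀ * (f false)⁻¹ * (f false * b₀ * (f false)⁻¹)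
            * (f false * (a₀ * b₀) * (f false)⁻¹)⁻¹ = 1 by group, base, mk_mul, mk_mul] at hk'
        have := congrFun (mk_inj hk').2 false
        simp at this
        have h3 : a₀⁻¹ * b₀⁻¹ = (a₀ * b₀)⁻¹ := mul_inv_eq_one.1 (by simpa using this)
        rw [_root_.mul_inv_rev] at h3
        apply hab
        have := congrArg (·⁻¹) h3
        simpa using this.symm
      subst hd
      rw [mk_false_eq] at hv ⊢
      have hpair : ∀ a ∈ W, g false * a = a * g false ∧ g true * a = a * g true := fun a ha => by
        constructor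
        · have := hc _ (hsk a⁻¹ (inv_mem ha)) _ hv
          rw [base_mul, base_mul, inv_inv] at this
          exact (base_inj this).1.symm
        · have hb : (f false)⁻¹ * a * f false ∈ W :=
            mul_mem (mul_mem (inv_mem (hf _)) ha) (hf _)
          have := hc _ (hsk _ hb) _ hv
          rw [base_mul, base_mul] at this
          have h2 := (base_inj this).2
          rw [show f false * ((f false)⁻¹ * a * f false) * (f false)⁻¹ = a by group] at h2
          exact h2.symm
      have hswap : g false = g true := by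
        have h := hc _ hu _ hv
        rw [base, mk_mul, mk_mul] at h
        have h2 := congrFun (mk_inj h).2 false
        simp at h2
        have := (hpair _ (hf false)).2
        exact mul_left_cancel (h2.trans this)
      rintro _ ⟨d, h, hh, rfl⟩
      rw [← mk_false_eq, mk_mul, mk_mul]
      congr 1
      · simp
      · funext c
        have hgc : g (c ^^ d) = g c := by cases c <;> cases d <;> simp [hswap]
        rw [hgc, Bool.xor_false]
        cases c
        · exact (hpair _ (hh false)).1
        · exact (hpair _ (hh true)).2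
    intro U V hU hV hUV hc
    by_cases hUt : ∃ f, (∀ b, f b ∈ W) ∧ mk true f ∈ U
    · exact Or.inr (main U V hU hV hUV hc hUt)
    by_cases hVt : ∃ f, (∀ b, f b ∈ W) ∧ mk true f ∈ V
    · exact Or.inl (main V U hV hU (by rw [sup_comm, hUV])
        (fun v hv u hu => (hc u hu v hv).symm) hVt)
    exfalso
    have hbase : ∀ S : Subgroup (Perm (Bool × X)), S ≤ wr W →
        ¬ (∃ f, (∀ b, f b ∈ W) ∧ mk true f ∈ S) →
        ∀ s ∈ S, ∀ b x, (s (b, x)).1 = b := fun S hS hno s hs b x => by
      obtain ⟨e, f, hf, rfl⟩ := hS hs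
      cases e
      · simp [mk_apply]
      · exact absurd ⟨f, hf, hs⟩ hno
    let K : Subgroup (Perm (Bool × X)) :=
      { carrier := {σ | ∀ b x, (σ (b, x)).1 = b}
        one_mem' := fun b x => rfl
        mul_mem' := fun {s t} hs ht b x => by
          obtain ⟨c, y, hcy⟩ : ∃ c y, t (b, x) = (c, y) := ⟨_, _, rfl⟩
          rw [Perm.mul_apply, hcy, hs, ← ht b x, hcy]
        inv_mem' := fun {s} hs b x => by
          obtain ⟨c, y, hcy⟩ : ∃ c y, s⁻¹ (b, x) = (c, y) := ⟨_, _, rfl⟩
          rw [hcy]
          have := hs c y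
          rw [← hcy, show s (s⁻¹ (b, x)) = (b, x) from s.apply_symm_apply _] at this
          exact this.symm }
    have hle : wr W ≤ K := hUV ▸ sup_le (hbase U hU hUt) (hbase V hV hVt)
    obtain ⟨x⟩ := hW.nonempty
    have := hle (halves_mem W) false x
    simp [halves, mk_apply] at this
  · refine ⟨base z z, base_mem hz hz, fun h => hz1 (base_inj (h.trans base_one.symm)).1,
      by rw [sign_base, hzs, one_mul], ?_, ?_, halves, halves_mem W, base z 1,
      base_mem hz (one_mem W), by rw [sign_halves, hW.even.neg_one_pow], ?_⟩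
    · rintro _ ⟨d, g, hg, rfl⟩
      rw [base, mk_mul, mk_mul]
      congr 1
      · simp
      · funext c
        cases c <;> cases d <;> simp [hzc _ (hg _)]
    · intro x hx hxc
      have hev := hxc
      obtain ⟨e, f, hf, rfl⟩ := hx
      have h1 := hxc _ (base_mem hz (one_mem W))
      rw [base, mk_mul, mk_mul] at h1
      have he : e = false := by
        by_contra he
        obtain rfl : e = true := by simpa using he
        have := congrFun (mk_inj h1).2 true
        simp at this
        exact hz1 this
      subst he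
      rw [mk_false_eq] at hev ⊢
      have hdiag : ∀ a ∈ W, f false * a = a * f false ∧ f true * a = a * f true := fun a ha => by
        have := hev _ (base_mem ha ha)
        rw [base_mul, base_mul] at this
        exact base_inj this
      have hfe : f false = f true := by
        have h3 : base (f false) (f true) = base (f true) (f false) := by
          rw [← halves_base (f false) (f true), ← hev _ (halves_mem W), mul_inv_cancel_right]
        exact (base_inj h3).1
      rcases hzcen _ (hf false) (fun a ha => (hdiag a ha).1) with h | h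
      · exact Or.inl (by rw [← hfe, h, base_one])
      · exact Or.inr (by rw [← hfe, h])
    · rw [commutatorElement_def, halves_base, base_inv, base_mul, one_mul, inv_one, mul_one, hzz]

/-- The tower: on `2^(i+2)` points, a group of order `2^(2^(i+2)-1)`. -/
theorem exists_level : ∀ i : ℕ, ∃ (X : Type) (_ : Fintype X) (_ : DecidableEq X)
    (W : Subgroup (Perm X)), Fintype.card X = 2 ^ (i + 2) ∧
      Nat.card W = 2 ^ (2 ^ (i + 2) - 1) ∧ Good W ∧ (1 ≤ i → EvenCentralizer W)
  | 0 => by
    refine ⟨Bool × Bool, inferInstance, inferInstance, bottom, by simp, ?_, good_bottom,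
      fun h => absurd h (by decide)⟩
    rw [bottom, card_wr, Subgroup.card_top, Nat.card_perm, Nat.card_eq_fintype_card,
      Fintype.card_bool]
    rfl
  | i + 1 => by
    obtain ⟨X, _, _, W, hX, hW, hg, -⟩ := exists_level i
    have := hg.nonempty
    refine ⟨Bool × X, inferInstance, inferInstance, wr W, ?_, ?_, good_wr hg,
      fun _ => evenCentralizer_wr hg⟩
    · rw [Fintype.card_prod, Fintype.card_bool, hX]; ring
    · rw [card_wr, hW, ← pow_mul, ← pow_succ']
      congr 1
      have : 1 ≤ 2 ^ (i + 2) := Nat.one_le_two_pow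
      rw [show i + 1 + 2 = (i + 2) + 1 from rfl, pow_succ 2 (i + 2)]
      have h3 : 1 ≤ 2 ^ (i + 2) := Nat.one_le_two_pow
      omega

end Cfsg.Agent.H62.WreathTwo
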